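import Mathlib
import Cfsg.Prelude.Def_Perm
import Cfsg.Agent.S0671
import Cfsg.Agent.S0674
import Cfsg.Agent.S0675

set_option autoImplicit false

/-!
Closures of subgroups of the one-dimensional affine group `AGL₁(p)`, via Burnside's theorem on
permutation groups of prime degree (helper14's S0671/S0674/S0675).
-/

namespace Cfsg.Agent.Helper2.Cl2Aff

open Cfsg

/-- the 2-closure of a permutation group -/
def cl2 {α : Type*} (G : Subgroup (Equiv.Perm α)) : Subgroup (Equiv.Perm α) where
  carrier := {σ | ∀ t : Fin 2 → α, ∃ g ∈ G, ∀ i, σ (t i) = g (t i)}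
  one_mem' := fun _ => ⟨1, G.one_mem, fun _ => rfl⟩
  mul_mem' := by
    intro σ τ hσ hτ t
    obtain ⟨g, hg, hgt⟩ := hτ t
    obtain ⟨g', hg', hgt'⟩ := hσ (fun i => g (t i))
    refine ⟨g' * g, G.mul_mem hg' hg, fun i => ?_⟩
    show σ (τ (t i)) = g' (g (t i))
    rw [hgt i]
    exact hgt' i
  inv_mem' := by
    intro σ hσ t
    obtain ⟨g, hg, hgt⟩ := hσ (fun i => σ⁻¹ (t i))
    refine ⟨g⁻¹, G.inv_mem hg, fun i => ?_⟩
    have h : σ (σ⁻¹ (t i)) = g (σ⁻¹ (t i)) := hgt i
    have h' : σ (σ⁻¹ (t i)) = t i := by simp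
    rw [Equiv.Perm.eq_inv_iff_eq]
    exact h.symm.trans h'

/-- a permutation group on `ZMod p` containing the translation is affine or 2-transitive -/
theorem aff_or_2t {p : ℕ} [Fact p.Prime] (H : Subgroup (Equiv.Perm (ZMod p)))
    (hτ : Equiv.subRight (1 : ZMod p) ∈ H) [MulAction.IsPretransitive H (ZMod p)] :
    (∀ π ∈ H, ∀ j, π j = (π 1 - π 0) * j + π 0) ∨
      MulAction.IsMultiplyPretransitive H (ZMod p) 2 := by
  classical
  have hα : Fintype.card (ZMod p) = p := ZMod.card p
  by_cases hW : ∀ W : Subrepresentation (Cfsg.permRep (ZMod p) H (ZMod p)),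
      (Cfsg.permConstants (ZMod p) H (ZMod p)).toSubmodule ≤ W.toSubmodule →
      W.toSubmodule ≤ (Cfsg.permSumZero (ZMod p) H (ZMod p)).toSubmodule →
      W = Cfsg.permConstants (ZMod p) H (ZMod p) ∨ W = Cfsg.permSumZero (ZMod p) H (ZMod p)
  · by_cases hno : ∃ g : H, ∃ v ∈ (Cfsg.permSumZero (ZMod p) H (ZMod p)).toSubmodule,
        Cfsg.permRep (ZMod p) H (ZMod p) g v - v
          ∉ (Cfsg.permConstants (ZMod p) H (ZMod p)).toSubmodule
    · right
      have hcard : Fintype.card (ZMod p) = p ^ 1 := by rw [pow_one, hα]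
      apply S0671.result (K := ZMod p) (p := p) (f := 1) le_rfl hcard
      intro W W' hCW hlt hW'S
      have hWS : W.toSubmodule ≤ (Cfsg.permSumZero (ZMod p) H (ZMod p)).toSubmodule :=
        le_trans hlt.le hW'S
      have hCW' : (Cfsg.permConstants (ZMod p) H (ZMod p)).toSubmodule ≤ W'.toSubmodule :=
        le_trans hCW hlt.le
      have h1 := hW W hCW hWS
      have h2 := hW W' hCW' hW'S
      have hW1 : W = Cfsg.permConstants (ZMod p) H (ZMod p) := by
        rcases h1 with h | h
        · exact h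
        · exfalso
          rw [h] at hlt
          exact absurd (lt_of_lt_of_le hlt hW'S) (lt_irrefl _)
      have hW2 : W' = Cfsg.permSumZero (ZMod p) H (ZMod p) := by
        rcases h2 with h | h
        · exfalso
          rw [h, hW1] at hlt
          exact lt_irrefl _ hlt
        · exact h
      rw [hW1, hW2]
      exact hno
    · left
      have hcomm : ∀ a b : H, a * b = b * a := by
        apply S0675.comm_of_trivial hα H
        intro g v hv
        by_contra hnot
        exact hno ⟨g, v, hv, hnot⟩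
      intro π hπ
      have hstep : ∀ x : ZMod p, π (x + 1) = π x + 1 := by
        intro x
        have h1 := hcomm ⟨π, hπ⟩ ⟨Equiv.subRight 1, hτ⟩
        have h2 : π * Equiv.subRight 1 = Equiv.subRight 1 * π := congrArg Subtype.val h1
        have h3 := Equiv.congr_fun h2 (x + 1)
        rw [Equiv.Perm.mul_apply, Equiv.Perm.mul_apply, Equiv.subRight_apply,
          Equiv.subRight_apply, add_sub_cancel_right] at h3
        rw [h3, sub_add_cancel]
      have hnat : ∀ n : ℕ, π (n : ZMod p) = (n : ZMod p) + π 0 := by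
        intro n
        induction n with
        | zero => rw [Nat.cast_zero, zero_add]
        | succ n ih => rw [Nat.cast_succ, hstep, ih]; ring
      have hj : ∀ j : ZMod p, π j = j + π 0 := by
        intro j
        have h := hnat j.val
        rw [ZMod.natCast_zmod_val] at h
        exact h
      intro j
      rw [hj 1, add_sub_cancel_right, one_mul]
      exact hj j
  · left
    push Not at hW
    obtain ⟨W, h₁, h₂, hne1, hne2⟩ := hW
    have hC1 : Module.finrank (ZMod p)
        (Cfsg.permConstants (ZMod p) H (ZMod p)).toSubmodule = 1 := by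
      show Module.finrank (ZMod p)
        (Submodule.span (ZMod p) {(fun _ => 1 : ZMod p → ZMod p)}) = 1
      apply finrank_span_singleton
      intro h
      have := congrFun h (0 : ZMod p)
      simp at this
    have hSlt : Module.finrank (ZMod p)
        (Cfsg.permSumZero (ZMod p) H (ZMod p)).toSubmodule < p := by
      have hne : (Cfsg.permSumZero (ZMod p) H (ZMod p)).toSubmodule ≠ ⊤ := by
        intro h
        have hmem : (Pi.single (0 : ZMod p) 1 : ZMod p → ZMod p)
            ∈ (Cfsg.permSumZero (ZMod p) H (ZMod p)).toSubmodule := by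
          rw [h]; trivial
        have h0 : ∑ x, (Pi.single (0 : ZMod p) 1 : ZMod p → ZMod p) x = 0 := hmem
        rw [Finset.sum_pi_single'] at h0
        simp at h0
      have := Submodule.finrank_lt hne
      rwa [Module.finrank_fintype_fun_eq_card, hα] at this
    have hlt1 : (Cfsg.permConstants (ZMod p) H (ZMod p)).toSubmodule < W.toSubmodule :=
      lt_of_le_of_ne h₁ (fun h => hne1 (Subrepresentation.toSubmodule_injective h.symm))
    have hlt2 : W.toSubmodule < (Cfsg.permSumZero (ZMod p) H (ZMod p)).toSubmodule :=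
      lt_of_le_of_ne h₂ (fun h => hne2 (Subrepresentation.toSubmodule_injective h))
    have hf1 := Submodule.finrank_lt_finrank_of_lt hlt1
    have hf2 := Submodule.finrank_lt_finrank_of_lt hlt2
    have hinv : ∀ π ∈ H, ∀ f : ZMod p → ZMod p, f ∈ W.toSubmodule →
        (fun j : ZMod p => f (π j)) ∈ W.toSubmodule := by
      intro π hπ f hf
      have h := W.apply_mem_toSubmodule ((⟨π, hπ⟩ : H)⁻¹) hf
      have e : Cfsg.permRep (ZMod p) H (ZMod p) ((⟨π, hπ⟩ : H)⁻¹) f
          = fun j : ZMod p => f (π j) := by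
        funext j
        show f (((⟨π, hπ⟩ : H)⁻¹)⁻¹ • j) = f (π j)
        rw [inv_inv]
        rfl
      rw [e] at h
      exact h
    exact S0674.coreB W.toSubmodule H hτ hinv (by omega) (by omega)

theorem exists_affine {p : ℕ} [Fact p.Prime] (a b : ZMod p) (ha : a ≠ 0) :
    ∃ g ∈ Cfsg.affineGroup (ZMod p), ∀ x, g x = a * x + b := by
  refine ⟨(Equiv.mulLeft₀ a ha).trans (Equiv.addRight b), ?_, fun x => by simp⟩
  show ∃ a' : (ZMod p)ˣ, ∃ b' : ZMod p, ∀ x,
    ((Equiv.mulLeft₀ a ha).trans (Equiv.addRight b)) x = (a' : ZMod p) * x + b'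
  exact ⟨Units.mk0 a ha, b, fun x => by simp⟩

theorem main (p : ℕ) [Fact p.Prime] (G : Subgroup (Equiv.Perm (ZMod p)))
    (hG : G ≤ Cfsg.affineGroup (ZMod p))
    (htrans : ∀ b : ZMod p, ∃ g ∈ G, ∀ x, g x = x + b) :
    (G ≠ Cfsg.affineGroup (ZMod p) → ∀ σ : Equiv.Perm (ZMod p),
      (∀ t : Fin 2 → ZMod p, ∃ g ∈ G, ∀ i, σ (t i) = g (t i)) → σ ∈ G) ∧
    (∀ σ : Equiv.Perm (ZMod p), (∀ t : Fin 2 → ZMod p,
      ∃ g ∈ Cfsg.affineGroup (ZMod p), ∀ i, σ (t i) = g (t i))) ∧
    (∀ σ : Equiv.Perm (ZMod p), (∀ t : Fin 3 → ZMod p,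
      ∃ g ∈ Cfsg.affineGroup (ZMod p), ∀ i, σ (t i) = g (t i)) →
        σ ∈ Cfsg.affineGroup (ZMod p)) := by
  classical
  have h01 : (0 : ZMod p) ≠ 1 := zero_ne_one
  have haffA : ∀ g ∈ Cfsg.affineGroup (ZMod p), ∀ j, g j = (g 1 - g 0) * j + g 0 := by
    intro g hg j
    obtain ⟨a, b, hab⟩ := hg
    rw [hab j, hab 1, hab 0]
    ring
  refine ⟨?_, ?_, ?_⟩
  · intro hne σ hσ
    have hGH : G ≤ cl2 G := fun g hg t => ⟨g, hg, fun i => rfl⟩
    have hσH : σ ∈ cl2 G := hσ
    have hτG : Equiv.subRight (1 : ZMod p) ∈ G := by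
      obtain ⟨g, hg, hgx⟩ := htrans (-1)
      have e : g = Equiv.subRight (1 : ZMod p) := by
        apply Equiv.ext
        intro x
        rw [hgx, Equiv.subRight_apply, sub_eq_add_neg]
      rw [← e]; exact hg
    haveI : MulAction.IsPretransitive (cl2 G) (ZMod p) := by
      refine ⟨fun x y => ?_⟩
      obtain ⟨g, hg, hgx⟩ := htrans (y - x)
      refine ⟨⟨g, hGH hg⟩, ?_⟩
      show g x = y
      rw [hgx]; ring
    rcases aff_or_2t (cl2 G) (hGH hτG) with haff | h2t
    · obtain ⟨g, hg, hgt⟩ := hσ ![0, 1]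
      have h0 : σ 0 = g 0 := by have h := hgt 0; simpa using h
      have h1 : σ 1 = g 1 := by have h := hgt 1; simpa using h
      have hσg : σ = g := by
        apply Equiv.ext
        intro j
        rw [haff σ hσH j, haffA g (hG hg) j, h0, h1]
      rw [hσg]; exact hg
    · exfalso
      apply hne
      apply le_antisymm hG
      intro φ hφ
      obtain ⟨a, b, hab⟩ := hφ
      have hne' : (b : ZMod p) ≠ (a : ZMod p) + b := by
        intro h
        have h0 : (a : ZMod p) = 0 := by linear_combination -h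
        exact a.ne_zero h0
      obtain ⟨s, hs0, hs1⟩ := MulAction.is_two_pretransitive_iff.1 h2t h01 hne'
      have hs0' : (s : Equiv.Perm (ZMod p)) 0 = b := hs0
      have hs1' : (s : Equiv.Perm (ZMod p)) 1 = (a : ZMod p) + b := hs1
      obtain ⟨g, hg, hgt⟩ := s.2 ![0, 1]
      have h0 : (s : Equiv.Perm (ZMod p)) 0 = g 0 := by have h := hgt 0; simpa using h
      have h1 : (s : Equiv.Perm (ZMod p)) 1 = g 1 := by have h := hgt 1; simpa using h
      have hφg : φ = g := by
        apply Equiv.ext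
        intro j
        rw [hab j, haffA g (hG hg) j, ← h0, ← h1, hs0', hs1']
        ring
      rw [hφg]; exact hg
  · intro σ t
    by_cases ht : t 0 = t 1
    · refine ⟨Equiv.addRight (σ (t 0) - t 0), ?_, ?_⟩
      · show ∃ a : (ZMod p)ˣ, ∃ b : ZMod p, ∀ x,
          Equiv.addRight (σ (t 0) - t 0) x = (a : ZMod p) * x + b
        exact ⟨1, σ (t 0) - t 0, fun x => by simp⟩
      · rw [Fin.forall_fin_two]
        constructor
        · show σ (t 0) = t 0 + (σ (t 0) - t 0)
          ring
        · show σ (t 1) = t 1 + (σ (t 0) - t 0)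
          rw [← ht]; ring
    · have hd : t 1 - t 0 ≠ 0 := sub_ne_zero.2 (Ne.symm ht)
      have hn : σ (t 1) - σ (t 0) ≠ 0 :=
        sub_ne_zero.2 (fun h => ht (σ.injective h).symm)
      obtain ⟨g, hg, hgx⟩ := exists_affine ((σ (t 1) - σ (t 0)) / (t 1 - t 0))
        (σ (t 0) - (σ (t 1) - σ (t 0)) / (t 1 - t 0) * t 0) (div_ne_zero hn hd)
      have e : (σ (t 1) - σ (t 0)) / (t 1 - t 0) * (t 1 - t 0) = σ (t 1) - σ (t 0) :=
        div_mul_cancel₀ _ hd
      refine ⟨g, hg, ?_⟩
      rw [Fin.forall_fin_two]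
      constructor
      · rw [hgx]; ring
      · rw [hgx]
        linear_combination -e
  · intro σ h
    have hσ : ∀ x, σ x = (σ 1 - σ 0) * x + σ 0 := by
      intro x
      obtain ⟨g, hg, hgt⟩ := h ![0, 1, x]
      have h0 : σ 0 = g 0 := by have h := hgt 0; simpa using h
      have h1 : σ 1 = g 1 := by have h := hgt 1; simpa using h
      have h2 : σ x = g x := by have h := hgt 2; simpa using h
      rw [h2, haffA g hg x, h0, h1]
    have hane : σ 1 - σ 0 ≠ 0 := sub_ne_zero.2 (fun h' => h01 (σ.injective h').symm)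
    show ∃ a : (ZMod p)ˣ, ∃ b : ZMod p, ∀ x, σ x = (a : ZMod p) * x + b
    exact ⟨Units.mk0 _ hane, σ 0, hσ⟩

end Cfsg.Agent.Helper2.Cl2Aff
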