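import Mathlib
import Cfsg.Agent.Helper28.NilGrp

set_option autoImplicit false

open scoped Pointwise

namespace Cfsg.Agent.Helper2.NilMax

theorem B_eq3 (n : ℕ) (hn : n % 4 = 3) :
    Helper28.NilNum.B n = 3 * 2 ^ Helper28.NilNum.V (n - 3) := by
  obtain ⟨j, rfl⟩ : ∃ j, n = 4 * j + 3 := ⟨n / 4, by omega⟩
  rw [Helper28.NilNum.B_eq j 3 (by norm_num), Helper28.NilNum.g_three, Nat.add_sub_cancel,
    Helper28.NilNum.V_four, mul_comm]

theorem V_lt (n : ℕ) (hn : n % 4 = 3) (h4 : 4 ≤ n) :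
    Helper28.NilNum.V (n - 4) < Helper28.NilNum.V (n - 3) := by
  obtain ⟨i, rfl⟩ : ∃ i, n = 4 * (i + 1) + 3 := ⟨n / 4 - 1, by omega⟩
  have e1 : 4 * (i + 1) + 3 - 4 = 4 * i + 3 := by omega
  have e2 : 4 * (i + 1) + 3 - 3 = 4 * (i + 1) := by omega
  rw [e1, e2, Helper28.NilNum.V_four_add_three, Helper28.NilNum.V_four]
  have := Helper28.NilNum.V_mono (show i ≤ i + 1 by omega)
  omega

/-- The complement of an invariant finset as a sub-action. -/
def offSet {n : ℕ} (Q : Subgroup (Equiv.Perm (Fin n))) (R : Finset (Fin n))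
    (hR : ∀ q ∈ Q, ∀ x, x ∈ R → q x ∈ R) : SubMulAction Q (Fin n) where
  carrier := {x | x ∉ R}
  smul_mem' := by
    intro q x hx
    have hx' : x ∉ R := hx
    show q • x ∉ R
    intro hqx
    apply hx'
    have h := hR (q : Equiv.Perm (Fin n))⁻¹ (inv_mem q.2) _ hqx
    have e : (q : Equiv.Perm (Fin n))⁻¹ (q • x) = x :=
      (q : Equiv.Perm (Fin n)).symm_apply_apply x
    rw [e] at h
    exact h

theorem faithful_bound {n : ℕ} (Q : Subgroup (Equiv.Perm (Fin n))) (w : ℕ)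
    (hQ : Nat.card Q = 2 ^ w) (R : Finset (Fin n))
    (hR : ∀ q ∈ Q, ∀ x, x ∈ R → q x ∈ R)
    (hf : ∀ q ∈ Q, (∀ x, x ∉ R → q x = x) → q = 1) :
    w ≤ Helper28.NilNum.V (n - R.card) := by
  have : Fact (Nat.Prime 2) := ⟨Nat.prime_two⟩
  have hinj : Function.Injective (MulAction.toPermHom Q ↥(offSet Q R hR)) := by
    rw [injective_iff_map_eq_one]
    intro q hq
    have h1 : (q : Equiv.Perm (Fin n)) = 1 := by
      apply hf _ q.2
      intro x hx
      have h2 := congrArg (fun σ : Equiv.Perm ↥(offSet Q R hR) => (σ ⟨x, hx⟩ : Fin n)) hq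
      exact h2
    exact Subtype.ext h1
  have hdvd : Nat.card Q ∣ Nat.card (Equiv.Perm ↥(offSet Q R hR)) :=
    Subgroup.card_dvd_of_injective _ hinj
  have hc : Nat.card ↥(offSet Q R hR) = n - R.card := by
    have e : ↥(offSet Q R hR) ≃ {x : Fin n // ¬ (x ∈ R)} :=
      Equiv.subtypeEquivRight (fun x => Iff.rfl)
    rw [Nat.card_congr e, Nat.card_eq_fintype_card, Fintype.card_subtype_compl, Fintype.card_fin,
      Fintype.card_coe]
  rw [Nat.card_perm, hc, hQ] at hdvd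
  exact (padicValNat_dvd_iff_le (Nat.factorial_ne_zero _)).mp hdvd

theorem iter_eq {α : Type*} (q d : Equiv.Perm α) (hqd : q * d = d * q) (x : α)
    (hx : q x = d x) (j : ℕ) : (q ^ j) x = (d ^ j) x := by
  induction j with
  | zero => rfl
  | succ j ih =>
    have hc : q ^ j * d = d * q ^ j := (Commute.pow_left (show Commute q d from hqd) j).eq
    have h1 : (q ^ j) (d x) = d ((q ^ j) x) := Equiv.Perm.congr_fun hc x
    have h2 : d ((d ^ j) x) = (d ^ j) (d x) := by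
      rw [← Equiv.Perm.mul_apply, ← Equiv.Perm.mul_apply, ← pow_succ', ← pow_succ]
    rw [pow_succ, pow_succ, Equiv.Perm.mul_apply, Equiv.Perm.mul_apply, hx, h1, ih, h2]

theorem pow_ne {α : Type*} (c : Equiv.Perm α) (hc3 : c ^ 3 = 1) (x : α) (hx : c x ≠ x) (j : ℕ)
    (hj : ¬ 3 ∣ j) : (c ^ j) x ≠ x := by
  have hmod : c ^ j = c ^ (j % 3) := by
    have e : j = 3 * (j / 3) + j % 3 := (Nat.div_add_mod j 3).symm
    calc c ^ j = c ^ (3 * (j / 3) + j % 3) := by rw [← e]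
      _ = c ^ (j % 3) := by rw [pow_add, pow_mul, hc3, one_pow, one_mul]
  rw [hmod]
  have e3 : c * c * c = 1 := by rw [← hc3, pow_succ, pow_succ, pow_one]
  have h3 : c (c (c x)) = x := Equiv.Perm.congr_fun e3 x
  have hr : j % 3 = 1 ∨ j % 3 = 2 := by omega
  rcases hr with hr | hr
  · rw [hr, pow_one]; exact hx
  · rw [hr, pow_two]
    intro h
    apply hx
    have h4 : c (c (c x)) = c x := congrArg c h
    rw [h3] at h4
    exact h4.symm

theorem no_shift {α : Type*} (c q : Equiv.Perm α) (hc3 : c ^ 3 = 1) (hqc : q * c = c * q)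
    (k : ℕ) (hq : q ^ (2 ^ k) = 1) (x : α) (hx : c x ≠ x) :
    q x ≠ c x ∧ q x ≠ c (c x) := by
  have h3 : ¬ 3 ∣ 2 ^ k := by
    intro h
    have := Nat.Prime.dvd_of_dvd_pow Nat.prime_three h
    omega
  constructor
  · intro h
    have e := iter_eq q c hqc x h (2 ^ k)
    rw [hq] at e
    have e' : (c ^ 2 ^ k) x = x := e.symm
    exact pow_ne c hc3 x hx (2 ^ k) h3 e'
  · intro h
    have hd : q * (c * c) = (c * c) * q :=
      ((show Commute q c from hqc).mul_right (show Commute q c from hqc)).eq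
    have e := iter_eq q (c * c) hd x h (2 ^ k)
    rw [hq] at e
    have e2 : (c * c) ^ (2 ^ k) = c ^ (2 * 2 ^ k) := by
      rw [← pow_two, ← pow_mul]
    rw [e2] at e
    have h6 : ¬ 3 ∣ 2 * 2 ^ k := by
      intro h
      rcases (Nat.Prime.dvd_mul Nat.prime_three).mp h with h' | h'
      · omega
      · exact h3 h'
    have e' : (c ^ (2 * 2 ^ k)) x = x := e.symm
    exact pow_ne c hc3 x hx _ h6 e'

theorem claim1 {n : ℕ} (c : Equiv.Perm (Fin n)) (Q : Subgroup (Equiv.Perm (Fin n)))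
    (hc3 : c ^ 3 = 1) (hcq : ∀ q ∈ Q, q * c = c * q) (hq2 : ∀ q ∈ Q, ∃ k : ℕ, q ^ 2 ^ k = 1)
    (hv4 : ∀ R : Finset (Fin n), (∀ q ∈ Q, ∀ x, x ∈ R → q x ∈ R) →
      (∀ q ∈ Q, (∀ x, x ∉ R → q x = x) → q = 1) → 4 ≤ R.card → False) :
    ∀ q ∈ Q, ∀ x, c x ≠ x → q x = x := by
  classical
  intro q1 hq1 x hx
  by_contra hne
  have e3 : c * c * c = 1 := by rw [← hc3, pow_succ, pow_succ, pow_one]
  have h3 : ∀ y, c (c (c y)) = y := fun y => Equiv.Perm.congr_fun e3 y
  have hsh : ∀ q ∈ Q, q x ≠ c x ∧ q x ≠ c (c x) := by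
    intro q hq
    obtain ⟨k, hk⟩ := hq2 q hq
    exact no_shift c q hc3 (hcq q hq) k hk x hx
  have hcomm : ∀ q ∈ Q, ∀ y, q (c y) = c (q y) :=
    fun q hq y => Equiv.Perm.congr_fun (hcq q hq) y
  obtain ⟨R, hR⟩ : ∃ R : Finset (Fin n),
      ∀ z, z ∈ R ↔ ∃ q ∈ Q, z = c (q x) ∨ z = c (c (q x)) :=
    ⟨Finset.univ.filter (fun z => ∃ q ∈ Q, z = c (q x) ∨ z = c (c (q x))), fun z => by
      rw [Finset.mem_filter]; exact ⟨fun h => h.2, fun h => ⟨Finset.mem_univ z, h⟩⟩⟩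
  have hoff : ∀ q ∈ Q, q x ∉ R := by
    intro q hq hmem
    obtain ⟨q', hq', h | h⟩ := (hR _).mp hmem
    · have hm : q'⁻¹ * q ∈ Q := Q.mul_mem (Q.inv_mem hq') hq
      apply (hsh _ hm).1
      show q'⁻¹ (q x) = c x
      rw [h, ← hcomm q' hq']
      exact q'.symm_apply_apply (c x)
    · have hm : q'⁻¹ * q ∈ Q := Q.mul_mem (Q.inv_mem hq') hq
      apply (hsh _ hm).2
      show q'⁻¹ (q x) = c (c x)
      rw [h, ← hcomm q' hq', ← hcomm q' hq']
      exact q'.symm_apply_apply (c (c x))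
  have hinv : ∀ q ∈ Q, ∀ z, z ∈ R → q z ∈ R := by
    intro q hq z hz
    obtain ⟨q', hq', h | h⟩ := (hR z).mp hz
    · refine (hR _).mpr ⟨q * q', Q.mul_mem hq hq', Or.inl ?_⟩
      rw [h, hcomm q hq]
      rfl
    · refine (hR _).mpr ⟨q * q', Q.mul_mem hq hq', Or.inr ?_⟩
      rw [h, hcomm q hq, hcomm q hq]
      rfl
  have hfaith : ∀ q ∈ Q, (∀ z, z ∉ R → q z = z) → q = 1 := by
    intro q hq hfix
    have hO : ∀ q' ∈ Q, q (q' x) = q' x := fun q' hq' => hfix _ (hoff q' hq')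
    apply Equiv.Perm.ext
    intro z
    show q z = z
    by_cases hz : z ∈ R
    · obtain ⟨q', hq', h | h⟩ := (hR z).mp hz
      · rw [h, hcomm q hq, hO q' hq']
      · rw [h, hcomm q hq, hcomm q hq, hO q' hq']
    · exact hfix z hz
  obtain ⟨a, ha⟩ : ∃ a, a = c x := ⟨_, rfl⟩
  obtain ⟨b, hb⟩ : ∃ b, b = c (q1 x) := ⟨_, rfl⟩
  obtain ⟨a', ha'⟩ : ∃ a', a' = c (c x) := ⟨_, rfl⟩
  obtain ⟨b', hb'⟩ : ∃ b', b' = c (c (q1 x)) := ⟨_, rfl⟩
  have hab : a ≠ b := by
    rw [ha, hb]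
    intro h
    exact hne (c.injective h).symm
  have ha'b' : a' ≠ b' := by
    rw [ha', hb']
    intro h
    exact hne (c.injective (c.injective h)).symm
  have haa' : a ≠ a' := by
    rw [ha, ha']
    intro h
    exact hx (c.injective h).symm
  have hab' : a ≠ b' := by
    rw [ha, hb']
    intro h
    have h1 : x = c (q1 x) := c.injective h
    apply (hsh q1 hq1).2
    have h2 : c (c x) = c (c (c (q1 x))) := congrArg (fun y => c (c y)) h1
    rw [h3] at h2
    exact h2.symm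
  have hba' : b ≠ a' := by
    rw [hb, ha']
    intro h
    exact (hsh q1 hq1).1 (c.injective h)
  have hbb' : b ≠ b' := by
    rw [hb, hb']
    intro h
    have h1 : q1 x = c (q1 x) := c.injective h
    rw [← hcomm q1 hq1] at h1
    exact hx (q1.injective h1).symm
  have haR : a ∈ R := (hR a).mpr ⟨1, Q.one_mem, Or.inl ha⟩
  have hbR : b ∈ R := (hR b).mpr ⟨q1, hq1, Or.inl hb⟩
  have ha'R : a' ∈ R := (hR a').mpr ⟨1, Q.one_mem, Or.inr ha'⟩
  have hb'R : b' ∈ R := (hR b').mpr ⟨q1, hq1, Or.inr hb'⟩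
  have n1 : a' ∉ ({b'} : Finset (Fin n)) := fun h => ha'b' (Finset.mem_singleton.mp h)
  have n2 : b ∉ ({a', b'} : Finset (Fin n)) := by
    intro h
    rcases Finset.mem_insert.mp h with h | h
    · exact hba' h
    · exact hbb' (Finset.mem_singleton.mp h)
  have n3 : a ∉ ({b, a', b'} : Finset (Fin n)) := by
    intro h
    rcases Finset.mem_insert.mp h with h | h
    · exact hab h
    · rcases Finset.mem_insert.mp h with h | h
      · exact haa' h
      · exact hab' (Finset.mem_singleton.mp h)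
  have e4 : ({a, b, a', b'} : Finset (Fin n)).card = 4 := by
    rw [Finset.card_insert_of_notMem n3, Finset.card_insert_of_notMem n2,
      Finset.card_insert_of_notMem n1, Finset.card_singleton]
  have hsub : ({a, b, a', b'} : Finset (Fin n)) ⊆ R := by
    intro z hz
    rcases Finset.mem_insert.mp hz with h | h
    · rw [h]; exact haR
    · rcases Finset.mem_insert.mp h with h | h
      · rw [h]; exact hbR
      · rcases Finset.mem_insert.mp h with h | h
        · rw [h]; exact ha'R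
        · rw [Finset.mem_singleton.mp h]; exact hb'R
  have h4 : 4 ≤ R.card := by
    rw [← e4]
    exact Finset.card_le_card hsub
  exact hv4 R hinv hfaith h4

theorem structure_thm (n : ℕ) (hn : n % 4 = 3) (N : Subgroup (Equiv.Perm (Fin n)))
    (hN : Group.IsNilpotent N) (hcard : Nat.card N = 3 * 2 ^ Helper28.NilNum.V (n - 3)) :
    ∃ (c : Equiv.Perm (Fin n)) (Q : Subgroup (Equiv.Perm (Fin n))),
      c ∈ N ∧ Q ≤ N ∧ c.IsThreeCycle ∧ IsPGroup 2 Q ∧
      Nat.card Q = 2 ^ Helper28.NilNum.V (n - 3) ∧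
      ∀ q ∈ Q, ∀ x, c x ≠ x → q x = x := by
  have : Fact (Nat.Prime 2) := ⟨Nat.prime_two⟩
  have : Fact (Nat.Prime 3) := ⟨Nat.prime_three⟩
  obtain ⟨w, hw⟩ : ∃ w, w = Helper28.NilNum.V (n - 3) := ⟨_, rfl⟩
  rw [← hw] at hcard ⊢
  obtain ⟨c0, hc0⟩ := exists_prime_orderOf_dvd_card' (G := N) 3
    (by rw [hcard]; exact dvd_mul_right _ _)
  obtain ⟨Q0⟩ := (inferInstance : Nonempty (Sylow 2 N))
  have hQ0n : (Q0 : Subgroup N).Normal := Helper28.NilGrp.sylow_normal hN 2 Q0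
  have hfac : (3 * 2 ^ w).factorization 2 = w := by
    rw [Nat.factorization_def _ Nat.prime_two, padicValNat.mul (by norm_num) (by positivity),
      padicValNat.prime_pow, padicValNat.eq_zero_of_not_dvd (by norm_num), zero_add]
  have hQ0c : Nat.card Q0 = 2 ^ w := by
    rw [Sylow.card_eq_multiplicity, hcard, hfac]
  have hpz : IsPGroup 3 (Subgroup.zpowers c0) :=
    IsPGroup.of_card (n := 1) (by rw [Nat.card_zpowers, hc0, pow_one])
  obtain ⟨Z, hZ⟩ := hpz.exists_le_sylow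
  have hc0Z : c0 ∈ (Z : Subgroup N) := hZ (Subgroup.mem_zpowers c0)
  have hZn : (Z : Subgroup N).Normal := Helper28.NilGrp.sylow_normal hN 3 Z
  have hdis : Disjoint (Q0 : Subgroup N) (Z : Subgroup N) :=
    IsPGroup.disjoint_of_ne 2 3 (by norm_num) _ _ Q0.isPGroup' Z.isPGroup'
  have hcomm : ∀ q ∈ (Q0 : Subgroup N), Commute q c0 := fun q hq =>
    Subgroup.commute_of_normal_of_disjoint _ _ hQ0n hZn hdis q c0 hq hc0Z
  obtain ⟨c, hcdef⟩ : ∃ c : Equiv.Perm (Fin n), c = (c0 : Equiv.Perm (Fin n)) := ⟨_, rfl⟩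
  obtain ⟨Q, hQdef⟩ : ∃ Q : Subgroup (Equiv.Perm (Fin n)),
      Q = (Q0 : Subgroup N).map N.subtype := ⟨_, rfl⟩
  have hcN : c ∈ N := by rw [hcdef]; exact c0.2
  have hQN : Q ≤ N := by rw [hQdef]; exact Subgroup.map_subtype_le _
  have hQc : Nat.card Q = 2 ^ w := by
    rw [hQdef, ← hQ0c]
    exact (Nat.card_congr ((Q0 : Subgroup N).equivMapOfInjective N.subtype
      N.subtype_injective).toEquiv).symm
  have hQp : IsPGroup 2 Q := IsPGroup.of_card hQc
  have hc3o : orderOf c = 3 := by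
    rw [hcdef, Subgroup.orderOf_coe]; exact hc0
  have hcq : ∀ q ∈ Q, q * c = c * q := by
    intro q hq
    rw [hQdef] at hq
    obtain ⟨q0, hq0, rfl⟩ := Subgroup.mem_map.mp hq
    rw [hcdef]
    exact congrArg Subtype.val (hcomm q0 hq0).eq
  have hq2 : ∀ q ∈ Q, ∃ k : ℕ, q ^ 2 ^ k = 1 := by
    intro q hq
    obtain ⟨k, hk⟩ := hQp ⟨q, hq⟩
    exact ⟨k, congrArg Subtype.val hk⟩
  have hv4 : ∀ R : Finset (Fin n), (∀ q ∈ Q, ∀ x, x ∈ R → q x ∈ R) →
      (∀ q ∈ Q, (∀ x, x ∉ R → q x = x) → q = 1) → 4 ≤ R.card → False := by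
    intro R h1 h2 h3
    have hb := faithful_bound Q w hQc R h1 h2
    have hRn : R.card ≤ n := by
      have := Finset.card_le_univ R
      rw [Fintype.card_fin] at this
      exact this
    have hlt := V_lt n hn (by omega)
    have hm := Helper28.NilNum.V_mono (show n - R.card ≤ n - 4 by omega)
    rw [← hw] at hlt
    omega
  have hc3' : c ^ 3 = 1 := by rw [← hc3o]; exact pow_orderOf_eq_one c
  have hfix := claim1 c Q hc3' hcq hq2 hv4
  have hle : c.support.card ≤ 3 := by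
    by_contra hgt
    apply hv4 c.support
    · intro q hq x hxs
      rw [hfix q hq x (Equiv.Perm.mem_support.mp hxs)]
      exact hxs
    · intro q hq hoff
      apply Equiv.Perm.ext
      intro z
      show q z = z
      by_cases hz : z ∈ c.support
      · exact hfix q hq z (Equiv.Perm.mem_support.mp hz)
      · exact hoff z hz
    · omega
  have hc1 : c ≠ 1 := by
    intro h
    rw [h, orderOf_one] at hc3o
    omega
  have h0 : c.support.card ≠ 0 := by
    intro h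
    exact hc1 (Equiv.Perm.card_support_eq_zero.mp h)
  have h1 : c.support.card ≠ 1 := Equiv.Perm.card_support_ne_one c
  have h2 : c.support.card ≠ 2 := by
    intro h
    obtain ⟨y, z, hyz, hsw⟩ := Equiv.Perm.card_support_eq_two.mp h
    have hsq : c ^ 2 = 1 := by
      rw [hsw, pow_two, Equiv.swap_mul_self]
    have := orderOf_dvd_of_pow_eq_one hsq
    rw [hc3o] at this
    omega
  have hthree : c.IsThreeCycle := card_support_eq_three_iff.mp (by omega)
  exact ⟨c, Q, hcN, hQN, hthree, hQp, hQc, hfix⟩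

/-- Permutations fixing the support of `c` pointwise. -/
def fixer {n : ℕ} (c : Equiv.Perm (Fin n)) : Subgroup (Equiv.Perm (Fin n)) where
  carrier := {σ | ∀ x, c x ≠ x → σ x = x}
  mul_mem' := by
    intro a b ha hb
    have ha' : ∀ x, c x ≠ x → a x = x := ha
    have hb' : ∀ x, c x ≠ x → b x = x := hb
    show ∀ x, c x ≠ x → (a * b) x = x
    intro x hx
    show a (b x) = x
    rw [hb' x hx, ha' x hx]
  one_mem' := by
    show ∀ x, c x ≠ x → (1 : Equiv.Perm (Fin n)) x = x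
    intro x _
    rfl
  inv_mem' := by
    intro a ha
    have ha' : ∀ x, c x ≠ x → a x = x := ha
    show ∀ x, c x ≠ x → a⁻¹ x = x
    intro x hx
    have h := ha' x hx
    have e : a⁻¹ (a x) = x := a.symm_apply_apply x
    rw [h] at e
    exact e

theorem mem_fixer {n : ℕ} (c σ : Equiv.Perm (Fin n)) :
    σ ∈ fixer c ↔ ∀ x, c x ≠ x → σ x = x := Iff.rfl

theorem fix_comm {n : ℕ} (c σ : Equiv.Perm (Fin n)) (h : σ ∈ fixer c) : σ * c = c * σ := by
  have h' := (mem_fixer c σ).mp h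
  apply Equiv.Perm.ext
  intro x
  show σ (c x) = c (σ x)
  by_cases hx : c x = x
  · rw [hx]
    by_contra hne
    have h1 : σ (σ x) = σ x := h' (σ x) (fun e => hne e.symm)
    have h2 : σ x = x := σ.injective h1
    rw [h2] at hne
    exact hne hx.symm
  · have h1 : σ x = x := h' x hx
    have h2 : c (c x) ≠ c x := fun e => hx (c.injective e)
    rw [h1, h' (c x) h2]

theorem max_two {n : ℕ} (c : Equiv.Perm (Fin n)) (hc : c.IsThreeCycle)
    (K : Subgroup (Equiv.Perm (Fin n))) (hK : K ≤ fixer c) (hp : IsPGroup 2 K) :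
    Nat.card K ≤ 2 ^ Helper28.NilNum.V (n - 3) := by
  have : Fact (Nat.Prime 2) := ⟨Nat.prime_two⟩
  obtain ⟨w, hw⟩ := IsPGroup.iff_card.mp hp
  have h1 : ∀ q ∈ K, ∀ x, x ∈ c.support → q x ∈ c.support := by
    intro q hq x hx
    rw [(mem_fixer c q).mp (hK hq) x (Equiv.Perm.mem_support.mp hx)]
    exact hx
  have h2 : ∀ q ∈ K, (∀ x, x ∉ c.support → q x = x) → q = 1 := by
    intro q hq hoff
    apply Equiv.Perm.ext
    intro z
    show q z = z
    by_cases hz : z ∈ c.support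
    · exact (mem_fixer c q).mp (hK hq) z (Equiv.Perm.mem_support.mp hz)
    · exact hoff z hz
  have hb := faithful_bound K w hw c.support h1 h2
  rw [hc.card_support] at hb
  rw [hw]
  exact Nat.pow_le_pow_right (by norm_num) hb

theorem sylow_of {n : ℕ} (c : Equiv.Perm (Fin n)) (hc : c.IsThreeCycle)
    (Q : Subgroup (Equiv.Perm (Fin n))) (hQ : Q ≤ fixer c)
    (hcard : Nat.card Q = 2 ^ Helper28.NilNum.V (n - 3)) :
    ∃ P : Sylow 2 ↥(fixer c), (P : Subgroup ↥(fixer c)) = Q.subgroupOf (fixer c) := by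
  have : Fact (Nat.Prime 2) := ⟨Nat.prime_two⟩
  have hc1 : Nat.card (Q.subgroupOf (fixer c)) = 2 ^ Helper28.NilNum.V (n - 3) := by
    rw [Nat.card_congr (Subgroup.subgroupOfEquivOfLe hQ).toEquiv, hcard]
  have hp : IsPGroup 2 (Q.subgroupOf (fixer c)) := IsPGroup.of_card hc1
  obtain ⟨P, hP⟩ := hp.exists_le_sylow
  refine ⟨P, ?_⟩
  symm
  apply Subgroup.eq_of_le_of_card_ge hP
  rw [hc1]
  calc Nat.card (P : Subgroup ↥(fixer c))
      = Nat.card ((P : Subgroup ↥(fixer c)).map (fixer c).subtype) :=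
        Nat.card_congr ((P : Subgroup ↥(fixer c)).equivMapOfInjective (fixer c).subtype
          (fixer c).subtype_injective).toEquiv
    _ ≤ 2 ^ Helper28.NilNum.V (n - 3) :=
        max_two c hc _ (Subgroup.map_subtype_le _) (P.isPGroup'.map _)

theorem conj_main (n : ℕ) (hn : n % 4 = 3) (N₁ N₂ : Subgroup (Equiv.Perm (Fin n)))
    (h1 : Group.IsNilpotent N₁) (h2 : Group.IsNilpotent N₂)
    (hk1 : Nat.card N₁ = 3 * 2 ^ Helper28.NilNum.V (n - 3))
    (hk2 : Nat.card N₂ = 3 * 2 ^ Helper28.NilNum.V (n - 3)) :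
    ∃ g : Equiv.Perm (Fin n), N₂ = N₁.map (MulAut.conj g).toMonoidHom := by
  have : Fact (Nat.Prime 2) := ⟨Nat.prime_two⟩
  obtain ⟨c1, Q1, hc1N, hQ1N, hc1, hQ1p, hQ1c, hQ1f⟩ := structure_thm n hn N₁ h1 hk1
  obtain ⟨c2, Q2, hc2N, hQ2N, hc2, hQ2p, hQ2c, hQ2f⟩ := structure_thm n hn N₂ h2 hk2
  have hconj : IsConj c1 c2 :=
    Equiv.Perm.isConj_iff_cycleType_eq.mpr (by rw [hc1.cycleType, hc2.cycleType])
  obtain ⟨g0, hg0⟩ := isConj_iff.mp hconj
  have hQ1' : Q1.map (MulAut.conj g0).toMonoidHom ≤ fixer c2 := by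
    intro σ hσ
    obtain ⟨q, hq, rfl⟩ := Subgroup.mem_map.mp hσ
    rw [mem_fixer]
    intro x hx
    show g0 (q (g0⁻¹ x)) = x
    have hy : c1 (g0⁻¹ x) ≠ g0⁻¹ x := by
      intro e
      apply hx
      rw [← hg0]
      show g0 (c1 (g0⁻¹ x)) = x
      rw [e]
      exact g0.apply_symm_apply x
    rw [hQ1f q hq _ hy]
    exact g0.apply_symm_apply x
  have hQ2fix : Q2 ≤ fixer c2 := fun q hq => (mem_fixer c2 q).mpr (hQ2f q hq)
  have hcard1' : Nat.card (Q1.map (MulAut.conj g0).toMonoidHom) =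
      2 ^ Helper28.NilNum.V (n - 3) := by
    rw [← hQ1c]
    exact (Nat.card_congr (Q1.equivMapOfInjective (MulAut.conj g0).toMonoidHom
      (MulAut.conj g0).injective).toEquiv).symm
  obtain ⟨P1, hP1⟩ := sylow_of c2 hc2 _ hQ1' hcard1'
  obtain ⟨P2, hP2⟩ := sylow_of c2 hc2 Q2 hQ2fix hQ2c
  obtain ⟨s, hs⟩ := MulAction.exists_smul_eq ↥(fixer c2) P1 P2
  have hQmap : ∀ q ∈ Q1, (s : Equiv.Perm (Fin n)) * (g0 * q * g0⁻¹) *
      (s : Equiv.Perm (Fin n))⁻¹ ∈ Q2 := by
    intro q hq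
    have hm : g0 * q * g0⁻¹ ∈ Q1.map (MulAut.conj g0).toMonoidHom :=
      Subgroup.mem_map.mpr ⟨q, hq, rfl⟩
    have hmF : g0 * q * g0⁻¹ ∈ fixer c2 := hQ1' hm
    have hy : (⟨g0 * q * g0⁻¹, hmF⟩ : ↥(fixer c2)) ∈ (P1 : Subgroup ↥(fixer c2)) := by
      rw [hP1, Subgroup.mem_subgroupOf]
      exact hm
    have hy2 : MulAut.conj s • (⟨g0 * q * g0⁻¹, hmF⟩ : ↥(fixer c2)) ∈
        MulAut.conj s • (P1 : Subgroup ↥(fixer c2)) :=
      Subgroup.smul_mem_pointwise_smul _ _ _ hy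
    rw [← Sylow.coe_subgroup_smul, hs, hP2, Subgroup.mem_subgroupOf] at hy2
    exact hy2
  obtain ⟨g, hg⟩ : ∃ g : Equiv.Perm (Fin n), g = (s : Equiv.Perm (Fin n)) * g0 := ⟨_, rfl⟩
  have hgc : g * c1 * g⁻¹ = c2 := by
    have hsc : (s : Equiv.Perm (Fin n)) * c2 = c2 * (s : Equiv.Perm (Fin n)) :=
      fix_comm c2 _ s.2
    calc g * c1 * g⁻¹
        = (s : Equiv.Perm (Fin n)) * (g0 * c1 * g0⁻¹) * (s : Equiv.Perm (Fin n))⁻¹ := by
          rw [hg]; group
      _ = (s : Equiv.Perm (Fin n)) * c2 * (s : Equiv.Perm (Fin n))⁻¹ := by rw [hg0]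
      _ = c2 := by rw [hsc, mul_inv_cancel_right]
  have hgq : ∀ q ∈ Q1, g * q * g⁻¹ ∈ Q2 := by
    intro q hq
    have e : g * q * g⁻¹ =
        (s : Equiv.Perm (Fin n)) * (g0 * q * g0⁻¹) * (s : Equiv.Perm (Fin n))⁻¹ := by
      rw [hg]; group
    rw [e]
    exact hQmap q hq
  have hz3 : Nat.card (Subgroup.zpowers c1) = 3 := by
    rw [Nat.card_zpowers]; exact hc1.orderOf
  have hsup : Q1 ⊔ Subgroup.zpowers c1 = N₁ := by
    apply Subgroup.eq_of_le_of_card_ge (sup_le hQ1N (Subgroup.zpowers_le.mpr hc1N))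
    rw [hk1]
    apply Nat.le_of_dvd Nat.card_pos
    apply Nat.Coprime.mul_dvd_of_dvd_of_dvd
    · exact Nat.Coprime.pow_right _ (by norm_num)
    · have hd := Subgroup.card_dvd_of_le
        (le_sup_right : Subgroup.zpowers c1 ≤ Q1 ⊔ Subgroup.zpowers c1)
      rw [hz3] at hd
      exact hd
    · have hd := Subgroup.card_dvd_of_le
        (le_sup_left : Q1 ≤ Q1 ⊔ Subgroup.zpowers c1)
      rw [hQ1c] at hd
      exact hd
  refine ⟨g, ?_⟩
  symm
  apply Subgroup.eq_of_le_of_card_ge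
  · rw [Subgroup.map_le_iff_le_comap, ← hsup]
    apply sup_le
    · intro q hq
      rw [Subgroup.mem_comap]
      exact hQ2N (hgq q hq)
    · rw [Subgroup.zpowers_le, Subgroup.mem_comap]
      show g * c1 * g⁻¹ ∈ N₂
      rw [hgc]
      exact hc2N
  · rw [hk2, ← hk1]
    exact (Nat.card_congr (N₁.equivMapOfInjective (MulAut.conj g).toMonoidHom
      (MulAut.conj g).injective).toEquiv).le

theorem exists_max (n : ℕ) (h3 : 3 ≤ n) (P : Sylow 2 (Equiv.Perm (Fin (n - 3)))) :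
    ∃ M : Subgroup (Equiv.Perm (Fin n)), Group.IsNilpotent M ∧ Nat.card M = 3 * Nat.card P ∧
      Nonempty (M ≃* (↥(P : Subgroup (Equiv.Perm (Fin (n - 3)))) × Multiplicative (ZMod 3))) := by
  have : Fact (Nat.Prime 2) := ⟨Nat.prime_two⟩
  have hα : Nat.card (Fin (n - 3) ⊕ Multiplicative (ZMod 3)) = n := by
    rw [Nat.card_sum, Nat.card_fin, Nat.card_eq_fintype_card, Fintype.card_multiplicative,
      ZMod.card]
    omega
  obtain ⟨e⟩ : Nonempty ((Fin (n - 3) ⊕ Multiplicative (ZMod 3)) ≃ Fin n) :=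
    ⟨Finite.equivFinOfCardEq hα⟩
  obtain ⟨ψ, hψ⟩ : ∃ ψ : (↥(P : Subgroup (Equiv.Perm (Fin (n - 3)))) ×
      Multiplicative (ZMod 3)) →* Equiv.Perm (Fin n),
      ψ = (e.permCongrHom.toMonoidHom.comp
        (Equiv.Perm.sumCongrHom (Fin (n - 3)) (Multiplicative (ZMod 3)))).comp
        (MonoidHom.prodMap (P : Subgroup (Equiv.Perm (Fin (n - 3)))).subtype
          (MulAction.toPermHom (Multiplicative (ZMod 3)) (Multiplicative (ZMod 3)))) :=
    ⟨_, rfl⟩
  have hz : Function.Injective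
      (MulAction.toPermHom (Multiplicative (ZMod 3)) (Multiplicative (ZMod 3))) := by
    intro a b h
    have h1 := congrArg (fun σ : Equiv.Perm (Multiplicative (ZMod 3)) => σ 1) h
    have h2 : a * 1 = b * 1 := h1
    rw [mul_one, mul_one] at h2
    exact h2
  have hpm : Function.Injective
      (MonoidHom.prodMap (P : Subgroup (Equiv.Perm (Fin (n - 3)))).subtype
        (MulAction.toPermHom (Multiplicative (ZMod 3)) (Multiplicative (ZMod 3)))) := by
    rw [MonoidHom.coe_prodMap]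
    exact Function.Injective.prodMap (Subgroup.subtype_injective _) hz
  have hinj : Function.Injective ψ := by
    rw [hψ, MonoidHom.coe_comp, MonoidHom.coe_comp]
    exact (e.permCongrHom.injective.comp Equiv.Perm.sumCongrHom_injective).comp hpm
  have hPn : Group.IsNilpotent ↥(P : Subgroup (Equiv.Perm (Fin (n - 3)))) :=
    P.isPGroup'.isNilpotent
  refine ⟨ψ.range, ?_, ?_, ?_⟩
  · exact Group.nilpotent_of_surjective ψ.rangeRestrict ψ.rangeRestrict_surjective
  · rw [← Nat.card_congr (MonoidHom.ofInjective hinj).toEquiv, Nat.card_prod,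
      Nat.card_eq_fintype_card (α := Multiplicative (ZMod 3)), Fintype.card_multiplicative,
      ZMod.card, mul_comm]
  · exact ⟨(MonoidHom.ofInjective hinj).symm⟩

end Cfsg.Agent.Helper2.NilMax
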