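import Mathlib
import Cfsg.Agent.Helper2.NilMax
import Cfsg.Agent.Helper28.NilAlt

set_option autoImplicit false

open scoped Pointwise

namespace Cfsg.Agent.Helper2.NilMaxA

theorem V_lt2 (n : ℕ) (hn : n % 4 = 3) (h4 : 4 ≤ n) :
    Helper28.NilNum.V (n - 4) + 2 ≤ Helper28.NilNum.V (n - 3) := by
  obtain ⟨i, rfl⟩ : ∃ i, n = 4 * (i + 1) + 3 := ⟨n / 4 - 1, by omega⟩
  have e1 : 4 * (i + 1) + 3 - 4 = 4 * i + 3 := by omega
  have e2 : 4 * (i + 1) + 3 - 3 = 4 * (i + 1) := by omega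
  rw [e1, e2, Helper28.NilNum.V_four_add_three, Helper28.NilNum.V_four]
  have := Helper28.NilNum.V_mono (show i ≤ i + 1 by omega)
  omega

theorem structure_gen (n u : ℕ) (hu : Helper28.NilNum.V (n - 4) < u)
    (N : Subgroup (Equiv.Perm (Fin n)))
    (hN : Group.IsNilpotent N) (hcard : Nat.card N = 3 * 2 ^ u) :
    ∃ (c : Equiv.Perm (Fin n)) (Q : Subgroup (Equiv.Perm (Fin n))),
      c ∈ N ∧ Q ≤ N ∧ c.IsThreeCycle ∧ IsPGroup 2 Q ∧
      Nat.card Q = 2 ^ u ∧
      ∀ q ∈ Q, ∀ x, c x ≠ x → q x = x := by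
  have : Fact (Nat.Prime 2) := ⟨Nat.prime_two⟩
  have : Fact (Nat.Prime 3) := ⟨Nat.prime_three⟩
  obtain ⟨c0, hc0⟩ := exists_prime_orderOf_dvd_card' (G := N) 3
    (by rw [hcard]; exact dvd_mul_right _ _)
  obtain ⟨Q0⟩ := (inferInstance : Nonempty (Sylow 2 N))
  have hQ0n : (Q0 : Subgroup N).Normal := Helper28.NilGrp.sylow_normal hN 2 Q0
  have hfac : (3 * 2 ^ u).factorization 2 = u := by
    rw [Nat.factorization_def _ Nat.prime_two, padicValNat.mul (by norm_num) (by positivity),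
      padicValNat.prime_pow, padicValNat.eq_zero_of_not_dvd (by norm_num), zero_add]
  have hQ0c : Nat.card Q0 = 2 ^ u := by
    rw [Sylow.card_eq_multiplicity, hcard, hfac]
  have hpz : IsPGroup 3 (Subgroup.zpowers c0) :=
    IsPGroup.of_card (n := 1) (by rw [Nat.card_zpowers, hc0, pow_one])
  obtain ⟨Z, hZ⟩ := hpz.exists_le_sylow
  have hc0Z : c0 ∈ (Z : Subgroup N) := hZ (Subgroup.mem_zpowers c0)
  have hZn : (Z : Subgroup N).Normal := Helper28.NilGrp.sylow_normal hN 3 Z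
  have hdis : Disjoint (Q0 : Subgroup N) (Z : Subgroup N) :=
    IsPGroup.disjoint_of_ne 2 3 (by norm_num) _ _ Q0.isPGroup' Z.isPGroup'
  have hcomm : ∀ q ∈ (Q0 : Subgroup N), Commute q c0 := fun q hq =>
    Subgroup.commute_of_normal_of_disjoint _ _ hQ0n hZn hdis q c0 hq hc0Z
  obtain ⟨c, hcdef⟩ : ∃ c : Equiv.Perm (Fin n), c = (c0 : Equiv.Perm (Fin n)) := ⟨_, rfl⟩
  obtain ⟨Q, hQdef⟩ : ∃ Q : Subgroup (Equiv.Perm (Fin n)),
      Q = (Q0 : Subgroup N).map N.subtype := ⟨_, rfl⟩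
  have hcN : c ∈ N := by rw [hcdef]; exact c0.2
  have hQN : Q ≤ N := by rw [hQdef]; exact Subgroup.map_subtype_le _
  have hQc : Nat.card Q = 2 ^ u := by
    rw [hQdef, ← hQ0c]
    exact (Nat.card_congr ((Q0 : Subgroup N).equivMapOfInjective N.subtype
      N.subtype_injective).toEquiv).symm
  have hQp : IsPGroup 2 Q := IsPGroup.of_card hQc
  have hc3o : orderOf c = 3 := by
    rw [hcdef, Subgroup.orderOf_coe]; exact hc0
  have hcq : ∀ q ∈ Q, q * c = c * q := by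
    intro q hq
    rw [hQdef] at hq
    obtain ⟨q0, hq0, rfl⟩ := Subgroup.mem_map.mp hq
    rw [hcdef]
    exact congrArg Subtype.val (hcomm q0 hq0).eq
  have hq2 : ∀ q ∈ Q, ∃ k : ℕ, q ^ 2 ^ k = 1 := by
    intro q hq
    obtain ⟨k, hk⟩ := hQp ⟨q, hq⟩
    exact ⟨k, congrArg Subtype.val hk⟩
  have hv4 : ∀ R : Finset (Fin n), (∀ q ∈ Q, ∀ x, x ∈ R → q x ∈ R) →
      (∀ q ∈ Q, (∀ x, x ∉ R → q x = x) → q = 1) → 4 ≤ R.card → False := by
    intro R h1 h2 h3
    have hb := NilMax.faithful_bound Q u hQc R h1 h2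
    have hm := Helper28.NilNum.V_mono (show n - R.card ≤ n - 4 by omega)
    omega
  have hc3' : c ^ 3 = 1 := by rw [← hc3o]; exact pow_orderOf_eq_one c
  have hfix := NilMax.claim1 c Q hc3' hcq hq2 hv4
  have hle : c.support.card ≤ 3 := by
    by_contra hgt
    apply hv4 c.support
    · intro q hq x hxs
      rw [hfix q hq x (Equiv.Perm.mem_support.mp hxs)]
      exact hxs
    · intro q hq hoff
      apply Equiv.Perm.ext
      intro z
      show q z = z
      by_cases hz : z ∈ c.support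
      · exact hfix q hq z (Equiv.Perm.mem_support.mp hz)
      · exact hoff z hz
    · omega
  have hc1 : c ≠ 1 := by
    intro h
    rw [h, orderOf_one] at hc3o
    omega
  have h0 : c.support.card ≠ 0 := by
    intro h
    exact hc1 (Equiv.Perm.card_support_eq_zero.mp h)
  have h1 : c.support.card ≠ 1 := Equiv.Perm.card_support_ne_one c
  have h2 : c.support.card ≠ 2 := by
    intro h
    obtain ⟨y, z, hyz, hsw⟩ := Equiv.Perm.card_support_eq_two.mp h
    have hsq : c ^ 2 = 1 := by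
      rw [hsw, pow_two, Equiv.swap_mul_self]
    have := orderOf_dvd_of_pow_eq_one hsq
    rw [hc3o] at this
    omega
  have hthree : c.IsThreeCycle := card_support_eq_three_iff.mp (by omega)
  exact ⟨c, Q, hcN, hQN, hthree, hQp, hQc, hfix⟩

theorem sylow_of_max {n : ℕ} (F : Subgroup (Equiv.Perm (Fin n))) (m : ℕ)
    (hmax : ∀ K : Subgroup (Equiv.Perm (Fin n)), K ≤ F → IsPGroup 2 K → Nat.card K ≤ 2 ^ m)
    (Q : Subgroup (Equiv.Perm (Fin n))) (hQ : Q ≤ F)
    (hcard : Nat.card Q = 2 ^ m) :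
    ∃ P : Sylow 2 ↥F, (P : Subgroup ↥F) = Q.subgroupOf F := by
  have : Fact (Nat.Prime 2) := ⟨Nat.prime_two⟩
  have hc1 : Nat.card (Q.subgroupOf F) = 2 ^ m := by
    rw [Nat.card_congr (Subgroup.subgroupOfEquivOfLe hQ).toEquiv, hcard]
  have hp : IsPGroup 2 (Q.subgroupOf F) := IsPGroup.of_card hc1
  obtain ⟨P, hP⟩ := hp.exists_le_sylow
  refine ⟨P, ?_⟩
  symm
  apply Subgroup.eq_of_le_of_card_ge hP
  rw [hc1]
  calc Nat.card (P : Subgroup ↥F)
      = Nat.card ((P : Subgroup ↥F).map F.subtype) :=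
        Nat.card_congr ((P : Subgroup ↥F).equivMapOfInjective F.subtype
          F.subtype_injective).toEquiv
    _ ≤ 2 ^ m :=
        hmax _ (Subgroup.map_subtype_le _) (P.isPGroup'.map _)

theorem conj_gen (n u : ℕ) (N₁ N₂ : Subgroup (Equiv.Perm (Fin n)))
    (c1 c2 : Equiv.Perm (Fin n)) (Q1 Q2 : Subgroup (Equiv.Perm (Fin n)))
    (F : Subgroup (Equiv.Perm (Fin n))) (hF : F ≤ NilMax.fixer c2)
    (hmax : ∀ K : Subgroup (Equiv.Perm (Fin n)), K ≤ F → IsPGroup 2 K → Nat.card K ≤ 2 ^ u)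
    (g0 : Equiv.Perm (Fin n)) (hg0 : g0 * c1 * g0⁻¹ = c2)
    (hQ1F : Q1.map (MulAut.conj g0).toMonoidHom ≤ F) (hQ2F : Q2 ≤ F)
    (hc1N : c1 ∈ N₁) (hQ1N : Q1 ≤ N₁) (hc1 : c1.IsThreeCycle) (hQ1c : Nat.card Q1 = 2 ^ u)
    (hc2N : c2 ∈ N₂) (hQ2N : Q2 ≤ N₂) (hQ2c : Nat.card Q2 = 2 ^ u)
    (hk1 : Nat.card N₁ = 3 * 2 ^ u) (hk2 : Nat.card N₂ = 3 * 2 ^ u) :
    ∃ s ∈ F, N₂ = N₁.map (MulAut.conj (s * g0)).toMonoidHom := by
  have : Fact (Nat.Prime 2) := ⟨Nat.prime_two⟩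
  have hcard1' : Nat.card (Q1.map (MulAut.conj g0).toMonoidHom) = 2 ^ u := by
    rw [← hQ1c]
    exact (Nat.card_congr (Q1.equivMapOfInjective (MulAut.conj g0).toMonoidHom
      (MulAut.conj g0).injective).toEquiv).symm
  obtain ⟨P1, hP1⟩ := sylow_of_max F u hmax _ hQ1F hcard1'
  obtain ⟨P2, hP2⟩ := sylow_of_max F u hmax Q2 hQ2F hQ2c
  obtain ⟨s, hs⟩ := MulAction.exists_smul_eq ↥F P1 P2
  have hQmap : ∀ q ∈ Q1, (s : Equiv.Perm (Fin n)) * (g0 * q * g0⁻¹) *
      (s : Equiv.Perm (Fin n))⁻¹ ∈ Q2 := by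
    intro q hq
    have hm : g0 * q * g0⁻¹ ∈ Q1.map (MulAut.conj g0).toMonoidHom :=
      Subgroup.mem_map.mpr ⟨q, hq, rfl⟩
    have hmF : g0 * q * g0⁻¹ ∈ F := hQ1F hm
    have hy : (⟨g0 * q * g0⁻¹, hmF⟩ : ↥F) ∈ (P1 : Subgroup ↥F) := by
      rw [hP1, Subgroup.mem_subgroupOf]
      exact hm
    have hy2 : MulAut.conj s • (⟨g0 * q * g0⁻¹, hmF⟩ : ↥F) ∈
        MulAut.conj s • (P1 : Subgroup ↥F) :=
      Subgroup.smul_mem_pointwise_smul _ _ _ hy
    rw [← Sylow.coe_subgroup_smul, hs, hP2, Subgroup.mem_subgroupOf] at hy2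
    exact hy2
  refine ⟨(s : Equiv.Perm (Fin n)), s.2, ?_⟩
  obtain ⟨g, hg⟩ : ∃ g : Equiv.Perm (Fin n), g = (s : Equiv.Perm (Fin n)) * g0 := ⟨_, rfl⟩
  rw [← hg]
  have hgc : g * c1 * g⁻¹ = c2 := by
    have hsc : (s : Equiv.Perm (Fin n)) * c2 = c2 * (s : Equiv.Perm (Fin n)) :=
      NilMax.fix_comm c2 _ (hF s.2)
    calc g * c1 * g⁻¹
        = (s : Equiv.Perm (Fin n)) * (g0 * c1 * g0⁻¹) * (s : Equiv.Perm (Fin n))⁻¹ := by
          rw [hg]; group
      _ = (s : Equiv.Perm (Fin n)) * c2 * (s : Equiv.Perm (Fin n))⁻¹ := by rw [hg0]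
      _ = c2 := by rw [hsc, mul_inv_cancel_right]
  have hgq : ∀ q ∈ Q1, g * q * g⁻¹ ∈ Q2 := by
    intro q hq
    have e : g * q * g⁻¹ =
        (s : Equiv.Perm (Fin n)) * (g0 * q * g0⁻¹) * (s : Equiv.Perm (Fin n))⁻¹ := by
      rw [hg]; group
    rw [e]
    exact hQmap q hq
  have hz3 : Nat.card (Subgroup.zpowers c1) = 3 := by
    rw [Nat.card_zpowers]; exact hc1.orderOf
  have hsup : Q1 ⊔ Subgroup.zpowers c1 = N₁ := by
    apply Subgroup.eq_of_le_of_card_ge (sup_le hQ1N (Subgroup.zpowers_le.mpr hc1N))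
    rw [hk1]
    apply Nat.le_of_dvd Nat.card_pos
    apply Nat.Coprime.mul_dvd_of_dvd_of_dvd
    · exact Nat.Coprime.pow_right _ (by norm_num)
    · have hd := Subgroup.card_dvd_of_le
        (le_sup_right : Subgroup.zpowers c1 ≤ Q1 ⊔ Subgroup.zpowers c1)
      rw [hz3] at hd
      exact hd
    · have hd := Subgroup.card_dvd_of_le
        (le_sup_left : Q1 ≤ Q1 ⊔ Subgroup.zpowers c1)
      rw [hQ1c] at hd
      exact hd
  symm
  apply Subgroup.eq_of_le_of_card_ge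
  · rw [Subgroup.map_le_iff_le_comap, ← hsup]
    apply sup_le
    · intro q hq
      rw [Subgroup.mem_comap]
      exact hQ2N (hgq q hq)
    · rw [Subgroup.zpowers_le, Subgroup.mem_comap]
      show g * c1 * g⁻¹ ∈ N₂
      rw [hgc]
      exact hc2N
  · rw [hk2, ← hk1]
    exact (Nat.card_congr (N₁.equivMapOfInjective (MulAut.conj g).toMonoidHom
      (MulAut.conj g).injective).toEquiv).le

theorem exists_swap_fixer {n : ℕ} (h5 : 5 ≤ n) (c : Equiv.Perm (Fin n))
    (hc : c.IsThreeCycle) :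
    ∃ a b : Fin n, a ≠ b ∧ Equiv.swap a b ∈ NilMax.fixer c := by
  have hcc : 1 < (c.supportᶜ).card := by
    rw [Finset.card_compl, hc.card_support, Fintype.card_fin]
    omega
  obtain ⟨a, ha, b, hb, hab⟩ := Finset.one_lt_card.mp hcc
  have ha' : c a = a := Equiv.Perm.notMem_support.mp (Finset.mem_compl.mp ha)
  have hb' : c b = b := Equiv.Perm.notMem_support.mp (Finset.mem_compl.mp hb)
  refine ⟨a, b, hab, ?_⟩
  rw [NilMax.mem_fixer]
  intro x hx
  apply Equiv.swap_apply_of_ne_of_ne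
  · intro h; rw [h] at hx; exact hx ha'
  · intro h; rw [h] at hx; exact hx hb'

theorem exists_even_conj {n : ℕ} (h5 : 5 ≤ n) (c1 c2 : Equiv.Perm (Fin n))
    (hc1 : c1.IsThreeCycle) (hc2 : c2.IsThreeCycle) :
    ∃ g0 : Equiv.Perm (Fin n), Equiv.Perm.sign g0 = 1 ∧ g0 * c1 * g0⁻¹ = c2 := by
  have hconj : IsConj c1 c2 :=
    Equiv.Perm.isConj_iff_cycleType_eq.mpr (by rw [hc1.cycleType, hc2.cycleType])
  obtain ⟨g0, hg0⟩ := isConj_iff.mp hconj
  rcases Int.units_eq_one_or (Equiv.Perm.sign g0) with hs | hs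
  · exact ⟨g0, hs, hg0⟩
  · obtain ⟨a, b, hab, hτ⟩ := exists_swap_fixer h5 c1 hc1
    have hcomm := NilMax.fix_comm c1 _ hτ
    refine ⟨g0 * Equiv.swap a b, ?_, ?_⟩
    · rw [Equiv.Perm.sign_mul, hs, Equiv.Perm.sign_swap hab]
      exact Int.units_mul_self (-1)
    · calc g0 * Equiv.swap a b * c1 * (g0 * Equiv.swap a b)⁻¹
          = g0 * (Equiv.swap a b * c1) * (Equiv.swap a b)⁻¹ * g0⁻¹ := by group
        _ = g0 * (c1 * Equiv.swap a b) * (Equiv.swap a b)⁻¹ * g0⁻¹ := by rw [hcomm]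
        _ = g0 * c1 * g0⁻¹ := by group
        _ = c2 := hg0

theorem max_two_alt {n : ℕ} (c : Equiv.Perm (Fin n)) (hc : c.IsThreeCycle) (u : ℕ)
    (hu : Helper28.NilNum.V (n - 3) = u + 1) (h5 : 5 ≤ n)
    (K : Subgroup (Equiv.Perm (Fin n)))
    (hK : K ≤ NilMax.fixer c ⊓ alternatingGroup (Fin n))
    (hp : IsPGroup 2 K) : Nat.card K ≤ 2 ^ u := by
  have : Fact (Nat.Prime 2) := ⟨Nat.prime_two⟩
  have hKf : K ≤ NilMax.fixer c := fun x hx => (Subgroup.mem_inf.mp (hK hx)).1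
  have hKa : ∀ x ∈ K, Equiv.Perm.sign x = 1 := fun x hx =>
    Equiv.Perm.mem_alternatingGroup.mp (Subgroup.mem_inf.mp (hK hx)).2
  obtain ⟨k, hk⟩ := IsPGroup.iff_card.mp hp
  have hle := NilMax.max_two c hc K hKf hp
  rw [hk, hu] at hle
  have hk1 : k ≤ u + 1 := (Nat.pow_le_pow_iff_right (by norm_num)).mp hle
  rw [hk]
  apply Nat.pow_le_pow_right (by norm_num)
  by_contra hgt
  have hku : k = u + 1 := by omega
  have hKc : Nat.card K = 2 ^ Helper28.NilNum.V (n - 3) := by rw [hk, hu, hku]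
  obtain ⟨PK, hPK⟩ := NilMax.sylow_of c hc K hKf hKc
  obtain ⟨a, b, hab, hτ⟩ := exists_swap_fixer h5 c hc
  obtain ⟨t, ht⟩ : ∃ t : ↥(NilMax.fixer c), t = ⟨Equiv.swap a b, hτ⟩ := ⟨_, rfl⟩
  have ht2 : t ^ 2 = 1 := by
    rw [ht]
    apply Subtype.ext
    show Equiv.swap a b ^ 2 = 1
    rw [pow_two, Equiv.swap_mul_self]
  have hpz : IsPGroup 2 (Subgroup.zpowers t) := by
    rintro ⟨y, hy⟩
    refine ⟨1, ?_⟩
    obtain ⟨j, rfl⟩ := Subgroup.mem_zpowers_iff.mp hy
    apply Subtype.ext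
    show (t ^ j) ^ 2 ^ 1 = 1
    rw [pow_one, ← zpow_natCast, ← zpow_mul, mul_comm, zpow_mul, zpow_natCast, ht2, one_zpow]
  obtain ⟨Pτ, hPτ⟩ := hpz.exists_le_sylow
  obtain ⟨s, hs⟩ := MulAction.exists_smul_eq ↥(NilMax.fixer c) Pτ PK
  have hmem : MulAut.conj s • t ∈ MulAut.conj s • (Pτ : Subgroup ↥(NilMax.fixer c)) :=
    Subgroup.smul_mem_pointwise_smul _ _ _ (hPτ (Subgroup.mem_zpowers t))
  rw [← Sylow.coe_subgroup_smul, hs, hPK, Subgroup.mem_subgroupOf] at hmem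
  have hsgn : Equiv.Perm.sign ((s : Equiv.Perm (Fin n)) * Equiv.swap a b *
      (s : Equiv.Perm (Fin n))⁻¹) = 1 := by
    have h := hKa _ hmem
    rw [ht] at h
    exact h
  rw [Equiv.Perm.sign_mul, Equiv.Perm.sign_mul, Equiv.Perm.sign_inv, Equiv.Perm.sign_swap hab,
    mul_right_comm, Int.units_mul_self, one_mul] at hsgn
  exact neg_units_ne_self (1 : ℤˣ) hsgn

theorem conj_alt (n u : ℕ) (hn : n % 4 = 3) (h7 : 7 ≤ n)
    (hV : Helper28.NilNum.V (n - 3) = u + 1)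
    (N₁ N₂ : Subgroup (Equiv.Perm (Fin n)))
    (h1 : Group.IsNilpotent N₁) (h2 : Group.IsNilpotent N₂)
    (he1 : N₁ ≤ alternatingGroup (Fin n)) (he2 : N₂ ≤ alternatingGroup (Fin n))
    (hk1 : Nat.card N₁ = 3 * 2 ^ u) (hk2 : Nat.card N₂ = 3 * 2 ^ u) :
    ∃ g : Equiv.Perm (Fin n), Equiv.Perm.sign g = 1 ∧
      N₂ = N₁.map (MulAut.conj g).toMonoidHom := by
  have hu : Helper28.NilNum.V (n - 4) < u := by
    have := V_lt2 n hn (by omega)
    omega
  obtain ⟨c1, Q1, hc1N, hQ1N, hc1, hQ1p, hQ1c, hQ1f⟩ := structure_gen n u hu N₁ h1 hk1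
  obtain ⟨c2, Q2, hc2N, hQ2N, hc2, hQ2p, hQ2c, hQ2f⟩ := structure_gen n u hu N₂ h2 hk2
  obtain ⟨g0, hg0s, hg0⟩ := exists_even_conj (by omega) c1 c2 hc1 hc2
  have hQ1' : Q1.map (MulAut.conj g0).toMonoidHom ≤
      NilMax.fixer c2 ⊓ alternatingGroup (Fin n) := by
    intro σ hσ
    obtain ⟨q, hq, rfl⟩ := Subgroup.mem_map.mp hσ
    rw [Subgroup.mem_inf]
    constructor
    · rw [NilMax.mem_fixer]
      intro x hx
      show g0 (q (g0⁻¹ x)) = x
      have hy : c1 (g0⁻¹ x) ≠ g0⁻¹ x := by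
        intro e
        apply hx
        rw [← hg0]
        show g0 (c1 (g0⁻¹ x)) = x
        rw [e]
        exact g0.apply_symm_apply x
      rw [hQ1f q hq _ hy]
      exact g0.apply_symm_apply x
    · rw [Equiv.Perm.mem_alternatingGroup]
      show Equiv.Perm.sign (g0 * q * g0⁻¹) = 1
      rw [Equiv.Perm.sign_mul, Equiv.Perm.sign_mul, Equiv.Perm.sign_inv, hg0s, one_mul, mul_one]
      exact Equiv.Perm.mem_alternatingGroup.mp (he1 (hQ1N hq))
  have hQ2F : Q2 ≤ NilMax.fixer c2 ⊓ alternatingGroup (Fin n) := by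
    intro q hq
    rw [Subgroup.mem_inf]
    exact ⟨(NilMax.mem_fixer c2 q).mpr (hQ2f q hq), he2 (hQ2N hq)⟩
  obtain ⟨s, hsF, hres⟩ := conj_gen n u N₁ N₂ c1 c2 Q1 Q2
    (NilMax.fixer c2 ⊓ alternatingGroup (Fin n)) inf_le_left
    (fun K hK hp => max_two_alt c2 hc2 u hV (by omega) K hK hp) g0 hg0 hQ1' hQ2F
    hc1N hQ1N hc1 hQ1c hc2N hQ2N hQ2c hk1 hk2
  refine ⟨s * g0, ?_, hres⟩
  rw [Equiv.Perm.sign_mul, hg0s, mul_one]
  exact Equiv.Perm.mem_alternatingGroup.mp (Subgroup.mem_inf.mp hsF).2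

theorem conj_alt' (n u : ℕ) (hn : n % 4 = 3) (h7 : 7 ≤ n)
    (hV : Helper28.NilNum.V (n - 3) = u + 1)
    (N₁ N₂ : Subgroup (alternatingGroup (Fin n)))
    (h1 : Group.IsNilpotent N₁) (h2 : Group.IsNilpotent N₂)
    (hk1 : Nat.card N₁ = 3 * 2 ^ u) (hk2 : Nat.card N₂ = 3 * 2 ^ u) :
    ∃ g : alternatingGroup (Fin n), N₂ = N₁.map (MulAut.conj g).toMonoidHom := by
  have hinj : Function.Injective (alternatingGroup (Fin n)).subtype :=
    Subgroup.subtype_injective _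
  have hn1 : Group.IsNilpotent (N₁.map (alternatingGroup (Fin n)).subtype) := by
    have := h1
    exact Group.nilpotent_of_surjective ((alternatingGroup (Fin n)).subtype.subgroupMap N₁)
      (MonoidHom.subgroupMap_surjective _ _)
  have hn2 : Group.IsNilpotent (N₂.map (alternatingGroup (Fin n)).subtype) := by
    have := h2
    exact Group.nilpotent_of_surjective ((alternatingGroup (Fin n)).subtype.subgroupMap N₂)
      (MonoidHom.subgroupMap_surjective _ _)
  have hc1 : Nat.card (N₁.map (alternatingGroup (Fin n)).subtype) = 3 * 2 ^ u := by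
    rw [Subgroup.card_map_of_injective hinj, hk1]
  have hc2 : Nat.card (N₂.map (alternatingGroup (Fin n)).subtype) = 3 * 2 ^ u := by
    rw [Subgroup.card_map_of_injective hinj, hk2]
  obtain ⟨g, hg, hfinal⟩ := conj_alt n u hn h7 hV _ _ hn1 hn2
    (Subgroup.map_subtype_le _) (Subgroup.map_subtype_le _) hc1 hc2
  refine ⟨⟨g, Equiv.Perm.mem_alternatingGroup.mpr hg⟩, ?_⟩
  apply Subgroup.map_injective hinj
  have hcomp : (MulAut.conj g).toMonoidHom.comp (alternatingGroup (Fin n)).subtype =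
      (alternatingGroup (Fin n)).subtype.comp
        (MulAut.conj (⟨g, Equiv.Perm.mem_alternatingGroup.mpr hg⟩ :
          alternatingGroup (Fin n))).toMonoidHom :=
    MonoidHom.ext (fun a => rfl)
  rw [Subgroup.map_map, hfinal, Subgroup.map_map, hcomp]

theorem sign_embed {α β γ : Type} [Fintype α] [DecidableEq α] [Fintype β] [DecidableEq β]
    [Fintype γ] [DecidableEq γ] (e : α ⊕ β ≃ γ) (σ : Equiv.Perm α) (τ : Equiv.Perm β) :
    Equiv.Perm.sign (e.permCongrHom (Equiv.Perm.sumCongrHom α β (σ, τ))) =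
      Equiv.Perm.sign σ * Equiv.Perm.sign τ := by
  show Equiv.Perm.sign (e.permCongr (Equiv.Perm.sumCongr σ τ)) = _
  rw [Equiv.Perm.sign_permCongr, Equiv.Perm.sign_sumCongr]

theorem z_sign (z : Multiplicative (ZMod 3)) :
    Equiv.Perm.sign (MulAction.toPermHom (Multiplicative (ZMod 3))
      (Multiplicative (ZMod 3)) z) = 1 := by
  have h3 : z ^ 3 = 1 := by
    have h := pow_card_eq_one' (G := Multiplicative (ZMod 3)) (x := z)
    rw [Nat.card_eq_fintype_card, Fintype.card_multiplicative, ZMod.card] at h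
    exact h
  have h1 : (Equiv.Perm.sign (MulAction.toPermHom (Multiplicative (ZMod 3))
      (Multiplicative (ZMod 3)) z)) ^ 3 = 1 := by
    rw [← map_pow, ← map_pow, h3, map_one, map_one]
  have h2 := Int.units_mul_self (Equiv.Perm.sign (MulAction.toPermHom
    (Multiplicative (ZMod 3)) (Multiplicative (ZMod 3)) z))
  rw [pow_succ, pow_two, h2, one_mul] at h1
  exact h1

theorem exists_max_alt (n : ℕ) (h3 : 3 ≤ n) (P : Sylow 2 (alternatingGroup (Fin (n - 3)))) :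
    ∃ M : Subgroup (alternatingGroup (Fin n)), Group.IsNilpotent M ∧
      Nat.card M = 3 * Nat.card P ∧
      Nonempty (M ≃* (↥(P : Subgroup (alternatingGroup (Fin (n - 3)))) ×
        Multiplicative (ZMod 3))) := by
  have : Fact (Nat.Prime 2) := ⟨Nat.prime_two⟩
  have hα : Nat.card (Fin (n - 3) ⊕ Multiplicative (ZMod 3)) = n := by
    rw [Nat.card_sum, Nat.card_fin, Nat.card_eq_fintype_card, Fintype.card_multiplicative,
      ZMod.card]
    omega
  obtain ⟨e⟩ : Nonempty ((Fin (n - 3) ⊕ Multiplicative (ZMod 3)) ≃ Fin n) :=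
    ⟨Finite.equivFinOfCardEq hα⟩
  obtain ⟨ψ, hψ⟩ : ∃ ψ : (↥(P : Subgroup (alternatingGroup (Fin (n - 3)))) ×
      Multiplicative (ZMod 3)) →* Equiv.Perm (Fin n),
      ψ = (e.permCongrHom.toMonoidHom.comp
        (Equiv.Perm.sumCongrHom (Fin (n - 3)) (Multiplicative (ZMod 3)))).comp
        (MonoidHom.prodMap ((alternatingGroup (Fin (n - 3))).subtype.comp
            (P : Subgroup (alternatingGroup (Fin (n - 3)))).subtype)
          (MulAction.toPermHom (Multiplicative (ZMod 3)) (Multiplicative (ZMod 3)))) :=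
    ⟨_, rfl⟩
  have hz : Function.Injective
      (MulAction.toPermHom (Multiplicative (ZMod 3)) (Multiplicative (ZMod 3))) := by
    intro a b h
    have h1 := congrArg (fun σ : Equiv.Perm (Multiplicative (ZMod 3)) => σ 1) h
    have h2 : a * 1 = b * 1 := h1
    rw [mul_one, mul_one] at h2
    exact h2
  have hsub : Function.Injective ((alternatingGroup (Fin (n - 3))).subtype.comp
      (P : Subgroup (alternatingGroup (Fin (n - 3)))).subtype) := by
    rw [MonoidHom.coe_comp]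
    exact (Subgroup.subtype_injective _).comp (Subgroup.subtype_injective _)
  have hpm : Function.Injective
      (MonoidHom.prodMap ((alternatingGroup (Fin (n - 3))).subtype.comp
          (P : Subgroup (alternatingGroup (Fin (n - 3)))).subtype)
        (MulAction.toPermHom (Multiplicative (ZMod 3)) (Multiplicative (ZMod 3)))) := by
    rw [MonoidHom.coe_prodMap]
    exact Function.Injective.prodMap hsub hz
  have hinj : Function.Injective ψ := by
    rw [hψ, MonoidHom.coe_comp, MonoidHom.coe_comp]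
    exact (e.permCongrHom.injective.comp Equiv.Perm.sumCongrHom_injective).comp hpm
  have hev : ∀ x, ψ x ∈ alternatingGroup (Fin n) := by
    intro x
    have hx : ψ x = e.permCongrHom (Equiv.Perm.sumCongrHom (Fin (n - 3))
        (Multiplicative (ZMod 3))
        (((x.1 : alternatingGroup (Fin (n - 3))) : Equiv.Perm (Fin (n - 3))),
          MulAction.toPermHom (Multiplicative (ZMod 3)) (Multiplicative (ZMod 3)) x.2)) := by
      rw [hψ]
      rfl
    rw [Equiv.Perm.mem_alternatingGroup, hx, sign_embed, z_sign x.2, mul_one]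
    exact Equiv.Perm.mem_alternatingGroup.mp (x.1 : alternatingGroup (Fin (n - 3))).2
  obtain ⟨φ, hφ⟩ : ∃ φ : (↥(P : Subgroup (alternatingGroup (Fin (n - 3)))) ×
      Multiplicative (ZMod 3)) →* alternatingGroup (Fin n),
      ∀ x, (φ x : Equiv.Perm (Fin n)) = ψ x :=
    ⟨ψ.codRestrict (alternatingGroup (Fin n)) hev, fun x => rfl⟩
  have hφinj : Function.Injective φ := by
    intro a b hab
    apply hinj
    rw [← hφ a, ← hφ b, hab]
  have hPn : Group.IsNilpotent ↥(P : Subgroup (alternatingGroup (Fin (n - 3)))) :=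
    P.isPGroup'.isNilpotent
  refine ⟨φ.range, ?_, ?_, ?_⟩
  · exact Group.nilpotent_of_surjective φ.rangeRestrict φ.rangeRestrict_surjective
  · rw [← Nat.card_congr (MonoidHom.ofInjective hφinj).toEquiv, Nat.card_prod,
      Nat.card_eq_fintype_card (α := Multiplicative (ZMod 3)), Fintype.card_multiplicative,
      ZMod.card, mul_comm]
  · exact ⟨(MonoidHom.ofInjective hφinj).symm⟩

theorem bound_alt (n u : ℕ) (hn : n % 4 = 3) (h7 : 7 ≤ n)
    (hV : Helper28.NilNum.V (n - 3) = u + 1)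
    (N : Subgroup (alternatingGroup (Fin n))) (hN : Group.IsNilpotent N) :
    Nat.card N ≤ 3 * 2 ^ u := by
  have hinj : Function.Injective (alternatingGroup (Fin n)).subtype :=
    Subgroup.subtype_injective _
  have hcardM : Nat.card (N.map (alternatingGroup (Fin n)).subtype) = Nat.card N :=
    Subgroup.card_map_of_injective hinj
  have hMnil : Group.IsNilpotent (N.map (alternatingGroup (Fin n)).subtype) := by
    have := hN
    exact Group.nilpotent_of_surjective ((alternatingGroup (Fin n)).subtype.subgroupMap N)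
      (MonoidHom.subgroupMap_surjective _ _)
  have hMev : ∀ g ∈ N.map (alternatingGroup (Fin n)).subtype,
      Helper28.NilAlt.sgn g = 1 := by
    rintro g ⟨a, _, rfl⟩
    rw [Helper28.NilAlt.sgn_eq_sign]
    exact Equiv.Perm.mem_alternatingGroup.1 a.2
  have hmain := Helper28.NilAlt.mainA n (Fin n) _ (Nat.card_fin n) hMnil hMev
  rw [hcardM, Helper28.NilNum.D_eq_B n (by omega) (by omega) (by omega) (by omega) (by omega)
    (by omega), NilMax.B_eq3 n hn, hV, pow_succ] at hmain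
  omega

theorem card_syl_alt (m : ℕ) (hm : 2 ≤ m) (P : Sylow 2 (alternatingGroup (Fin m))) :
    ∃ u : ℕ, Helper28.NilNum.V m = u + 1 ∧ Nat.card P = 2 ^ u := by
  have hnt : Nontrivial (Fin m) := Fin.nontrivial_iff_two_le.2 hm
  have h3 : 2 * Nat.card (alternatingGroup (Fin m)) = Nat.card (Equiv.Perm (Fin m)) :=
    two_mul_nat_card_alternatingGroup
  rw [Nat.card_perm, Nat.card_fin] at h3
  have hA0 : Nat.card (alternatingGroup (Fin m)) ≠ 0 := Nat.card_pos.ne'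
  refine ⟨(Nat.card (alternatingGroup (Fin m))).factorization 2, ?_,
    Sylow.card_eq_multiplicity P⟩
  unfold Helper28.NilNum.V
  rw [← h3, ← Nat.factorization_def _ Nat.prime_two,
    Nat.factorization_mul two_ne_zero hA0, Finsupp.add_apply,
    Nat.prime_two.factorization_self]
  omega

end Cfsg.Agent.Helper2.NilMaxA
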