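import Mathlib
import Cfsg.Agent.S0081

set_option autoImplicit false

namespace Cfsg.Agent.Helper2.S4172c

/-- Relative form of Tate's theorem: if `P` normalizes `A` and `A ⊓ P ≤ Φ(P)` then `A` has a
normal `p`-complement. -/
theorem tate_rel {G : Type*} [Group G] [Finite G] (p : ℕ) [Fact p.Prime] (P : Sylow p G)
    (A : Subgroup G) (hPA : (P : Subgroup G) ≤ Subgroup.normalizer (A : Set G))
    (h : A ⊓ (P : Subgroup G) ≤ (frattini ↥(P : Subgroup G)).map (P : Subgroup G).subtype) :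
    ∃ M : Subgroup G, M ≤ A ∧ A ≤ Subgroup.normalizer (M : Set G) ∧ (Nat.card ↥M).Coprime p ∧
      ∀ a ∈ A, ∃ k : ℕ, a ^ p ^ k ∈ M := by
  obtain ⟨K, hK⟩ : ∃ K : Subgroup G, K = A ⊔ (P : Subgroup G) := ⟨_, rfl⟩
  have hAK : A ≤ K := by rw [hK]; exact le_sup_left
  have hPK : (P : Subgroup G) ≤ K := by rw [hK]; exact le_sup_right
  have hKn : K ≤ Subgroup.normalizer (A : Set G) := by
    rw [hK]
    exact sup_le Subgroup.le_normalizer hPA
  have hN' : (A.subgroupOf K).Normal := by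
    refine ⟨fun n hn g => ?_⟩
    rw [Subgroup.mem_subgroupOf] at hn ⊢
    have h1 := (Subgroup.mem_normalizer_iff.mp (hKn g.2)) (n : G)
    exact h1.mp hn
  have aux : ∀ (Q : Subgroup ↥K), Q = (P : Subgroup G).subgroupOf K → ∀ x : ↥K,
      (x : G) ∈ (frattini ↥(P : Subgroup G)).map (P : Subgroup G).subtype →
      x ∈ (frattini ↥Q).map Q.subtype := by
    intro Q hQ x hx
    subst hQ
    obtain ⟨y, hy, hyx⟩ := Subgroup.mem_map.mp hx
    refine Subgroup.mem_map.mpr ⟨(Subgroup.subgroupOfEquivOfLe hPK).symm y, ?_, ?_⟩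
    · have h1 := frattini_le_comap_frattini_of_surjective
        (φ := (Subgroup.subgroupOfEquivOfLe hPK).symm.toMonoidHom)
        (Subgroup.subgroupOfEquivOfLe hPK).symm.surjective hy
      exact h1
    · apply Subtype.ext
      rw [← hyx]
      rfl
  have hT : Cfsg.HasNormalPComplement p ↥(A.subgroupOf K) := by
    refine @Cfsg.Agent.S0081.result ↥K _ _ p _ (P.subtype hPK) (A.subgroupOf K) hN' ?_
    intro x hx
    have hx1 : x ∈ A.subgroupOf K := (Subgroup.mem_inf.mp hx).1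
    have hx2 : x ∈ (P : Subgroup G).subgroupOf K := (Subgroup.mem_inf.mp hx).2
    have hx3 : (x : G) ∈ A ⊓ (P : Subgroup G) :=
      Subgroup.mem_inf.mpr ⟨Subgroup.mem_subgroupOf.mp hx1, Subgroup.mem_subgroupOf.mp hx2⟩
    exact aux ((P.subtype hPK : Sylow p ↥K) : Subgroup ↥K) rfl x (h hx3)
  obtain ⟨P₁, M₁, hM₁, hc⟩ := hT
  obtain ⟨ι, hι⟩ : ∃ ι : ↥(A.subgroupOf K) →* G,
      ι = K.subtype.comp (A.subgroupOf K).subtype := ⟨_, rfl⟩
  have hιv : ∀ z : ↥(A.subgroupOf K), ι z = ((z : ↥K) : G) := by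
    intro z; rw [hι]; rfl
  have hιinj : Function.Injective ι := by
    intro a b hab
    rw [hιv, hιv] at hab
    exact Subtype.ext (Subtype.ext hab)
  have hιA : ∀ z : ↥(A.subgroupOf K), ι z ∈ A := by
    intro z; rw [hιv]; exact Subgroup.mem_subgroupOf.mp z.2
  have hlift : ∀ a ∈ A, ∃ z : ↥(A.subgroupOf K), ι z = a := by
    intro a ha
    exact ⟨⟨⟨a, hAK ha⟩, Subgroup.mem_subgroupOf.mpr ha⟩, hιv _⟩
  have hnorm : ∀ z : ↥(A.subgroupOf K), ∀ g : G, g ∈ M₁.map ι →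
      ι z * g * (ι z)⁻¹ ∈ M₁.map ι := by
    intro z g hg
    obtain ⟨m, hm, rfl⟩ := Subgroup.mem_map.mp hg
    refine Subgroup.mem_map.mpr ⟨z * m * z⁻¹, hM₁.conj_mem m hm z, ?_⟩
    rw [map_mul, map_mul, map_inv]
  refine ⟨M₁.map ι, ?_, ?_, ?_, ?_⟩
  · intro m hm
    obtain ⟨z, -, rfl⟩ := Subgroup.mem_map.mp hm
    exact hιA z
  · intro a ha
    obtain ⟨z, rfl⟩ := hlift a ha
    rw [Subgroup.mem_normalizer_iff]
    intro g
    constructor
    · intro hg
      exact hnorm z g hg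
    · intro hg
      have h1 := hnorm z⁻¹ _ hg
      have h2 : ι z⁻¹ * (ι z * g * (ι z)⁻¹) * (ι z⁻¹)⁻¹ = g := by
        rw [map_inv, inv_inv]
        simp only [mul_assoc, inv_mul_cancel, mul_one, inv_mul_cancel_left]
      rw [h2] at h1
      exact h1
  · have hcard : Nat.card ↥(M₁.map ι) = Nat.card ↥M₁ := Subgroup.card_map_of_injective hιinj
    have h1 : (P₁ : Subgroup ↥(A.subgroupOf K)).index = Nat.card ↥M₁ := hc.index_eq_card
    rw [hcard, ← h1]
    exact ((Fact.out : p.Prime).coprime_iff_not_dvd.mpr P₁.not_dvd_index).symm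
  · intro a ha
    obtain ⟨z, rfl⟩ := hlift a ha
    obtain ⟨j, hj⟩ := IsPGroup.iff_card.mp P₁.isPGroup'
    have h1 : M₁.index = Nat.card ↥(P₁ : Subgroup ↥(A.subgroupOf K)) := hc.symm.index_eq_card
    have h3 : M₁.index = p ^ j := by rw [h1]; exact hj
    have h2 : z ^ M₁.index ∈ M₁ := @Subgroup.pow_index_mem _ _ M₁ hM₁ z
    rw [h3] at h2
    refine ⟨j, Subgroup.mem_map.mpr ⟨z ^ p ^ j, h2, ?_⟩⟩
    rw [map_pow]

end Cfsg.Agent.Helper2.S4172c
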