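import Mathlib

/-!
# Schur–Burnside: a transitive group with a regular cyclic subgroup of composite order
is imprimitive or doubly transitive (elementary Schur-ring argument).
-/

set_option autoImplicit false
open scoped Classical

namespace Cfsg.Agent.Helper2.Schur

noncomputable section

section Core

variable {H : Type*} [CommGroup H] [Fintype H]

/-- Schur partition axioms for an equivalence relation on a finite abelian group. -/
structure SP (Rel : H → H → Prop) : Prop where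
  refl : ∀ c, Rel c c
  symm : ∀ c c', Rel c c' → Rel c' c
  trans : ∀ c c' c'', Rel c c' → Rel c' c'' → Rel c c''
  one : ∀ c, Rel 1 c → c = 1
  inv : ∀ c c', Rel c c' → Rel c⁻¹ c'⁻¹
  conv : ∀ x x', Rel x x' → ∃ σ : H ≃ H, ∀ y, Rel y (σ y) ∧ Rel (y⁻¹ * x) ((σ y)⁻¹ * x')

/-- unions of classes -/
def Closed (Rel : H → H → Prop) (T : Finset H) : Prop := ∀ c c', Rel c c' → c ∈ T → c' ∈ T

/-- class functions in the group algebra -/
def IsCF (Rel : H → H → Prop) {R : Type*} [CommSemiring R] (f : MonoidAlgebra R H) : Prop :=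
  ∀ c c', Rel c c' → f.coeff c = f.coeff c'

/-- indicator element -/
def ind (R : Type*) [CommSemiring R] (T : Finset H) : MonoidAlgebra R H :=
  ∑ t ∈ T, MonoidAlgebra.single t (1 : R)

theorem co_ind (R : Type*) [CommSemiring R] (T : Finset H) (x : H) :
    (ind R T).coeff x = if x ∈ T then 1 else 0 := by
  unfold ind
  rw [MonoidAlgebra.coeff_sum, Finsupp.finsetSum_apply]
  simp [MonoidAlgebra.coeff_single, Finsupp.single_apply]

theorem co_mul {R : Type*} [CommSemiring R] (f g : MonoidAlgebra R H) (x : H) :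
    (f * g).coeff x = ∑ y, f.coeff y * g.coeff (y⁻¹ * x) := by
  rw [MonoidAlgebra.coeff_mul_apply_left, Finsupp.sum_fintype]
  intro i; simp

theorem IsCF.mul {Rel : H → H → Prop} (hS : SP Rel) {R : Type*} [CommSemiring R]
    {f g : MonoidAlgebra R H} (hf : IsCF Rel f) (hg : IsCF Rel g) : IsCF Rel (f * g) := by
  intro x x' hxx
  obtain ⟨σ, hσ⟩ := hS.conv x x' hxx
  rw [co_mul, co_mul]
  calc ∑ y, f.coeff y * g.coeff (y⁻¹ * x)
      = ∑ y, f.coeff (σ y) * g.coeff ((σ y)⁻¹ * x') := by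
        refine Finset.sum_congr rfl (fun y _ => ?_)
        rw [hf y (σ y) (hσ y).1, hg (y⁻¹ * x) ((σ y)⁻¹ * x') (hσ y).2]
    _ = ∑ y, f.coeff y * g.coeff (y⁻¹ * x') :=
        Equiv.sum_comp σ (fun y => f.coeff y * g.coeff (y⁻¹ * x'))

theorem isCF_ind {Rel : H → H → Prop} (hS : SP Rel) (R : Type*) [CommSemiring R] {T : Finset H}
    (hT : Closed Rel T) : IsCF Rel (ind R T) := by
  intro c c' h
  rw [co_ind, co_ind]
  by_cases hc : c ∈ T
  · rw [if_pos hc, if_pos (hT c c' h hc)]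
  · have hc' : c' ∉ T := fun h' => hc (hT c' c (hS.symm c c' h) h')
    rw [if_neg hc, if_neg hc']

theorem isCF_one {Rel : H → H → Prop} (hS : SP Rel) (R : Type*) [CommSemiring R] :
    IsCF Rel (1 : MonoidAlgebra R H) := by
  have h1 : (1 : MonoidAlgebra R H) = ind R ({1} : Finset H) := by
    unfold ind
    rw [Finset.sum_singleton, MonoidAlgebra.one_def]
  rw [h1]
  apply isCF_ind hS
  intro c c' h hc
  rw [Finset.mem_singleton] at hc ⊢
  rw [hc] at h
  exact hS.one c' h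

theorem IsCF.pow {Rel : H → H → Prop} (hS : SP Rel) {R : Type*} [CommSemiring R]
    {f : MonoidAlgebra R H} (hf : IsCF Rel f) (k : ℕ) : IsCF Rel (f ^ k) := by
  induction k with
  | zero => rw [pow_zero]; exact isCF_one hS R
  | succ k ih => rw [pow_succ]; exact IsCF.mul hS ih hf

theorem co_ind_mul (R : Type*) [CommSemiring R] (T S : Finset H) (x : H) :
    (ind R T * ind R S).coeff x = ((T.filter (fun y => y⁻¹ * x ∈ S)).card : R) := by
  rw [co_mul]
  have h1 : ∀ y : H, (ind R T).coeff y * (ind R S).coeff (y⁻¹ * x)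
      = if y ∈ T ∧ y⁻¹ * x ∈ S then (1 : R) else 0 := by
    intro y
    rw [co_ind, co_ind]
    by_cases h1 : y ∈ T <;> by_cases h2 : y⁻¹ * x ∈ S <;> simp [h1, h2]
  rw [Finset.sum_congr rfl (fun y _ => h1 y), Finset.sum_boole]
  have h2 : (Finset.univ.filter (fun y : H => y ∈ T ∧ y⁻¹ * x ∈ S))
      = T.filter (fun y => y⁻¹ * x ∈ S) := by
    ext y; simp
  rw [h2]

theorem charP_inst (p : ℕ) [Fact p.Prime] : CharP (MonoidAlgebra (ZMod p) H) p := by
  rw [CharP.charP_iff_prime_eq_zero (Fact.out : p.Prime)]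
  rw [MonoidAlgebra.natCast_def, CharP.cast_eq_zero, MonoidAlgebra.single_zero]

theorem ind_pow_p (p : ℕ) [Fact p.Prime] (T : Finset H) :
    (ind (ZMod p) T) ^ p = ∑ t ∈ T, MonoidAlgebra.single (t ^ p) (1 : ZMod p) := by
  have := charP_inst (H := H) p
  unfold ind
  rw [sum_pow_char p]
  refine Finset.sum_congr rfl (fun t _ => ?_)
  rw [MonoidAlgebra.single_pow, one_pow]

theorem co_ind_pow_p (p : ℕ) [Fact p.Prime] (T : Finset H) (x : H) :
    ((ind (ZMod p) T) ^ p).coeff x = ((T.filter (fun t => t ^ p = x)).card : ZMod p) := by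
  rw [ind_pow_p, MonoidAlgebra.coeff_sum, Finsupp.finsetSum_apply]
  simp only [MonoidAlgebra.coeff_single, Finsupp.single_apply]
  rw [Finset.sum_boole]

theorem closure_closed {Rel : H → H → Prop} (hS : SP Rel) {T : Finset H} (hT : Closed Rel T) :
    ∀ l ∈ Subgroup.closure (T : Set H), ∀ c, Rel l c → c ∈ Subgroup.closure (T : Set H) := by
  intro l hl
  refine Subgroup.closure_induction
    (p := fun l _ => ∀ c, Rel l c → c ∈ Subgroup.closure (T : Set H)) ?_ ?_ ?_ ?_ hl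
  · intro t ht c hc
    exact Subgroup.subset_closure (hT t c hc ht)
  · intro c hc
    rw [hS.one c hc]; exact Subgroup.one_mem _
  · intro l₁ l₂ _ _ h1 h2 c hc
    obtain ⟨σ, hσ⟩ := hS.conv (l₁ * l₂) c hc
    have h3 := h1 (σ l₁) (hσ l₁).1
    have h4 : Rel l₂ ((σ l₁)⁻¹ * c) := by
      have h5 := (hσ l₁).2
      rw [inv_mul_cancel_left] at h5
      exact h5
    have h6 := h2 _ h4
    have h7 := Subgroup.mul_mem _ h3 h6
    rw [mul_inv_cancel_left] at h7
    exact h7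
  · intro l _ h1 c hc
    have h2 := hS.inv _ _ hc
    rw [inv_inv] at h2
    have h3 := h1 _ h2
    have h4 := Subgroup.inv_mem _ h3
    rw [inv_inv] at h4
    exact h4

theorem closure_eq_top {Rel : H → H → Prop} (hS : SP Rel)
    (hprim : ∀ L : Subgroup H, (∀ l ∈ L, ∀ c, Rel l c → c ∈ L) → L = ⊥ ∨ L = ⊤)
    {T : Finset H} (hT : Closed Rel T) {t : H} (ht : t ∈ T) (ht1 : t ≠ 1) :
    Subgroup.closure (T : Set H) = ⊤ := by
  rcases hprim _ (closure_closed hS hT) with h | h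
  · exfalso
    have h1 : t ∈ Subgroup.closure (T : Set H) := Subgroup.subset_closure ht
    rw [h, Subgroup.mem_bot] at h1
    exact ht1 h1
  · exact h

theorem U_le [IsCyclic H] {p : ℕ} (hp : 0 < p) :
    (Finset.univ.filter (fun a : H => a ^ p = 1)).card ≤ p :=
  IsCyclic.card_pow_eq_one_le (α := H) hp

theorem fiber_le [IsCyclic H] {p : ℕ} (hp : 0 < p) (x : H) :
    (Finset.univ.filter (fun c : H => c ^ p = x)).card ≤ p := by
  by_cases hne : (Finset.univ.filter (fun c : H => c ^ p = x)).Nonempty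
  · obtain ⟨c₀, hc₀⟩ := hne
    rw [Finset.mem_filter] at hc₀
    refine le_trans (Finset.card_le_card_of_injOn (fun c => c * c₀⁻¹) ?_ ?_) (U_le (H := H) hp)
    · intro c hc
      have hc' : c ^ p = x := by simpa using hc
      suffices h : (c * c₀⁻¹) ^ p = 1 by simpa using h
      rw [mul_pow, inv_pow, hc', hc₀.2, mul_inv_cancel]
    · intro a _ b _ hab
      have hab' : a * c₀⁻¹ = b * c₀⁻¹ := hab
      exact mul_right_cancel hab'
  · rw [Finset.not_nonempty_iff_eq_empty] at hne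
    rw [hne, Finset.card_empty]; exact Nat.zero_le _

theorem F_dvd {p : ℕ} (X : Finset H)
    (hX : ∀ y ∈ X, (Finset.univ.filter (fun c : H => c ^ p = y ^ p)).card = p ∧
      ∀ c : H, c ^ p = y ^ p → c ∈ X) : p ∣ X.card := by
  have h1 : X.card = ∑ z ∈ X.image (fun y => y ^ p), (X.filter (fun a => a ^ p = z)).card :=
    Finset.card_eq_sum_card_fiberwise (by
      intro y hy
      exact Finset.mem_coe.mpr (Finset.mem_image_of_mem _ (Finset.mem_coe.mp hy)))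
  rw [h1]
  apply Finset.dvd_sum
  intro z hz
  obtain ⟨y, hy, rfl⟩ := Finset.mem_image.mp hz
  have h2 : X.filter (fun a => a ^ p = y ^ p)
      = Finset.univ.filter (fun c : H => c ^ p = y ^ p) := by
    ext c
    rw [Finset.mem_filter, Finset.mem_filter]
    constructor
    · intro h; exact ⟨Finset.mem_univ _, h.2⟩
    · intro h; exact ⟨(hX y hy).2 c h.2, h.2⟩
  have h3 : (X.filter (fun a => a ^ p = y ^ p)).card = p := by
    rw [h2]; exact (hX y hy).1
  exact dvd_of_eq h3.symm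

/-- the standing hypotheses -/
structure Ctx (Rel : H → H → Prop) (p : ℕ) : Prop where
  sp : SP Rel
  prim : ∀ L : Subgroup H, (∀ l ∈ L, ∀ c, Rel l c → c ∈ L) → L = ⊥ ∨ L = ⊤
  cyc : IsCyclic H
  pp : p.Prime
  pdvd : p ∣ Fintype.card H
  plt : p < Fintype.card H

/-- a nontrivial class -/
structure NT (Rel : H → H → Prop) (T : Finset H) : Prop where
  closed : Closed Rel T
  one : (1 : H) ∉ T
  ne : T.Nonempty
  single : ∀ a ∈ T, ∀ b ∈ T, Rel a b

theorem exists_u0 {Rel : H → H → Prop} {p : ℕ} (hC : Ctx Rel p) : ∃ u₀ : H, u₀ ^ p = 1 ∧ u₀ ≠ 1 := by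
  have hp : Fact p.Prime := ⟨hC.pp⟩
  obtain ⟨u₀, hu₀⟩ := exists_prime_orderOf_dvd_card' (G := H) p
    (by rw [Nat.card_eq_fintype_card]; exact hC.pdvd)
  refine ⟨u₀, ?_, ?_⟩
  · rw [← hu₀]; exact pow_orderOf_eq_one u₀
  · intro h
    rw [h, orderOf_one] at hu₀
    exact hC.pp.one_lt.ne' hu₀.symm

theorem A1 {Rel : H → H → Prop} {p : ℕ} (hC : Ctx Rel p) {T : Finset H} (hT : Closed Rel T) :
    ∀ x : H, x ≠ 1 → ((T.filter (fun t => t ^ p = x)).card : ZMod p) = 0 := by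
  have := hC.cyc
  have hp : Fact p.Prime := ⟨hC.pp⟩
  intro x hx
  by_contra hne
  have hf : IsCF Rel ((ind (ZMod p) T) ^ p) := IsCF.pow hC.sp (isCF_ind hC.sp (ZMod p) hT) p
  obtain ⟨D, hD⟩ : ∃ D : Finset H, D = Finset.univ.filter
      (fun y => ((T.filter (fun t => t ^ p = y)).card : ZMod p) ≠ 0) := ⟨_, rfl⟩
  have hDmem : ∀ y, y ∈ D ↔ ((T.filter (fun t => t ^ p = y)).card : ZMod p) ≠ 0 := by
    intro y; rw [hD, Finset.mem_filter]; simp
  have hDc : Closed Rel D := by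
    intro a b hab ha
    rw [hDmem] at ha ⊢
    have h1 := hf a b hab
    rw [co_ind_pow_p, co_ind_pow_p] at h1
    rw [← h1]; exact ha
  have hxD : x ∈ D := (hDmem x).mpr hne
  have htop := closure_eq_top hC.sp hC.prim hDc hxD hx
  have hle : Subgroup.closure (D : Set H) ≤ (powMonoidHom p : H →* H).range := by
    rw [Subgroup.closure_le]
    intro y hy
    have hy' := (hDmem y).mp hy
    have hne2 : (T.filter (fun t => t ^ p = y)).Nonempty := by
      rw [Finset.nonempty_iff_ne_empty]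
      intro h0
      rw [h0, Finset.card_empty, Nat.cast_zero] at hy'
      exact hy' rfl
    obtain ⟨t, ht⟩ := hne2
    exact MonoidHom.mem_range.mpr ⟨t, (Finset.mem_filter.mp ht).2⟩
  rw [htop] at hle
  have hsurj : Function.Surjective (fun a : H => a ^ p) := by
    intro y
    obtain ⟨t, ht⟩ := MonoidHom.mem_range.mp (hle (Subgroup.mem_top y))
    exact ⟨t, ht⟩
  have hinj := Finite.injective_iff_surjective.mpr hsurj
  obtain ⟨u₀, hu₀p, hu₀1⟩ := exists_u0 hC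
  apply hu₀1
  apply hinj
  show u₀ ^ p = 1 ^ p
  rw [hu₀p, one_pow]

theorem A2 {Rel : H → H → Prop} {p : ℕ} (hC : Ctx Rel p) {T : Finset H} (hT : Closed Rel T)
    {t : H} (ht : t ∈ T) (htp : t ^ p ≠ 1) :
    (Finset.univ.filter (fun c : H => c ^ p = t ^ p)).card = p ∧
      ∀ c : H, c ^ p = t ^ p → c ∈ T := by
  have := hC.cyc
  have hp : Fact p.Prime := ⟨hC.pp⟩
  have h0 := A1 hC hT (t ^ p) htp
  have hdvd : p ∣ (T.filter (fun c => c ^ p = t ^ p)).card :=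
    (CharP.cast_eq_zero_iff (ZMod p) p _).mp h0
  have hpos : 0 < (T.filter (fun c => c ^ p = t ^ p)).card :=
    Finset.card_pos.mpr ⟨t, Finset.mem_filter.mpr ⟨ht, rfl⟩⟩
  have hsub : T.filter (fun c => c ^ p = t ^ p)
      ⊆ Finset.univ.filter (fun c : H => c ^ p = t ^ p) := by
    intro c hc
    rw [Finset.mem_filter] at hc ⊢
    exact ⟨Finset.mem_univ _, hc.2⟩
  have hle1 := Finset.card_le_card hsub
  have hle2 := fiber_le (H := H) hC.pp.pos (t ^ p)
  have hge := Nat.le_of_dvd hpos hdvd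
  have hFp : (Finset.univ.filter (fun c : H => c ^ p = t ^ p)).card = p :=
    le_antisymm hle2 (le_trans hge hle1)
  have heq := Finset.eq_of_subset_of_card_le hsub (by rw [hFp]; exact hge)
  refine ⟨hFp, fun c hc => ?_⟩
  have h1 : c ∈ Finset.univ.filter (fun c : H => c ^ p = t ^ p) :=
    Finset.mem_filter.mpr ⟨Finset.mem_univ _, hc⟩
  rw [← heq] at h1
  exact (Finset.mem_filter.mp h1).1

theorem A3 {Rel : H → H → Prop} {p : ℕ} (hC : Ctx Rel p) {T : Finset H} (hT : NT Rel T) :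
    ∃ w ∈ T, w ^ p ≠ 1 := by
  have := hC.cyc
  by_contra hne
  have hall : ∀ t ∈ T, t ^ p = 1 := by
    intro t ht
    by_contra h
    exact hne ⟨t, ht, h⟩
  obtain ⟨t, ht⟩ := hT.ne
  have ht1 : t ≠ 1 := fun h => hT.one (h ▸ ht)
  have htop := closure_eq_top hC.sp hC.prim hT.closed ht ht1
  have hle : Subgroup.closure (T : Set H) ≤ (powMonoidHom p : H →* H).ker := by
    rw [Subgroup.closure_le]
    intro y hy
    exact MonoidHom.mem_ker.mpr (hall y hy)
  rw [htop] at hle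
  have hall2 : ∀ c : H, c ^ p = 1 := fun c => MonoidHom.mem_ker.mp (hle (Subgroup.mem_top c))
  have h1 : (Finset.univ.filter (fun a : H => a ^ p = 1)) = Finset.univ := by
    ext c; simp [hall2 c]
  have h2 := U_le (H := H) hC.pp.pos
  rw [h1, Finset.card_univ] at h2
  exact absurd hC.plt (not_lt.mpr h2)

theorem A4 {Rel : H → H → Prop} {p : ℕ} (hC : Ctx Rel p) {T : Finset H} (hT : NT Rel T) :
    ∃ u ∈ T, u ^ p = 1 := by
  have := hC.cyc
  have hp : Fact p.Prime := ⟨hC.pp⟩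
  by_contra hne
  have hall : ∀ t ∈ T, t ^ p ≠ 1 := fun t ht h => hne ⟨t, ht, h⟩
  have hfib : ∀ t ∈ T, ∀ c : H, c ^ p = t ^ p → c ∈ T :=
    fun t ht => (A2 hC hT.closed ht (hall t ht)).2
  obtain ⟨u₀, hu₀p, hu₀1⟩ := exists_u0 hC
  obtain ⟨Ti, hTi⟩ : ∃ Ti : Finset H, Ti = T.image (fun t => t⁻¹) := ⟨_, rfl⟩
  have hTimem : ∀ z, z ∈ Ti ↔ z⁻¹ ∈ T := by
    intro z
    rw [hTi, Finset.mem_image]
    constructor
    · rintro ⟨t, ht, rfl⟩; rw [inv_inv]; exact ht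
    · intro h; exact ⟨z⁻¹, h, inv_inv z⟩
  have hTic : Closed Rel Ti := by
    intro a b hab ha
    rw [hTimem] at ha ⊢
    exact hT.closed _ _ (hC.sp.inv a b hab) ha
  have hf : IsCF Rel (ind ℤ T * ind ℤ Ti) :=
    IsCF.mul hC.sp (isCF_ind hC.sp ℤ hT.closed) (isCF_ind hC.sp ℤ hTic)
  have hcnt : ∀ v, (T.filter (fun y => y⁻¹ * v ∈ Ti)) = T.filter (fun y => v⁻¹ * y ∈ T) := by
    intro v
    apply Finset.filter_congr
    intro y _
    rw [hTimem, mul_inv_rev, inv_inv]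
  obtain ⟨W, hW⟩ : ∃ W : Finset H, W = Finset.univ.filter
      (fun v => (T.filter (fun y => v⁻¹ * y ∈ T)).card = T.card) := ⟨_, rfl⟩
  have hWmem : ∀ v, v ∈ W ↔ (T.filter (fun y => v⁻¹ * y ∈ T)).card = T.card := by
    intro v; rw [hW, Finset.mem_filter]; simp
  have hWc : Closed Rel W := by
    intro a b hab ha
    rw [hWmem] at ha ⊢
    have h1 := hf a b hab
    rw [co_ind_mul, co_ind_mul, hcnt, hcnt] at h1
    have h2 := Nat.cast_inj.mp h1
    rw [← h2]; exact ha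
  have hu₀W : u₀ ∈ W := by
    rw [hWmem]
    congr 1
    apply Finset.filter_true_of_mem
    intro y hy
    apply hfib y hy
    rw [mul_pow, inv_pow, hu₀p, inv_one, one_mul]
  have htop := closure_eq_top hC.sp hC.prim hWc hu₀W hu₀1
  obtain ⟨V, hV⟩ : ∃ V : Subgroup H, ∀ v, v ∈ V ↔ ∀ t, t ∈ T ↔ v * t ∈ T := by
    refine ⟨{ carrier := {v | ∀ t, t ∈ T ↔ v * t ∈ T}
              mul_mem' := ?_
              one_mem' := ?_
              inv_mem' := ?_ }, fun v => Iff.rfl⟩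
    · intro a b ha hb
      have ha' : ∀ t, t ∈ T ↔ a * t ∈ T := ha
      have hb' : ∀ t, t ∈ T ↔ b * t ∈ T := hb
      show ∀ t, t ∈ T ↔ a * b * t ∈ T
      intro t
      rw [hb' t, ha' (b * t), mul_assoc]
    · show ∀ t, t ∈ T ↔ 1 * t ∈ T
      intro t
      rw [one_mul]
    · intro a ha
      have ha' : ∀ t, t ∈ T ↔ a * t ∈ T := ha
      show ∀ t, t ∈ T ↔ a⁻¹ * t ∈ T
      intro t
      rw [ha' (a⁻¹ * t), mul_inv_cancel_left]
  have hWV : Subgroup.closure (W : Set H) ≤ V := by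
    rw [Subgroup.closure_le]
    intro v hv
    have hv' := (hWmem v).mp hv
    have hfe := Finset.eq_of_subset_of_card_le
      (Finset.filter_subset (fun y => v⁻¹ * y ∈ T) T) (le_of_eq hv'.symm)
    have hi : ∀ y ∈ T, v⁻¹ * y ∈ T := by
      intro y hy
      rw [← hfe] at hy
      exact (Finset.mem_filter.mp hy).2
    have himg : T.image (fun y => v⁻¹ * y) = T := by
      apply Finset.eq_of_subset_of_card_le
      · intro z hz
        obtain ⟨y, hy, rfl⟩ := Finset.mem_image.mp hz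
        exact hi y hy
      · exact le_of_eq (Finset.card_image_of_injective _ (mul_right_injective v⁻¹)).symm
    apply (hV v).mpr
    intro t
    constructor
    · intro ht
      rw [← himg] at ht
      obtain ⟨y, hy, hyt⟩ := Finset.mem_image.mp ht
      have hyt' : v⁻¹ * y = t := hyt
      have e : v * t = y := by rw [← hyt', mul_inv_cancel_left]
      rw [e]; exact hy
    · intro ht
      have h1 := hi _ ht
      rw [inv_mul_cancel_left] at h1
      exact h1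
  rw [htop] at hWV
  obtain ⟨t₀, ht₀⟩ := hT.ne
  have h1 := (hV t₀⁻¹).mp (hWV (Subgroup.mem_top _)) t₀
  rw [inv_mul_cancel] at h1
  exact hT.one (h1.mp ht₀)

theorem A5 {Rel : H → H → Prop} {p : ℕ} (hC : Ctx Rel p) {T : Finset H} (hT : NT Rel T)
    {u w : H} (hu : u ∈ T) (hup : u ^ p = 1) (hw : w ∈ T) (hwp : w ^ p ≠ 1) :
    (((T.filter (fun t => t ^ p = 1)).filter (fun y => y⁻¹ * u ∈ T)).card : ZMod p)
      = 2 * ((T.filter (fun t => t ^ p = 1)).card : ZMod p) := by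
  have := hC.cyc
  have hp : Fact p.Prime := ⟨hC.pp⟩
  have hA2 : ∀ t ∈ T, t ^ p ≠ 1 →
      (Finset.univ.filter (fun c : H => c ^ p = t ^ p)).card = p ∧
        ∀ c : H, c ^ p = t ^ p → c ∈ T :=
    fun t ht htp => A2 hC hT.closed ht htp
  have hf : IsCF Rel (ind (ZMod p) T * ind (ZMod p) T) :=
    IsCF.mul hC.sp (isCF_ind hC.sp _ hT.closed) (isCF_ind hC.sp _ hT.closed)
  have h1 := hf u w (hT.single u hu w hw)
  rw [co_ind_mul, co_ind_mul] at h1
  have hsplit : ∀ x : H, (T.filter (fun y => y⁻¹ * x ∈ T)).card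
      = ((T.filter (fun t => t ^ p = 1)).filter (fun y => y⁻¹ * x ∈ T)).card
        + ((T.filter (fun t => ¬ t ^ p = 1)).filter (fun y => y⁻¹ * x ∈ T)).card := by
    intro x
    have e1 : (T.filter (fun t => t ^ p = 1)).filter (fun y => y⁻¹ * x ∈ T)
        = (T.filter (fun y => y⁻¹ * x ∈ T)).filter (fun t => t ^ p = 1) := by
      ext y; simp only [Finset.mem_filter]; tauto
    have e2 : (T.filter (fun t => ¬ t ^ p = 1)).filter (fun y => y⁻¹ * x ∈ T)
        = (T.filter (fun y => y⁻¹ * x ∈ T)).filter (fun t => ¬ t ^ p = 1) := by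
      ext y; simp only [Finset.mem_filter]; tauto
    rw [e1, e2]
    exact (Finset.card_filter_add_card_filter_not (fun t => t ^ p = 1)).symm
  rw [hsplit u, hsplit w, Nat.cast_add, Nat.cast_add] at h1
  have hXu : (((T.filter (fun t => ¬ t ^ p = 1)).filter (fun y => y⁻¹ * u ∈ T)).card : ZMod p)
      = 0 := by
    rw [CharP.cast_eq_zero_iff (ZMod p) p]
    apply F_dvd
    intro y hy
    rw [Finset.mem_filter, Finset.mem_filter] at hy
    obtain ⟨⟨hyT, hyp⟩, hyu⟩ := hy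
    refine ⟨(hA2 y hyT hyp).1, fun c hc => ?_⟩
    rw [Finset.mem_filter, Finset.mem_filter]
    have hcp : ¬ c ^ p = 1 := by rw [hc]; exact hyp
    have hyup : (y⁻¹ * u) ^ p ≠ 1 := by
      rw [mul_pow, inv_pow, hup, mul_one]
      intro h
      exact hyp (inv_eq_one.mp h)
    refine ⟨⟨(hA2 y hyT hyp).2 c hc, hcp⟩, ?_⟩
    apply (hA2 _ hyu hyup).2
    rw [mul_pow, inv_pow, hc, mul_pow, inv_pow]
  have hT0w : (T.filter (fun t => t ^ p = 1)).filter (fun y => y⁻¹ * w ∈ T)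
      = T.filter (fun t => t ^ p = 1) := by
    apply Finset.filter_true_of_mem
    intro y hy
    rw [Finset.mem_filter] at hy
    apply (hA2 w hw hwp).2
    rw [mul_pow, inv_pow, hy.2, inv_one, one_mul]
  have hT1w : (((T.filter (fun t => ¬ t ^ p = 1)).filter (fun y => y⁻¹ * w ∈ T)).card : ZMod p)
      = ((T.filter (fun t => t ^ p = 1)).card : ZMod p) := by
    obtain ⟨S, hS⟩ : ∃ S : Finset H,
        S = (T.filter (fun t => ¬ t ^ p = 1)).filter (fun y => y⁻¹ * w ∈ T) := ⟨_, rfl⟩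
    rw [← hS]
    have hSmem : ∀ y, y ∈ S ↔ (y ∈ T ∧ ¬ y ^ p = 1) ∧ y⁻¹ * w ∈ T := by
      intro y; rw [hS, Finset.mem_filter, Finset.mem_filter]
    have hsp := Finset.card_filter_add_card_filter_not (s := S) (fun y => (y⁻¹ * w) ^ p = 1)
    rw [← hsp, Nat.cast_add]
    have hY0 : S.filter (fun y => (y⁻¹ * w) ^ p = 1)
        = (T.filter (fun t => t ^ p = 1)).image (fun u' => w * u'⁻¹) := by
      ext y
      rw [Finset.mem_filter, hSmem, Finset.mem_image]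
      constructor
      · rintro ⟨⟨⟨hyT, hyp⟩, hyw⟩, hywp⟩
        refine ⟨y⁻¹ * w, Finset.mem_filter.mpr ⟨hyw, hywp⟩, ?_⟩
        show w * (y⁻¹ * w)⁻¹ = y
        rw [mul_inv_rev, inv_inv, mul_inv_cancel_left]
      · rintro ⟨u', hu', hy⟩
        have hy' : y = w * u'⁻¹ := hy.symm
        subst hy'
        rw [Finset.mem_filter] at hu'
        have e1 : (w * u'⁻¹)⁻¹ * w = u' := by
          rw [mul_inv_rev, inv_inv, mul_assoc, inv_mul_cancel, mul_one]
        have e2 : (w * u'⁻¹) ^ p = w ^ p := by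
          rw [mul_pow, inv_pow, hu'.2, inv_one, mul_one]
        refine ⟨⟨⟨(hA2 w hw hwp).2 _ e2, ?_⟩, ?_⟩, ?_⟩
        · rw [e2]; exact hwp
        · rw [e1]; exact hu'.1
        · rw [e1]; exact hu'.2
    have hX : ((S.filter (fun y => ¬ (y⁻¹ * w) ^ p = 1)).card : ZMod p) = 0 := by
      rw [CharP.cast_eq_zero_iff (ZMod p) p]
      apply F_dvd
      intro y hy
      rw [Finset.mem_filter, hSmem] at hy
      obtain ⟨⟨⟨hyT, hyp⟩, hyw⟩, hywp⟩ := hy
      refine ⟨(hA2 y hyT hyp).1, fun c hc => ?_⟩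
      rw [Finset.mem_filter, hSmem]
      have hcp : ¬ c ^ p = 1 := by rw [hc]; exact hyp
      have e3 : (c⁻¹ * w) ^ p = (y⁻¹ * w) ^ p := by
        rw [mul_pow, inv_pow, hc, mul_pow, inv_pow]
      refine ⟨⟨⟨(hA2 y hyT hyp).2 c hc, hcp⟩, (hA2 _ hyw hywp).2 _ e3⟩, ?_⟩
      rw [e3]; exact hywp
    rw [hY0, hX, add_zero, Finset.card_image_of_injective]
    intro a b hab
    have hab' : w * a⁻¹ = w * b⁻¹ := hab
    exact inv_injective (mul_left_cancel hab')
  rw [hXu, hT0w, hT1w, add_zero] at h1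
  rw [h1, two_mul]

theorem core {Rel : H → H → Prop} {p : ℕ} (hC : Ctx Rel p) :
    ∀ c c' : H, c ≠ 1 → c' ≠ 1 → Rel c c' := by
  have := hC.cyc
  have hp : Fact p.Prime := ⟨hC.pp⟩
  have key : ∀ T : Finset H, NT Rel T → p ≤ 2 * (T.filter (fun t => t ^ p = 1)).card := by
    intro T hT
    obtain ⟨u, hu, hup⟩ := A4 hC hT
    obtain ⟨w, hw, hwp⟩ := A3 hC hT
    have h1 := A5 hC hT hu hup hw hwp
    by_contra hlt
    rw [not_le] at hlt
    obtain ⟨k, hk⟩ : ∃ k, k = (T.filter (fun t => t ^ p = 1)).card := ⟨_, rfl⟩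
    obtain ⟨m, hm⟩ : ∃ m, m = ((T.filter (fun t => t ^ p = 1)).filter
        (fun y => y⁻¹ * u ∈ T)).card := ⟨_, rfl⟩
    rw [← hk, ← hm] at h1
    rw [← hk] at hlt
    have hmk : m ≤ k := by rw [hm, hk]; exact Finset.card_le_card (Finset.filter_subset _ _)
    have hkpos : 0 < k := by
      rw [hk]; exact Finset.card_pos.mpr ⟨u, Finset.mem_filter.mpr ⟨hu, hup⟩⟩
    have h2 : ((m : ℕ) : ZMod p) = ((2 * k : ℕ) : ZMod p) := by
      rw [h1, Nat.cast_mul, Nat.cast_ofNat]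
    have h3 := (ZMod.natCast_eq_natCast_iff' m (2 * k) p).mp h2
    rw [Nat.mod_eq_of_lt (lt_of_le_of_lt hmk (by omega)), Nat.mod_eq_of_lt hlt] at h3
    omega
  intro c c' hc hc'
  by_contra hrel
  have hNT : ∀ d : H, d ≠ 1 → NT Rel (Finset.univ.filter (fun e => Rel d e)) := by
    intro d hd
    refine ⟨?_, ?_, ⟨d, Finset.mem_filter.mpr ⟨Finset.mem_univ _, hC.sp.refl d⟩⟩, ?_⟩
    · intro a b hab ha
      rw [Finset.mem_filter] at ha ⊢
      exact ⟨Finset.mem_univ _, hC.sp.trans _ _ _ ha.2 hab⟩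
    · intro h1
      rw [Finset.mem_filter] at h1
      exact hd (hC.sp.one d (hC.sp.symm _ _ h1.2))
    · intro a ha b hb
      rw [Finset.mem_filter] at ha hb
      exact hC.sp.trans _ _ _ (hC.sp.symm _ _ ha.2) hb.2
  have k1 := key _ (hNT c hc)
  have k2 := key _ (hNT c' hc')
  obtain ⟨A0, hA0⟩ : ∃ A0 : Finset H, A0 = (Finset.univ.filter (fun e => Rel c e)).filter
      (fun t => t ^ p = 1) := ⟨_, rfl⟩
  obtain ⟨B0, hB0⟩ : ∃ B0 : Finset H, B0 = (Finset.univ.filter (fun e => Rel c' e)).filter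
      (fun t => t ^ p = 1) := ⟨_, rfl⟩
  rw [← hA0] at k1
  rw [← hB0] at k2
  have hdisj : Disjoint A0 B0 := by
    rw [Finset.disjoint_left]
    intro x hxA hxB
    rw [hA0, Finset.mem_filter, Finset.mem_filter] at hxA
    rw [hB0, Finset.mem_filter, Finset.mem_filter] at hxB
    exact hrel (hC.sp.trans _ _ _ hxA.1.2 (hC.sp.symm _ _ hxB.1.2))
  have hsub : A0 ∪ B0 ⊆ (Finset.univ.filter (fun a : H => a ^ p = 1)).erase 1 := by
    intro x hx
    rw [Finset.mem_erase, Finset.mem_filter]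
    rw [Finset.mem_union] at hx
    rcases hx with hx | hx
    · rw [hA0, Finset.mem_filter, Finset.mem_filter] at hx
      refine ⟨?_, Finset.mem_univ _, hx.2⟩
      intro h1
      rw [h1] at hx
      exact hc (hC.sp.one c (hC.sp.symm _ _ hx.1.2))
    · rw [hB0, Finset.mem_filter, Finset.mem_filter] at hx
      refine ⟨?_, Finset.mem_univ _, hx.2⟩
      intro h1
      rw [h1] at hx
      exact hc' (hC.sp.one c' (hC.sp.symm _ _ hx.1.2))
  have hcard := Finset.card_le_card hsub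
  rw [Finset.card_union_of_disjoint hdisj] at hcard
  have hU := U_le (H := H) hC.pp.pos
  have h1mem : (1 : H) ∈ Finset.univ.filter (fun a : H => a ^ p = 1) :=
    Finset.mem_filter.mpr ⟨Finset.mem_univ _, one_pow p⟩
  rw [Finset.card_erase_of_mem h1mem] at hcard
  have := hC.pp.two_le
  omega

end Core

/-- The core theorem for a finite cyclic group with a Schur partition. -/
theorem core' {H : Type*} [Group H] [Finite H] [hcyc : IsCyclic H] (Rel : H → H → Prop)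
    (hrefl : ∀ c, Rel c c) (hsymm : ∀ c c', Rel c c' → Rel c' c)
    (htrans : ∀ c c' c'', Rel c c' → Rel c' c'' → Rel c c'')
    (hone : ∀ c, Rel 1 c → c = 1) (hinv : ∀ c c', Rel c c' → Rel c⁻¹ c'⁻¹)
    (hconv : ∀ x x', Rel x x' → ∃ σ : H ≃ H, ∀ y, Rel y (σ y) ∧ Rel (y⁻¹ * x) ((σ y)⁻¹ * x'))
    (hprim : ∀ L : Subgroup H, (∀ l ∈ L, ∀ c, Rel l c → c ∈ L) → L = ⊥ ∨ L = ⊤)
    (p : ℕ) (hp : p.Prime) (hpd : p ∣ Nat.card H) (hplt : p < Nat.card H) :
    ∀ c c' : H, c ≠ 1 → c' ≠ 1 → Rel c c' := by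
  letI : CommGroup H := IsCyclic.commGroup
  letI : Fintype H := Fintype.ofFinite H
  have hC : Ctx Rel p := ⟨⟨hrefl, hsymm, htrans, hone, hinv, hconv⟩, hprim, hcyc, hp,
    by rw [← Nat.card_eq_fintype_card]; exact hpd, by rw [← Nat.card_eq_fintype_card]; exact hplt⟩
  exact core hC

section Fac

variable {G : Type*} [Group G] (C A : Subgroup G)

/-- double coset relation on `C` -/
def RelCA (c c' : ↥C) : Prop := ∃ a₁ ∈ A, ∃ a₂ ∈ A, (c' : G) = a₁ * (c : G) * a₂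

/-- exact factorization `G = C A`, `C ∩ A = 1` -/
structure Fac : Prop where
  fac : ∀ g : G, ∃ c ∈ C, ∃ a ∈ A, g = c * a
  int : ∀ c ∈ C, c ∈ A → c = 1

theorem rel_refl (c : ↥C) : RelCA C A c c :=
  ⟨1, A.one_mem, 1, A.one_mem, by rw [one_mul, mul_one]⟩

theorem rel_symm {c c' : ↥C} (h : RelCA C A c c') : RelCA C A c' c := by
  obtain ⟨a₁, h₁, a₂, h₂, e⟩ := h
  exact ⟨a₁⁻¹, A.inv_mem h₁, a₂⁻¹, A.inv_mem h₂, by rw [e]; group⟩

theorem rel_trans {c c' c'' : ↥C} (h : RelCA C A c c') (h' : RelCA C A c' c'') :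
    RelCA C A c c'' := by
  obtain ⟨a₁, h₁, a₂, h₂, e⟩ := h
  obtain ⟨b₁, k₁, b₂, k₂, e'⟩ := h'
  exact ⟨b₁ * a₁, A.mul_mem k₁ h₁, a₂ * b₂, A.mul_mem h₂ k₂, by rw [e', e]; group⟩

theorem rel_one (hF : Fac C A) (c : ↥C) (h : RelCA C A 1 c) : c = 1 := by
  obtain ⟨a₁, h₁, a₂, h₂, e⟩ := h
  apply Subtype.ext
  show (c : G) = 1
  apply hF.int _ c.2
  rw [e]
  have h3 : ((1 : ↥C) : G) ∈ A := A.one_mem
  exact A.mul_mem (A.mul_mem h₁ h3) h₂

theorem rel_inv {c c' : ↥C} (h : RelCA C A c c') : RelCA C A c⁻¹ c'⁻¹ := by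
  obtain ⟨a₁, h₁, a₂, h₂, e⟩ := h
  refine ⟨a₂⁻¹, A.inv_mem h₂, a₁⁻¹, A.inv_mem h₁, ?_⟩
  show (c' : G)⁻¹ = a₂⁻¹ * (c : G)⁻¹ * a₁⁻¹
  rw [e]; group

theorem uniq (hF : Fac C A) {c₁ c₂ : ↥C} {a₁ a₂ : G} (h₁ : a₁ ∈ A) (h₂ : a₂ ∈ A)
    (e : (c₁ : G) * a₁ = (c₂ : G) * a₂) : c₁ = c₂ := by
  have h3 : (c₂ : G)⁻¹ * (c₁ : G) = a₂ * a₁⁻¹ := by
    calc (c₂ : G)⁻¹ * (c₁ : G) = (c₂ : G)⁻¹ * ((c₁ : G) * a₁) * a₁⁻¹ := by group
      _ = (c₂ : G)⁻¹ * ((c₂ : G) * a₂) * a₁⁻¹ := by rw [e]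
      _ = a₂ * a₁⁻¹ := by group
  have h4 : (c₂ : G)⁻¹ * (c₁ : G) = 1 := by
    apply hF.int
    · exact C.mul_mem (C.inv_mem c₂.2) c₁.2
    · rw [h3]; exact A.mul_mem h₂ (A.inv_mem h₁)
  apply Subtype.ext
  have h5 : (c₁ : G) = (c₂ : G) * ((c₂ : G)⁻¹ * (c₁ : G)) := by group
  rw [h5, h4, mul_one]

theorem rel_conv (hF : Fac C A) (x x' : ↥C) (h : RelCA C A x x') :
    ∃ σ : ↥C ≃ ↥C, ∀ y, RelCA C A y (σ y) ∧ RelCA C A (y⁻¹ * x) ((σ y)⁻¹ * x') := by
  obtain ⟨a₁, h₁, a₂, h₂, e⟩ := h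
  have hex : ∀ (b : G) (y : ↥C), ∃ c : ↥C, ∃ a ∈ A, b * (y : G) = (c : G) * a := by
    intro b y
    obtain ⟨c, hc, a, ha, e⟩ := hF.fac (b * y)
    exact ⟨⟨c, hc⟩, a, ha, e⟩
  choose f hf using hex a₁
  choose g hg using hex a₁⁻¹
  have hgf : ∀ y, g (f y) = y := by
    intro y
    obtain ⟨a, ha, e1⟩ := hf y
    obtain ⟨a', ha', e2⟩ := hg (f y)
    have e3 : (g (f y) : G) * a' = (y : G) * a⁻¹ := by
      rw [← e2]
      calc a₁⁻¹ * (f y : G) = a₁⁻¹ * ((f y : G) * a) * a⁻¹ := by group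
        _ = a₁⁻¹ * (a₁ * (y : G)) * a⁻¹ := by rw [e1]
        _ = (y : G) * a⁻¹ := by group
    exact uniq C A hF ha' (A.inv_mem ha) e3
  have hfg : ∀ y, f (g y) = y := by
    intro y
    obtain ⟨a, ha, e1⟩ := hg y
    obtain ⟨a', ha', e2⟩ := hf (g y)
    have e3 : (f (g y) : G) * a' = (y : G) * a⁻¹ := by
      rw [← e2]
      calc a₁ * (g y : G) = a₁ * ((g y : G) * a) * a⁻¹ := by group
        _ = a₁ * (a₁⁻¹ * (y : G)) * a⁻¹ := by rw [e1]
        _ = (y : G) * a⁻¹ := by group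
    exact uniq C A hF ha' (A.inv_mem ha) e3
  refine ⟨⟨f, g, hgf, hfg⟩, fun y => ?_⟩
  obtain ⟨a, ha, e1⟩ := hf y
  have e4 : (f y : G) = a₁ * (y : G) * a⁻¹ := by
    calc (f y : G) = ((f y : G) * a) * a⁻¹ := by group
      _ = a₁ * (y : G) * a⁻¹ := by rw [e1]
  constructor
  · exact ⟨a₁, h₁, a⁻¹, A.inv_mem ha, e4⟩
  · refine ⟨a, ha, a₂, h₂, ?_⟩
    show (f y : G)⁻¹ * (x' : G) = a * ((y : G)⁻¹ * (x : G)) * a₂
    rw [e4, e]; group

theorem exists_B (hF : Fac C A) (L : Subgroup ↥C)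
    (hL : ∀ l ∈ L, ∀ c, RelCA C A l c → c ∈ L) :
    ∃ B : Subgroup G, ∀ g, g ∈ B ↔ ∃ l ∈ L, ∃ a ∈ A, g = (l : G) * a := by
  have hsw : ∀ a ∈ A, ∀ l ∈ L, ∃ l' ∈ L, ∃ a' ∈ A, a * (l : G) = (l' : G) * a' := by
    intro a ha l hl
    obtain ⟨c, hc, a', ha', e⟩ := hF.fac (a * l)
    refine ⟨⟨c, hc⟩, hL l hl ⟨c, hc⟩ ⟨a, ha, a'⁻¹, A.inv_mem ha', ?_⟩, a', ha', e⟩
    show c = a * (l : G) * a'⁻¹
    rw [e]; group
  refine ⟨{ carrier := {g | ∃ l ∈ L, ∃ a ∈ A, g = (l : G) * a}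
            mul_mem' := ?_
            one_mem' := ⟨1, L.one_mem, 1, A.one_mem, by simp⟩
            inv_mem' := ?_ }, fun g => Iff.rfl⟩
  · rintro _ _ ⟨l, hl, a, ha, rfl⟩ ⟨l₂, hl₂, a₂, ha₂, rfl⟩
    obtain ⟨l', hl', a', ha', e⟩ := hsw a ha l₂ hl₂
    refine ⟨l * l', L.mul_mem hl hl', a' * a₂, A.mul_mem ha' ha₂, ?_⟩
    show (l : G) * a * ((l₂ : G) * a₂) = (l : G) * (l' : G) * (a' * a₂)
    calc (l : G) * a * ((l₂ : G) * a₂) = (l : G) * (a * (l₂ : G)) * a₂ := by group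
      _ = (l : G) * ((l' : G) * a') * a₂ := by rw [e]
      _ = (l : G) * (l' : G) * (a' * a₂) := by group
  · rintro _ ⟨l, hl, a, ha, rfl⟩
    obtain ⟨l', hl', a', ha', e⟩ := hsw a⁻¹ (A.inv_mem ha) l⁻¹ (L.inv_mem hl)
    refine ⟨l', hl', a', ha', ?_⟩
    rw [← e]
    show ((l : G) * a)⁻¹ = a⁻¹ * (l : G)⁻¹
    group

theorem prim_of_coatom (hF : Fac C A) (hA : IsCoatom A) (L : Subgroup ↥C)
    (hL : ∀ l ∈ L, ∀ c, RelCA C A l c → c ∈ L) : L = ⊥ ∨ L = ⊤ := by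
  obtain ⟨B, hB⟩ := exists_B C A hF L hL
  have hAB : A ≤ B := fun a ha => (hB a).mpr ⟨1, L.one_mem, a, ha, by simp⟩
  rcases eq_or_lt_of_le hAB with h | h
  · left
    rw [eq_bot_iff]
    intro l hl
    have h1 : (l : G) ∈ B := (hB _).mpr ⟨l, hl, 1, A.one_mem, by simp⟩
    rw [← h] at h1
    have h2 := hF.int _ l.2 h1
    rw [Subgroup.mem_bot]
    exact Subtype.ext h2
  · right
    have hBtop := hA.2 B h
    rw [eq_top_iff]
    intro c _
    have h1 : (c : G) ∈ B := by rw [hBtop]; exact Subgroup.mem_top _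
    obtain ⟨l, hl, a, ha, e⟩ := (hB _).mp h1
    have h2 : c = l := uniq C A hF (a₁ := 1) (a₂ := a) A.one_mem ha (by rw [mul_one]; exact e)
    rw [h2]; exact hl

end Fac

section Act

variable {G Ω : Type*} [Group G] [MulAction G Ω]

theorem fac_of_regular (C : Subgroup G) (α₀ : Ω)
    (hCt : ∀ a b : Ω, ∃ c ∈ C, c • a = b) (hCs : ∀ c ∈ C, ∀ a : Ω, c • a = a → c = 1) :
    Fac C (MulAction.stabilizer G α₀) := by
  constructor
  · intro g
    obtain ⟨c, hc, e⟩ := hCt α₀ (g • α₀)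
    refine ⟨c, hc, c⁻¹ * g, ?_, by group⟩
    rw [MulAction.mem_stabilizer_iff, mul_smul, ← e, inv_smul_smul]
  · intro c hc hcA
    exact hCs c hc α₀ (MulAction.mem_stabilizer_iff.mp hcA)

theorem two_trans_of_regular [Finite G] (C : Subgroup G) [hcyc : IsCyclic ↥C]
    (hCt : ∀ a b : Ω, ∃ c ∈ C, c • a = b) (hCs : ∀ c ∈ C, ∀ a : Ω, c • a = a → c = 1)
    (α₀ : Ω) (p : ℕ) (hp : p.Prime) (hpd : p ∣ Nat.card C) (hplt : p < Nat.card C)
    (hprim : ∀ L : Subgroup ↥C,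
      (∀ l ∈ L, ∀ c, RelCA C (MulAction.stabilizer G α₀) l c → c ∈ L) → L = ⊥ ∨ L = ⊤) :
    MulAction.IsMultiplyPretransitive G Ω 2 := by
  have hF := fac_of_regular C α₀ hCt hCs
  have hrel := core' (H := ↥C) (RelCA C (MulAction.stabilizer G α₀))
    (rel_refl C _) (fun c c' => rel_symm C _) (fun c c' c'' => rel_trans C _)
    (rel_one C _ hF) (fun c c' => rel_inv C _) (rel_conv C _ hF) hprim p hp hpd hplt
  rw [MulAction.is_two_pretransitive_iff]
  intro a b c d hab hcd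
  obtain ⟨g₁, hg₁C, hg₁⟩ := hCt a α₀
  obtain ⟨g₂, hg₂C, hg₂⟩ := hCt c α₀
  obtain ⟨x, hxC, hx⟩ := hCt α₀ (g₁ • b)
  obtain ⟨x', hx'C, hx'⟩ := hCt α₀ (g₂ • d)
  have hx1 : (⟨x, hxC⟩ : ↥C) ≠ 1 := by
    intro h
    have h1 : x = 1 := congrArg Subtype.val h
    rw [h1, one_smul] at hx
    apply hab
    have h2 : g₁ • a = g₁ • b := by rw [hg₁, ← hx]
    exact MulAction.injective g₁ h2
  have hx'1 : (⟨x', hx'C⟩ : ↥C) ≠ 1 := by
    intro h
    have h1 : x' = 1 := congrArg Subtype.val h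
    rw [h1, one_smul] at hx'
    apply hcd
    have h2 : g₂ • c = g₂ • d := by rw [hg₂, ← hx']
    exact MulAction.injective g₂ h2
  obtain ⟨a₁, ha₁, a₂, ha₂, e⟩ := hrel ⟨x, hxC⟩ ⟨x', hx'C⟩ hx1 hx'1
  have e' : x' = a₁ * x * a₂ := e
  rw [MulAction.mem_stabilizer_iff] at ha₁ ha₂
  refine ⟨g₂⁻¹ * a₁ * g₁, ?_, ?_⟩
  · rw [mul_smul, mul_smul, hg₁, ha₁, inv_smul_eq_iff]; exact hg₂.symm
  · rw [mul_smul, mul_smul, ← hx, inv_smul_eq_iff, ← hx']
    rw [e', mul_smul, mul_smul, ha₂]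

theorem mem_of_ne_bot {K₀ : Type*} [Group K₀] [Finite K₀] [IsCyclic K₀] {p m : ℕ} (hp : p.Prime)
    (hcard : Nat.card K₀ = p ^ m) (γ : K₀) (hγ : orderOf γ = p ^ m) (hm : 1 ≤ m)
    (K : Subgroup K₀) (hK : K ≠ ⊥) : γ ^ (p ^ (m - 1)) ∈ K := by
  letI : Fintype K₀ := Fintype.ofFinite K₀
  obtain ⟨k, hkK, hk1⟩ : ∃ k ∈ K, k ≠ 1 := by
    by_contra h
    apply hK
    rw [Subgroup.eq_bot_iff_forall]
    intro x hx
    by_contra hx1
    exact h ⟨x, hx, hx1⟩
  have hkd : orderOf k ∣ p ^ m := by rw [← hcard]; exact orderOf_dvd_natCard k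
  obtain ⟨j, hj, hkj⟩ := (Nat.dvd_prime_pow hp).mp hkd
  have hj0 : j ≠ 0 := by
    intro h0
    rw [h0, pow_zero] at hkj
    exact hk1 (orderOf_eq_one_iff.mp hkj)
  have hpk : p ∣ orderOf k := by rw [hkj]; exact dvd_pow_self p hj0
  obtain ⟨k₁, hk₁⟩ : ∃ k₁ : K₀, k₁ = k ^ (orderOf k / p) := ⟨_, rfl⟩
  have hk₁o : orderOf k₁ = p := by
    rw [hk₁]; exact orderOf_pow_orderOf_div (orderOf_pos k).ne' hpk
  have hk₁K : k₁ ∈ K := by rw [hk₁]; exact K.pow_mem hkK _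
  have hk₁p : k₁ ^ p = 1 := by rw [← hk₁o]; exact pow_orderOf_eq_one k₁
  obtain ⟨z, hz⟩ : ∃ z : K₀, z = γ ^ (p ^ (m - 1)) := ⟨_, rfl⟩
  have hzp : z ^ p = 1 := by
    rw [hz, ← pow_mul, ← pow_succ, Nat.sub_add_cancel hm, ← hγ]
    exact pow_orderOf_eq_one γ
  rw [← hz]
  have hS : (Finset.univ.filter (fun c : K₀ => c ^ p = 1)).card ≤ p :=
    IsCyclic.card_pow_eq_one_le (α := K₀) hp.pos
  obtain ⟨P, hP⟩ : ∃ P : Finset K₀, P = (Finset.range p).image (fun i => k₁ ^ i) := ⟨_, rfl⟩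
  have hPcard : P.card = p := by
    rw [hP, Finset.card_image_of_injOn, Finset.card_range]
    intro a ha b hb hab
    have ha' : a ∈ Set.Iio (orderOf k₁) := by rw [hk₁o]; exact Finset.mem_range.mp ha
    have hb' : b ∈ Set.Iio (orderOf k₁) := by rw [hk₁o]; exact Finset.mem_range.mp hb
    exact pow_injOn_Iio_orderOf ha' hb' hab
  have hPS : P ⊆ Finset.univ.filter (fun c : K₀ => c ^ p = 1) := by
    intro x hx
    rw [hP, Finset.mem_image] at hx
    obtain ⟨i, _, hi⟩ := hx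
    rw [Finset.mem_filter]
    refine ⟨Finset.mem_univ _, ?_⟩
    rw [← hi]
    show (k₁ ^ i) ^ p = 1
    rw [← pow_mul, mul_comm, pow_mul, hk₁p, one_pow]
  have hPeq := Finset.eq_of_subset_of_card_le hPS (by rw [hPcard]; exact hS)
  have hzS : z ∈ Finset.univ.filter (fun c : K₀ => c ^ p = 1) :=
    Finset.mem_filter.mpr ⟨Finset.mem_univ _, hzp⟩
  rw [← hPeq, hP, Finset.mem_image] at hzS
  obtain ⟨i, _, hi⟩ := hzS
  rw [← hi]
  exact K.pow_mem hk₁K i

/-- Schur: primitive groups with a regular cyclic subgroup of composite (non-prime-power)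
degree are doubly transitive. -/
theorem schur {G Ω : Type*} [Group G] [Finite G] [MulAction G Ω] [Finite Ω]
    (htrans : MulAction.IsPretransitive G Ω) (hn : 2 ≤ Nat.card Ω)
    (hnp : ¬ IsPrimePow (Nat.card Ω)) (C : Subgroup G) (hcyc : IsCyclic ↥C)
    (hC : MulAction.IsPretransitive ↥C Ω ∧ ∀ a : Ω, MulAction.stabilizer ↥C a = ⊥) :
    ¬ MulAction.IsPreprimitive G Ω ∨ MulAction.IsMultiplyPretransitive G Ω 2 := by
  by_cases hprim : MulAction.IsPreprimitive G Ω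
  swap
  · left; exact hprim
  right
  have hCt : ∀ a b : Ω, ∃ c ∈ C, c • a = b := by
    intro a b
    have := hC.1
    obtain ⟨c, hc⟩ := MulAction.exists_smul_eq ↥C a b
    exact ⟨c, c.2, hc⟩
  have hCs : ∀ c ∈ C, ∀ a : Ω, c • a = a → c = 1 := by
    intro c hc a hca
    have h1 : (⟨c, hc⟩ : ↥C) ∈ MulAction.stabilizer ↥C a := MulAction.mem_stabilizer_iff.mpr hca
    rw [hC.2 a, Subgroup.mem_bot] at h1
    exact congrArg Subtype.val h1
  have hnt : Nontrivial Ω := Finite.one_lt_card_iff_nontrivial.mp (by omega)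
  obtain ⟨α₀⟩ : Nonempty Ω := inferInstance
  have hbij : Function.Bijective (fun c : ↥C => (c : G) • α₀) := by
    constructor
    · intro c₁ c₂ h
      have h' : (c₁ : G) • α₀ = (c₂ : G) • α₀ := h
      have h3 : ((c₂ : G)⁻¹ * (c₁ : G)) • α₀ = α₀ := by rw [mul_smul, h', inv_smul_smul]
      have h4 := hCs _ (C.mul_mem (C.inv_mem c₂.2) c₁.2) α₀ h3
      apply Subtype.ext
      have h5 : (c₁ : G) = (c₂ : G) * ((c₂ : G)⁻¹ * (c₁ : G)) := by group
      rw [h5, h4, mul_one]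
    · intro b
      obtain ⟨c, hc, e⟩ := hCt α₀ b
      exact ⟨⟨c, hc⟩, e⟩
  have hcard : Nat.card ↥C = Nat.card Ω := Nat.card_eq_of_bijective _ hbij
  have hn1 : Nat.card Ω ≠ 1 := by omega
  have hp : (Nat.card Ω).minFac.Prime := Nat.minFac_prime hn1
  have hpd : (Nat.card Ω).minFac ∣ Nat.card Ω := Nat.minFac_dvd _
  have hplt : (Nat.card Ω).minFac < Nat.card Ω := by
    rcases lt_or_eq_of_le (Nat.minFac_le (by omega : 0 < Nat.card Ω)) with h | h
    · exact h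
    · exfalso
      apply hnp
      rw [← h]
      exact hp.isPrimePow
  have hA : IsCoatom (MulAction.stabilizer G α₀) :=
    (MulAction.isCoatom_stabilizer_iff_preprimitive G α₀).mpr hprim
  have hF := fac_of_regular C α₀ hCt hCs
  exact two_trans_of_regular C hCt hCs α₀ _ hp (by rw [hcard]; exact hpd)
    (by rw [hcard]; exact hplt) (prim_of_coatom C _ hF hA)

theorem regular_of_cyclic {G Ω : Type*} [Group G] [MulAction G Ω] [Finite G] [Finite Ω]
    (hfaith : ∀ x : G, (∀ ω : Ω, x • ω = ω) → x = 1)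
    {p m : ℕ} (hp : p.Prime) (hm : 1 ≤ m) (hΩ : Nat.card Ω = p ^ m) (g : G)
    (hg : orderOf g = p ^ m) :
    (∀ a b : Ω, ∃ c ∈ Subgroup.zpowers g, c • a = b) ∧
    (∀ c ∈ Subgroup.zpowers g, ∀ a : Ω, c • a = a → c = 1) := by
  obtain ⟨C, hCdef⟩ : ∃ C : Subgroup G, C = Subgroup.zpowers g := ⟨_, rfl⟩
  rw [← hCdef]
  have hcyc : IsCyclic ↥C := by rw [hCdef]; infer_instance
  have hcard : Nat.card ↥C = p ^ m := by rw [hCdef, Nat.card_zpowers, hg]
  obtain ⟨γ, hγ⟩ : ∃ γ : ↥C, (γ : G) = g :=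
    ⟨⟨g, by rw [hCdef]; exact Subgroup.mem_zpowers g⟩, rfl⟩
  have hγo : orderOf γ = p ^ m := by rw [← Subgroup.orderOf_coe, hγ]; exact hg
  have hex : ∃ ω₀ : Ω, ∀ c ∈ C, c • ω₀ = ω₀ → c = 1 := by
    by_contra hno
    have hfix : ∀ ω : Ω, (g ^ (p ^ (m - 1))) • ω = ω := by
      intro ω
      have hK : (MulAction.stabilizer G ω).subgroupOf C ≠ ⊥ := by
        intro hbot
        apply hno
        refine ⟨ω, fun c hc hcω => ?_⟩
        have h1 : (⟨c, hc⟩ : ↥C) ∈ (MulAction.stabilizer G ω).subgroupOf C := by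
          rw [Subgroup.mem_subgroupOf]
          exact MulAction.mem_stabilizer_iff.mpr hcω
        rw [hbot, Subgroup.mem_bot] at h1
        exact congrArg Subtype.val h1
      have h2 := mem_of_ne_bot hp hcard γ hγo hm _ hK
      rw [Subgroup.mem_subgroupOf] at h2
      have h3 := MulAction.mem_stabilizer_iff.mp h2
      have h4 : ((γ ^ (p ^ (m - 1)) : ↥C) : G) = g ^ (p ^ (m - 1)) := by
        rw [Subgroup.coe_pow, hγ]
      rw [h4] at h3
      exact h3
    have h5 := hfaith _ hfix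
    have h6 := orderOf_dvd_of_pow_eq_one h5
    rw [hg] at h6
    have h7 := (Nat.pow_dvd_pow_iff_le_right hp.one_lt).mp h6
    omega
  obtain ⟨ω₀, hω₀⟩ := hex
  have hinj : Function.Injective (fun c : ↥C => (c : G) • ω₀) := by
    intro c₁ c₂ h
    have h' : (c₁ : G) • ω₀ = (c₂ : G) • ω₀ := h
    have h3 : ((c₂ : G)⁻¹ * (c₁ : G)) • ω₀ = ω₀ := by rw [mul_smul, h', inv_smul_smul]
    have h4 := hω₀ _ (C.mul_mem (C.inv_mem c₂.2) c₁.2) h3
    apply Subtype.ext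
    have h5 : (c₁ : G) = (c₂ : G) * ((c₂ : G)⁻¹ * (c₁ : G)) := by group
    rw [h5, h4, mul_one]
  have hbij := hinj.bijective_of_nat_card_le (le_of_eq (by rw [hΩ, hcard]))
  constructor
  · intro a b
    obtain ⟨c₁, hc₁⟩ := hbij.2 a
    obtain ⟨c₂, hc₂⟩ := hbij.2 b
    have hc₁' : (c₁ : G) • ω₀ = a := hc₁
    have hc₂' : (c₂ : G) • ω₀ = b := hc₂
    refine ⟨(c₂ : G) * (c₁ : G)⁻¹, C.mul_mem c₂.2 (C.inv_mem c₁.2), ?_⟩
    rw [← hc₁', mul_smul, inv_smul_smul, hc₂']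
  · intro c hc a hca
    obtain ⟨c₁, hc₁⟩ := hbij.2 a
    have hc₁' : (c₁ : G) • ω₀ = a := hc₁
    rw [← hc₁', ← mul_smul] at hca
    have h1 : (⟨c * c₁, C.mul_mem hc c₁.2⟩ : ↥C) = c₁ := hinj hca
    have h2 : c * (c₁ : G) = (c₁ : G) := congrArg Subtype.val h1
    calc c = (c * (c₁ : G)) * (c₁ : G)⁻¹ := by group
      _ = (c₁ : G) * (c₁ : G)⁻¹ := by rw [h2]
      _ = 1 := mul_inv_cancel _

/-- Burnside: a transitive, not doubly transitive group of degree `p ^ m` (`m ≥ 2`) containing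
an element of order `p ^ m` is imprimitive; the normal closure of the element of order `p` in
the cycle is intransitive. -/
theorem burnside_aux {G Ω : Type*} [Group G] [MulAction G Ω] [Finite G] [Finite Ω]
    (hfaith : ∀ x : G, (∀ ω : Ω, x • ω = ω) → x = 1)
    (p m : ℕ) (hp : p.Prime) (hm : 2 ≤ m) (hΩ : Nat.card Ω = p ^ m)
    (htr : MulAction.IsPretransitive G Ω) (h2 : ¬ MulAction.IsMultiplyPretransitive G Ω 2)
    (g : G) (hg : orderOf g = p ^ m) :
    ¬ MulAction.IsPreprimitive G Ω ∧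
      ¬ MulAction.IsPretransitive (Subgroup.normalClosure ({g ^ (p ^ (m - 1))} : Set G)) Ω := by
  obtain ⟨hCt, hCs⟩ := regular_of_cyclic hfaith hp (by omega) hΩ g hg
  obtain ⟨C, hCdef⟩ : ∃ C : Subgroup G, C = Subgroup.zpowers g := ⟨_, rfl⟩
  rw [← hCdef] at hCt hCs
  have hcyc : IsCyclic ↥C := by rw [hCdef]; infer_instance
  have hcard : Nat.card ↥C = p ^ m := by rw [hCdef, Nat.card_zpowers, hg]
  have hpos : 0 < Nat.card Ω := by rw [hΩ]; exact pow_pos hp.pos m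
  obtain ⟨α₀⟩ : Nonempty Ω := (Nat.card_pos_iff.mp hpos).1
  have hpd : p ∣ Nat.card ↥C := by rw [hcard]; exact dvd_pow_self p (by omega)
  have hplt : p < Nat.card ↥C := by
    rw [hcard]
    calc p = p ^ 1 := (pow_one p).symm
      _ < p ^ m := Nat.pow_lt_pow_right hp.one_lt (by omega)
  have hF := fac_of_regular C α₀ hCt hCs
  have hnt : Nontrivial Ω := by
    rw [← Finite.one_lt_card_iff_nontrivial, hΩ]
    exact Nat.one_lt_pow (by omega) hp.one_lt
  constructor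
  · intro hprim
    have hA : IsCoatom (MulAction.stabilizer G α₀) :=
      (MulAction.isCoatom_stabilizer_iff_preprimitive G α₀).mpr hprim
    exact h2 (two_trans_of_regular C hCt hCs α₀ p hp hpd hplt (prim_of_coatom C _ hF hA))
  · intro hN
    apply h2
    apply two_trans_of_regular C hCt hCs α₀ p hp hpd hplt
    intro L hL
    by_cases hLb : L = ⊥
    · left; exact hLb
    right
    obtain ⟨γ, hγ⟩ : ∃ γ : ↥C, (γ : G) = g :=
      ⟨⟨g, by rw [hCdef]; exact Subgroup.mem_zpowers g⟩, rfl⟩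
    have hγo : orderOf γ = p ^ m := by rw [← Subgroup.orderOf_coe, hγ]; exact hg
    have hzL : γ ^ (p ^ (m - 1)) ∈ L := mem_of_ne_bot hp hcard γ hγo (by omega) L hLb
    obtain ⟨B, hB⟩ := exists_B C _ hF L hL
    have hAB : MulAction.stabilizer G α₀ ≤ B :=
      fun a ha => (hB a).mpr ⟨1, L.one_mem, a, ha, by simp⟩
    have hzB : g ^ (p ^ (m - 1)) ∈ B := by
      refine (hB _).mpr ⟨γ ^ (p ^ (m - 1)), hzL, 1, Subgroup.one_mem _, ?_⟩
      rw [mul_one, Subgroup.coe_pow, hγ]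
    have hNB : Subgroup.normalClosure ({g ^ (p ^ (m - 1))} : Set G) ≤ B := by
      show Subgroup.closure (Group.conjugatesOfSet ({g ^ (p ^ (m - 1))} : Set G)) ≤ B
      rw [Subgroup.closure_le]
      intro x hx
      rw [Group.mem_conjugatesOfSet_iff] at hx
      obtain ⟨z, hz, hzx⟩ := hx
      rw [Set.mem_singleton_iff] at hz
      subst hz
      obtain ⟨h, rfl⟩ := isConj_iff.mp hzx
      obtain ⟨c', hc', a, ha, e⟩ := hF.fac h⁻¹
      have h3 : h = (c' * a)⁻¹ := by rw [← e, inv_inv]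
      have hc'' : c' ∈ Subgroup.zpowers g := by rw [← hCdef]; exact hc'
      obtain ⟨i, hi⟩ := Subgroup.mem_zpowers_iff.mp hc''
      have hc1 : Commute c' (g ^ (p ^ (m - 1))) := by
        rw [← hi]; exact ((Commute.refl g).zpow_left i).pow_right _
      have hcomm : c'⁻¹ * g ^ (p ^ (m - 1)) * c' = g ^ (p ^ (m - 1)) := by
        rw [mul_assoc, ← hc1.eq, inv_mul_cancel_left]
      have e2 : h * g ^ (p ^ (m - 1)) * h⁻¹
          = a⁻¹ * (c'⁻¹ * g ^ (p ^ (m - 1)) * c') * a := by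
        rw [h3]; group
      show h * g ^ (p ^ (m - 1)) * h⁻¹ ∈ B
      rw [e2, hcomm]
      exact B.mul_mem (B.mul_mem (B.inv_mem (hAB ha)) hzB) (hAB ha)
    rw [eq_top_iff]
    intro c _
    have := hN
    obtain ⟨ν, hν⟩ := MulAction.exists_smul_eq
      ↥(Subgroup.normalClosure ({g ^ (p ^ (m - 1))} : Set G)) α₀ ((c : G) • α₀)
    have hνB : (ν : G) ∈ B := hNB ν.2
    obtain ⟨l, hl, a, ha, e⟩ := (hB _).mp hνB
    have h1 : (l : G) • α₀ = (c : G) • α₀ := by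
      have h2' : (ν : G) • α₀ = (c : G) • α₀ := hν
      rw [e, mul_smul, MulAction.mem_stabilizer_iff.mp ha] at h2'
      exact h2'
    have h3 : ((l : G)⁻¹ * (c : G)) • α₀ = α₀ := by
      rw [mul_smul, ← h1, inv_smul_smul]
    have h4 := hCs _ (C.mul_mem (C.inv_mem l.2) c.2) α₀ h3
    have h5 : c = l := by
      apply Subtype.ext
      have h6 : (c : G) = (l : G) * ((l : G)⁻¹ * (c : G)) := by group
      rw [h6, h4, mul_one]
    rw [h5]; exact hl

end Act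

end

end Cfsg.Agent.Helper2.Schur
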