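import Mathlib
import Cfsg.Prelude.Def_GeometricClasses
import Cfsg.Agent.Helper2.SpDarboux

/-!
# Stabilisers of orthogonal decompositions are maximal in `Sp_2m(F)`
-/

set_option autoImplicit false

namespace Cfsg.Agent.Helper2

namespace SpDecomp

open Matrix

section generic

variable {F V : Type*} [Field F] [AddCommGroup V] [Module F V]

theorem big_of_field (B : LinearMap.BilinForm F V) (hB : B.IsAlt) (W : Submodule F V)
    (hW : ∀ a ∈ W, a ≠ 0 → ∃ w ∈ W, B a w ≠ 0) (μ : F) (hμ0 : μ ≠ 0) (hμ1 : μ ≠ -1)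
    (a : V) (ha : a ∈ W) (ha0 : a ≠ 0) : ∃ b ∈ W, b ≠ 0 ∧ a + b ≠ 0 ∧ 1 + B a b ≠ 0 := by
  obtain ⟨z, hz, haz⟩ := ex_one B W hW a ha ha0
  have hab : B a (μ • z) = μ := by rw [map_smul, haz, smul_eq_mul, mul_one]
  refine ⟨μ • z, W.smul_mem _ hz, ?_, ?_, ?_⟩
  · intro h
    rw [h, map_zero] at hab
    exact hμ0 hab.symm
  · intro h
    have h2 : B a (a + μ • z) = μ := by rw [map_add, hB a, zero_add, hab]
    rw [h, map_zero] at h2
    exact hμ0 h2.symm
  · rw [hab]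
    intro h
    exact hμ1 (eq_neg_of_add_eq_zero_right h)

theorem big_of_dim [FiniteDimensional F V] (B : LinearMap.BilinForm F V) (W : Submodule F V)
    (hW : ∀ a ∈ W, a ≠ 0 → ∃ w ∈ W, B a w ≠ 0) (hdim : 3 ≤ Module.finrank F W)
    (a : V) (ha : a ∈ W) (ha0 : a ≠ 0) : ∃ b ∈ W, b ≠ 0 ∧ a + b ≠ 0 ∧ 1 + B a b ≠ 0 := by
  classical
  obtain ⟨w, hw, haw⟩ := ex_one B W hW a ha ha0
  have hex : ∃ z ∈ W, z ∉ Submodule.span F (({a, w} : Finset V) : Set V) := by
    by_contra hcon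
    have hle : W ≤ Submodule.span F (({a, w} : Finset V) : Set V) := by
      intro z hz
      by_contra h
      exact hcon ⟨z, hz, h⟩
    have h1 := Submodule.finrank_mono hle
    have h2 : Module.finrank F (Submodule.span F (({a, w} : Finset V) : Set V))
        ≤ ({a, w} : Finset V).card := finrank_span_finset_le_card ({a, w} : Finset V)
    have h3 : ({a, w} : Finset V).card ≤ 2 := Finset.card_le_two
    omega
  obtain ⟨z, hz, hzs⟩ := hex
  have haS : a ∈ Submodule.span F (({a, w} : Finset V) : Set V) :=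
    Submodule.subset_span (by simp)
  have hwS : w ∈ Submodule.span F (({a, w} : Finset V) : Set V) :=
    Submodule.subset_span (by simp)
  refine ⟨z - B a z • w, W.sub_mem hz (W.smul_mem _ hw), ?_, ?_, ?_⟩
  · intro h
    apply hzs
    rw [sub_eq_zero.1 h]
    exact Submodule.smul_mem _ _ hwS
  · intro h
    apply hzs
    have e : z = (a + (z - B a z • w)) + (B a z • w - a) := by abel
    rw [e, h, zero_add]
    exact Submodule.sub_mem _ (Submodule.smul_mem _ _ hwS) haS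
  · rw [map_sub, map_smul, haw, smul_eq_mul, mul_one, sub_self, add_zero]
    exact one_ne_zero

theorem exists_sum {t : ℕ} (D : Fin t → Submodule F V) (h : iSup D = ⊤) (v : V) :
    ∃ μ : Fin t → V, (∀ i, μ i ∈ D i) ∧ v = ∑ i, μ i := by
  classical
  have hv : v ∈ ⨆ i, D i := by
    have h' : ⨆ i, D i = ⊤ := h
    rw [h']
    exact Submodule.mem_top
  refine Submodule.iSup_induction D
    (motive := fun v => ∃ μ : Fin t → V, (∀ i, μ i ∈ D i) ∧ v = ∑ i, μ i) hv ?_ ?_ ?_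
  · intro i x hx
    refine ⟨Pi.single i x, fun l => ?_, ?_⟩
    · by_cases hl : l = i
      · rw [hl, Pi.single_eq_same]
        exact hx
      · rw [Pi.single_eq_of_ne hl]
        exact (D l).zero_mem
    · rw [Finset.sum_eq_single i (fun j _ hj => by rw [Pi.single_eq_of_ne hj])
        (fun h => absurd (Finset.mem_univ i) h), Pi.single_eq_same]
  · exact ⟨0, fun i => (D i).zero_mem, by simp⟩
  · rintro x y ⟨μ, hμ, rfl⟩ ⟨ν, hν, rfl⟩
    exact ⟨μ + ν, fun i => (D i).add_mem (hμ i) (hν i), by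
      rw [← Finset.sum_add_distrib]
      rfl⟩

theorem not_mem_of_two {t : ℕ} (D : Fin t → Submodule F V) (hind : iSupIndep D)
    (a b : Fin t) (hab : a ≠ b) (u u' : V) (hu : u ∈ D a) (hu' : u' ∈ D b) (hu0 : u ≠ 0)
    (hu'0 : u' ≠ 0) (l : Fin t) : u + u' ∉ D l := by
  intro hl
  by_cases hla : l = a
  · rw [hla] at hl
    apply hu'0
    have h1 : u' ∈ D a := by
      have := (D a).sub_mem hl hu
      rwa [add_sub_cancel_left] at this
    have h2 : u' ∈ ⨆ j, ⨆ (_ : j ≠ a), D j :=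
      (le_iSup₂_of_le b hab.symm le_rfl : D b ≤ ⨆ j, ⨆ (_ : j ≠ a), D j) hu'
    exact Submodule.disjoint_def.1 (hind a) u' h1 h2
  · apply hu0
    have h1 : u ∈ D l ⊔ D b := by
      have e : u = (u + u') - u' := by abel
      rw [e]
      exact Submodule.sub_mem _ (Submodule.mem_sup_left hl) (Submodule.mem_sup_right hu')
    have h2 : D l ⊔ D b ≤ ⨆ j, ⨆ (_ : j ≠ a), D j :=
      sup_le (le_iSup₂_of_le l hla le_rfl) (le_iSup₂_of_le b hab.symm le_rfl)
    exact Submodule.disjoint_def.1 (hind a) u hu (h2 h1)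

end generic

variable {F : Type*} [Field F]

theorem toLin_inj {ι : Type} [Fintype ι] [DecidableEq ι] (g : Matrix.GeneralLinearGroup ι F) :
    Function.Injective (Matrix.toLin' (g : Matrix ι ι F)) := by
  intro a b hab
  rw [Matrix.toLin'_apply, Matrix.toLin'_apply] at hab
  exact Parab.gl_mulVec_inj g hab

theorem map_eq_of_maps {ι : Type} [Fintype ι] [DecidableEq ι] (g : Matrix.GeneralLinearGroup ι F)
    (W W' : Submodule F (ι → F)) (h : ∀ x ∈ W, (g : Matrix ι ι F) *ᵥ x ∈ W')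
    (hfr : Module.finrank F W = Module.finrank F W') :
    W.map (Matrix.toLin' (g : Matrix ι ι F)) = W' := by
  apply Submodule.eq_of_le_of_finrank_eq
  · rintro _ ⟨x, hx, rfl⟩
    rw [Matrix.toLin'_apply]
    exact h x hx
  · rw [← hfr]
    exact (Submodule.equivMapOfInjective _ (toLin_inj g) W).finrank_eq.symm

/-- An element not permuting the blocks maps some vector of a block outside all blocks. -/
theorem exists_not_mem {ι : Type} [Fintype ι] [DecidableEq ι] {t k : ℕ}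
    (D : Fin t → Submodule F (ι → F)) (hind : iSupIndep D)
    (hfr : ∀ i, Module.finrank F (D i) = k) (hk : 0 < k)
    (g : Matrix.GeneralLinearGroup ι F) (hg : g ∉ Cfsg.Geo.decompositionStabilizer D) :
    ∃ i, ∃ x ∈ D i, ∀ j, (g : Matrix ι ι F) *ᵥ x ∉ D j := by
  by_contra hcon
  apply hg
  have hne : ∀ i, ∃ x ∈ D i, x ≠ 0 := by
    intro i
    have h1 : D i ≠ ⊥ := by
      intro h
      have h2 := hfr i
      rw [h, finrank_bot] at h2
      omega
    exact Submodule.exists_mem_ne_zero_of_ne_bot h1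
  have hg0 : ∀ x, x ≠ 0 → (g : Matrix ι ι F) *ᵥ x ≠ 0 := by
    intro x hx h
    apply hx
    apply Parab.gl_mulVec_inj g
    rw [h, Matrix.mulVec_zero]
  have h1 : ∀ i, ∃ j, ∀ x ∈ D i, (g : Matrix ι ι F) *ᵥ x ∈ D j := by
    intro i
    obtain ⟨x₀, hx₀, hx₀0⟩ := hne i
    have h2 : ∀ x ∈ D i, ∃ j, (g : Matrix ι ι F) *ᵥ x ∈ D j := by
      intro x hx
      by_contra h3
      exact hcon ⟨i, x, hx, fun j hj => h3 ⟨j, hj⟩⟩
    obtain ⟨j₀, hj₀⟩ := h2 x₀ hx₀
    refine ⟨j₀, fun x hx => ?_⟩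
    by_cases hx0 : x = 0
    · rw [hx0, Matrix.mulVec_zero]
      exact (D j₀).zero_mem
    obtain ⟨j, hj⟩ := h2 x hx
    by_cases hjj : j = j₀
    · rw [← hjj]
      exact hj
    · exfalso
      obtain ⟨l, hl⟩ := h2 (x + x₀) ((D i).add_mem hx hx₀)
      rw [Matrix.mulVec_add] at hl
      exact not_mem_of_two D hind j j₀ hjj _ _ hj hj₀ (hg0 x hx0) (hg0 x₀ hx₀0) l hl
  choose σ hσ using h1
  have hmap : ∀ i, (D i).map (Matrix.toLin' (g : Matrix ι ι F)) = D (σ i) :=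
    fun i => map_eq_of_maps g _ _ (hσ i) ((hfr i).trans (hfr (σ i)).symm)
  have hDinj : Function.Injective D := by
    intro i i' h
    by_contra hne'
    obtain ⟨x, hx, hx0⟩ := hne i
    apply hx0
    have h2 : x ∈ D i' := h ▸ hx
    exact Submodule.disjoint_def.1 (hind i) x hx
      ((le_iSup₂_of_le i' (Ne.symm hne') le_rfl : D i' ≤ ⨆ j, ⨆ (_ : j ≠ i), D j) h2)
  have hσinj : Function.Injective σ := by
    intro i i' h
    apply hDinj
    have h3 : (D i).map (Matrix.toLin' (g : Matrix ι ι F))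
        = (D i').map (Matrix.toLin' (g : Matrix ι ι F)) := by
      rw [hmap, hmap, h]
    exact Submodule.map_injective_of_injective (toLin_inj g) h3
  show ∃ σ : Equiv.Perm (Fin t), ∀ i, (D i).map (Matrix.toLin' (g : Matrix ι ι F)) = D (σ i)
  exact ⟨Equiv.ofBijective σ ⟨hσinj, Finite.injective_iff_surjective.1 hσinj⟩, hmap⟩

variable {m : ℕ}

theorem nd_of {t k : ℕ} (D : Fin t → Submodule F (Fin m ⊕ Fin m → F))
    (hD : Cfsg.Geo.IsNondegenerateMDecomposition (Cfsg.sympForm m F) k D) :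
    ∀ i, ∀ a ∈ D i, a ≠ 0 → ∃ w ∈ D i, S0766.sB m F a w ≠ 0 := by
  intro i a ha ha0
  obtain ⟨w, hw, hne⟩ := (hD.nondegenerate i a ha ha0).2
  exact ⟨w, hw, by rw [S0766.sB_apply]; exact hne⟩

theorem orth_of {t k : ℕ} (D : Fin t → Submodule F (Fin m ⊕ Fin m → F))
    (hD : Cfsg.Geo.IsNondegenerateMDecomposition (Cfsg.sympForm m F) k D) :
    ∀ i j, i ≠ j → ∀ a ∈ D i, ∀ b ∈ D j, S0766.sB m F a b = 0 := by
  intro i j hij a ha b hb
  rw [S0766.sB_apply]
  exact hD.orthogonal i j hij a ha b hb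

theorem tv_mem_stab {t : ℕ} (D : Fin t → Submodule F (Fin m ⊕ Fin m → F))
    (horth : ∀ i j, i ≠ j → ∀ a ∈ D i, ∀ b ∈ D j, S0766.sB m F a b = 0)
    (i : Fin t) (y : Fin m ⊕ Fin m → F) (hy : y ∈ D i) (c : F) :
    SpParab.tv m y c ∈ Cfsg.Geo.decompositionStabilizer D := by
  show ∃ σ : Equiv.Perm (Fin t), ∀ l, (D l).map (Matrix.toLin'
    ((SpParab.tv m y c : Matrix.GeneralLinearGroup (Fin m ⊕ Fin m) F) :
      Matrix (Fin m ⊕ Fin m) (Fin m ⊕ Fin m) F)) = D (σ l)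
  refine ⟨1, fun l => ?_⟩
  rw [Equiv.Perm.one_apply]
  apply map_eq_of_maps _ _ _ _ rfl
  intro x hx
  rw [SpParab.tv_mulVec]
  by_cases hl : l = i
  · rw [hl] at hx ⊢
    exact (D i).add_mem hx ((D i).smul_mem _ hy)
  · rw [horth l i hl x hx y hy, mul_zero, zero_smul, add_zero]
    exact hx

/-- The linear maps given by elements of `Sp`. -/
def spMaps (m : ℕ) (F : Type*) [Field F] :
    Set ((Fin m ⊕ Fin m → F) →ₗ[F] (Fin m ⊕ Fin m → F)) :=
  {f | ∃ h ∈ Cfsg.spGL m F, ∀ x, f x = (h : Matrix (Fin m ⊕ Fin m) (Fin m ⊕ Fin m) F) *ᵥ x}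

theorem spMaps_one : LinearMap.id ∈ spMaps m F :=
  ⟨1, Subgroup.one_mem _, fun x => by rw [Units.val_one, Matrix.one_mulVec]; rfl⟩

theorem spMaps_mul : ∀ g₁ ∈ spMaps m F, ∀ g₂ ∈ spMaps m F, g₁ ∘ₗ g₂ ∈ spMaps m F := by
  rintro g₁ ⟨k₁, hk₁, e₁⟩ g₂ ⟨k₂, hk₂, e₂⟩
  exact ⟨k₁ * k₂, Subgroup.mul_mem _ hk₁ hk₂, fun x => by
    rw [LinearMap.comp_apply, e₁, e₂, Units.val_mul, Matrix.mulVec_mulVec]⟩

theorem spMaps_tv : ∀ (d : Fin m ⊕ Fin m → F) (c : F)
    (f : (Fin m ⊕ Fin m → F) →ₗ[F] (Fin m ⊕ Fin m → F)),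
    (∀ v, f v = v + (c * S0766.sB m F d v) • d) → f ∈ spMaps m F := by
  intro d c f hf
  refine ⟨SpParab.tv m d (-c), SpParab.tv_mem d (-c), fun x => ?_⟩
  rw [hf, SpParab.tv_mulVec, SpParab.sB_skew x d, neg_mul_neg]

theorem exists_swap {t k : ℕ} (D : Fin t → Submodule F (Fin m ⊕ Fin m → F))
    (hfr : ∀ i, Module.finrank F (D i) = k)
    (hnd : ∀ i, ∀ a ∈ D i, a ≠ 0 → ∃ w ∈ D i, S0766.sB m F a w ≠ 0)
    (horth : ∀ i j, i ≠ j → ∀ a ∈ D i, ∀ b ∈ D j, S0766.sB m F a b = 0)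
    (b c : Fin t) (hbc : b ≠ c) :
    ∃ h ∈ Cfsg.spGL m F, h ∈ Cfsg.Geo.decompositionStabilizer D ∧
      (∀ x ∈ D b, (h : Matrix (Fin m ⊕ Fin m) (Fin m ⊕ Fin m) F) *ᵥ x ∈ D c) ∧
      ∀ a, a ≠ b → a ≠ c → ∀ x ∈ D a,
        (h : Matrix (Fin m ⊕ Fin m) (Fin m ⊕ Fin m) F) *ᵥ x = x := by
  obtain ⟨g, hgT, hgb, hgc, hgfix⟩ := swap_abs (S0766.sB m F) (S0766.sB_nondeg m F)
    (S0766.sB_alt m F) (spMaps m F) spMaps_one spMaps_mul spMaps_tv D hfr hnd horth b c hbc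
  obtain ⟨h, hsp, hg⟩ : ∃ h ∈ Cfsg.spGL m F, ∀ x,
      g x = (h : Matrix (Fin m ⊕ Fin m) (Fin m ⊕ Fin m) F) *ᵥ x := hgT
  have hb' : ∀ x ∈ D b, (h : Matrix (Fin m ⊕ Fin m) (Fin m ⊕ Fin m) F) *ᵥ x ∈ D c :=
    fun x hx => by rw [← hg]; exact hgb x hx
  have hc' : ∀ x ∈ D c, (h : Matrix (Fin m ⊕ Fin m) (Fin m ⊕ Fin m) F) *ᵥ x ∈ D b :=
    fun x hx => by rw [← hg]; exact hgc x hx
  have hfix' : ∀ a, a ≠ b → a ≠ c → ∀ x ∈ D a,
      (h : Matrix (Fin m ⊕ Fin m) (Fin m ⊕ Fin m) F) *ᵥ x = x :=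
    fun a hab hac x hx => by rw [← hg]; exact hgfix a hab hac x hx
  refine ⟨h, hsp, ?_, hb', hfix'⟩
  show ∃ σ : Equiv.Perm (Fin t), ∀ l, (D l).map (Matrix.toLin'
    (h : Matrix (Fin m ⊕ Fin m) (Fin m ⊕ Fin m) F)) = D (σ l)
  refine ⟨Equiv.swap b c, fun l => ?_⟩
  by_cases hlb : l = b
  · rw [hlb, Equiv.swap_apply_left]
    exact map_eq_of_maps h _ _ hb' ((hfr b).trans (hfr c).symm)
  · by_cases hlc : l = c
    · rw [hlc, Equiv.swap_apply_right]
      exact map_eq_of_maps h _ _ hc' ((hfr c).trans (hfr b).symm)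
    · rw [Equiv.swap_apply_of_ne_of_ne hlb hlc]
      apply map_eq_of_maps h _ _ _ rfl
      intro x hx
      rw [hfix' l hlb hlc x hx]
      exact hx

/-- **Key lemma**: a subgroup of `Sp` containing the stabiliser of a decomposition into
pairwise orthogonal non-degenerate subspaces of equal dimension `k` (not `k = 2 = |F|`) and an
element not stabilising it is all of `Sp`. -/
theorem sp_le_of_decomp [Fintype F] {t : ℕ} (k : ℕ) (D : Fin t → Submodule F (Fin m ⊕ Fin m → F))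
    (hD : Cfsg.Geo.IsNondegenerateMDecomposition (Cfsg.sympForm m F) k D)
    (hex : ¬ (k = 2 ∧ Fintype.card F = 2))
    (K : Subgroup (Matrix.GeneralLinearGroup (Fin m ⊕ Fin m) F))
    (hK : Cfsg.Geo.decompositionStabilizer D ⊓ Cfsg.spGL m F ≤ K) (hK2 : K ≤ Cfsg.spGL m F)
    (hg : ∃ g ∈ K, g ∉ Cfsg.Geo.decompositionStabilizer D) : Cfsg.spGL m F ≤ K := by
  classical
  apply SpParab.sp_le_of_TK
  have hnd := nd_of D hD
  have horth := orth_of D hD
  have hDT : ∀ i, ∀ a ∈ D i, a ∈ SpParab.TK K := by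
    intro i a ha
    rw [SpParab.mem_TK]
    intro c
    exact hK (Subgroup.mem_inf.2 ⟨tv_mem_stab D horth i a ha c, SpParab.tv_mem a c⟩)
  have T2a : ∀ y ∈ SpParab.TK K, ∀ a : F, a • y ∈ SpParab.TK K := by
    intro y hy a
    rw [SpParab.mem_TK]
    intro c
    rw [SpParab.tv_smul]
    exact (SpParab.mem_TK K y).1 hy _
  obtain ⟨g, hgK, hgD⟩ := hg
  obtain ⟨i, x, hx, hxj⟩ := exists_not_mem D hD.decomp.indep hD.decomp.finrank_eq
    hD.decomp.pos g hgD
  have hC : ∃ y ∈ SpParab.TK K, ∀ i, y ∉ D i :=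
    ⟨_, SpParab.TK_smul_mem K g hgK (hK2 hgK) x (hDT i x hx), hxj⟩
  have hbig : ∀ i, ∀ a ∈ D i, a ≠ 0 →
      ∃ b ∈ D i, b ≠ 0 ∧ a + b ≠ 0 ∧ 1 + S0766.sB m F a b ≠ 0 := by
    intro i a ha ha0
    by_cases hμ : ∃ μ : F, μ ≠ 0 ∧ μ ≠ -1
    · obtain ⟨μ, h0, h1⟩ := hμ
      exact big_of_field _ (S0766.sB_alt m F) (D i) (hnd i) μ h0 h1 a ha ha0
    · have hcard : Fintype.card F = 2 := by
        have h1 : Fintype.card F ≤ 2 := by
          have hsub : (Finset.univ : Finset F) ⊆ {0, -1} := by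
            intro μ _
            by_contra h
            apply hμ
            exact ⟨μ, fun h0 => h (by rw [h0]; simp), fun h1 => h (by rw [h1]; simp)⟩
          calc Fintype.card F = (Finset.univ : Finset F).card := Finset.card_univ.symm
            _ ≤ ({0, -1} : Finset F).card := Finset.card_le_card hsub
            _ ≤ 2 := Finset.card_le_two
        have h2 : 1 < Fintype.card F := Fintype.one_lt_card
        omega
      have hk2 : k ≠ 2 := fun h => hex ⟨h, hcard⟩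
      obtain ⟨j, p, q, hH, hp, hq, hsp⟩ :=
        darboux (S0766.sB m F) (S0766.sB_alt m F) (D i) (hnd i)
      have e1 := finrank_span_eq_card (hyp_li _ p q hH)
      rw [hsp, hD.decomp.finrank_eq, Fintype.card_sum, Fintype.card_fin] at e1
      have hk3 : 3 ≤ Module.finrank F (D i) := by
        rw [hD.decomp.finrank_eq]
        have := hD.decomp.pos
        omega
      exact big_of_dim _ (D i) (hnd i) hk3 a ha ha0
  have hswap : ∀ a b c : Fin t, a ≠ b → a ≠ c → b ≠ c →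
      ∃ h : (Fin m ⊕ Fin m → F) → (Fin m ⊕ Fin m → F),
      (∀ y ∈ SpParab.TK K, h y ∈ SpParab.TK K) ∧ (∀ x ∈ D a, h x ∈ D a) ∧
      (∀ x ∈ D b, h x ∈ D c) ∧ (∀ x y, h (x + y) = h x + h y) ∧ (∀ x, h x = 0 → x = 0) := by
    intro a b c hab hac hbc
    obtain ⟨h, hsp, hst, hbc', hfix⟩ := exists_swap D hD.decomp.finrank_eq hnd horth b c hbc
    have hhK : h ∈ K := hK (Subgroup.mem_inf.2 ⟨hst, hsp⟩)
    refine ⟨fun v => (h : Matrix (Fin m ⊕ Fin m) (Fin m ⊕ Fin m) F) *ᵥ v,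
      fun y hy => SpParab.TK_smul_mem K h hhK hsp y hy, ?_, hbc',
      fun x y => Matrix.mulVec_add _ x y, ?_⟩
    · intro x hx
      show (h : Matrix (Fin m ⊕ Fin m) (Fin m ⊕ Fin m) F) *ᵥ x ∈ D a
      rw [hfix a hab hac x hx]
      exact hx
    · intro x hx0
      apply Parab.gl_mulVec_inj h
      rw [Matrix.mulVec_zero]
      exact hx0
  exact core (S0766.sB m F) (S0766.sB_alt m F) D hnd horth
    (exists_sum D hD.decomp.iSup_eq_top) hbig (SpParab.TK K) hDT T2a (SpParab.TK_transv K) hswap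
    ⟨0, by have := hD.decomp.two_le; omega⟩ hC

/-- Some element of `Sp` does not stabilise the decomposition. -/
theorem exists_sp_not_decomp {t : ℕ} (k : ℕ) (D : Fin t → Submodule F (Fin m ⊕ Fin m → F))
    (hD : Cfsg.Geo.IsNondegenerateMDecomposition (Cfsg.sympForm m F) k D) :
    ∃ g ∈ Cfsg.spGL m F, g ∉ Cfsg.Geo.decompositionStabilizer D := by
  have hnd := nd_of D hD
  have horth := orth_of D hD
  have h2 := hD.decomp.two_le
  have hne : ∀ i, ∃ x ∈ D i, x ≠ 0 := by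
    intro i
    have h1 : D i ≠ ⊥ := by
      intro h
      have h2 := hD.decomp.finrank_eq i
      have h3 := hD.decomp.pos
      rw [h, finrank_bot] at h2
      omega
    exact Submodule.exists_mem_ne_zero_of_ne_bot h1
  have hab : (⟨0, by omega⟩ : Fin t) ≠ ⟨1, by omega⟩ := Fin.ne_of_val_ne (by norm_num)
  generalize (⟨0, by omega⟩ : Fin t) = a at hab
  generalize (⟨1, by omega⟩ : Fin t) = b at hab
  obtain ⟨x, hx, hx0⟩ := hne a
  obtain ⟨x', hx', hx'0⟩ := hne b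
  obtain ⟨v, hv, hvx⟩ := ex_one (S0766.sB m F) (D a) (hnd a) x hx hx0
  refine ⟨SpParab.tv m (x + x') 1, SpParab.tv_mem _ _, ?_⟩
  intro hmem
  obtain ⟨σ, hσ⟩ : ∃ σ : Equiv.Perm (Fin t), ∀ l, (D l).map (Matrix.toLin'
    ((SpParab.tv m (x + x') 1 : Matrix.GeneralLinearGroup (Fin m ⊕ Fin m) F) :
      Matrix (Fin m ⊕ Fin m) (Fin m ⊕ Fin m) F)) = D (σ l) := hmem
  have h1 : ((SpParab.tv m (x + x') 1 : Matrix.GeneralLinearGroup (Fin m ⊕ Fin m) F) :
      Matrix (Fin m ⊕ Fin m) (Fin m ⊕ Fin m) F) *ᵥ v ∈ D (σ a) := by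
    rw [← hσ a]
    exact ⟨v, hv, by rw [Matrix.toLin'_apply]⟩
  have h3 : S0766.sB m F v (x + x') = -1 := by
    rw [map_add, horth a b hab v hv x' hx', add_zero, SpParab.sB_skew, hvx]
  rw [SpParab.tv_mulVec, h3, one_mul] at h1
  have e : v + (-1 : F) • (x + x') = (v - x) + (-x') := by
    rw [neg_one_smul]
    abel
  rw [e] at h1
  refine not_mem_of_two D hD.decomp.indep a b hab (v - x) (-x') ((D a).sub_mem hv hx)
    ((D b).neg_mem hx') ?_ (neg_ne_zero.2 hx'0) (σ a) h1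
  intro h
  rw [sub_eq_zero.1 h, (S0766.sB_alt m F) x] at hvx
  exact zero_ne_one hvx

end SpDecomp

end Cfsg.Agent.Helper2
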