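import Mathlib
import Cfsg.Prelude.Def_Sporadic_a

set_option autoImplicit false

namespace Cfsg.Agent.Helper2.Steiner

variable {α : Type*} [Fintype α] [DecidableEq α]

/-- number of `t`-subsets `T` with `I ⊆ T ⊆ c` -/
theorem card_supersets (I c : Finset α) (hIc : I ⊆ c) (t : ℕ) (hit : I.card ≤ t) :
    ((c.powersetCard t).filter (fun T => I ⊆ T)).card
      = (c.card - I.card).choose (t - I.card) := by
  rw [← Finset.card_sdiff_of_subset hIc, ← Finset.card_powersetCard]
  apply Finset.card_nbij' (fun T => T \ I) (fun U => U ∪ I)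
  · intro T hT
    simp only [Finset.coe_filter, Set.mem_setOf_eq, Finset.mem_powersetCard] at hT
    simp only [Finset.mem_coe, Finset.mem_powersetCard]
    refine ⟨Finset.sdiff_subset_sdiff hT.1.1 (Finset.Subset.refl I), ?_⟩
    rw [Finset.card_sdiff_of_subset hT.2, hT.1.2]
  · intro U hU
    simp only [Finset.mem_coe, Finset.mem_powersetCard] at hU
    simp only [Finset.coe_filter, Set.mem_setOf_eq, Finset.mem_powersetCard]
    have hd : Disjoint U I := Finset.disjoint_of_subset_left hU.1 Finset.sdiff_disjoint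
    refine ⟨⟨Finset.union_subset (hU.1.trans Finset.sdiff_subset) hIc, ?_⟩,
      Finset.subset_union_right⟩
    have := Finset.card_union_of_disjoint hd
    omega
  · intro T hT
    simp only [Finset.coe_filter, Set.mem_setOf_eq, Finset.mem_powersetCard] at hT
    exact Finset.sdiff_union_of_subset hT.2
  · intro U hU
    simp only [Finset.mem_coe, Finset.mem_powersetCard] at hU
    exact Finset.union_sdiff_cancel_right
      (Finset.disjoint_of_subset_left hU.1 Finset.sdiff_disjoint)

open Classical in
/-- the blocks as a finset -/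
noncomputable def blocks (B : Set (Finset α)) : Finset (Finset α) :=
  Finset.univ.filter (fun b => b ∈ B)

theorem mem_blocks {B : Set (Finset α)} {b : Finset α} : b ∈ blocks B ↔ b ∈ B := by
  simp [blocks]

theorem ncard_eq (B : Set (Finset α)) : B.ncard = (blocks B).card := by
  rw [← Set.ncard_coe_finset]
  congr 1
  ext b
  simp [mem_blocks]

theorem lambda_count {t k : ℕ} {B : Set (Finset α)} (hB : Cfsg.IsSteinerSystem t k B)
    (I : Finset α) (hI : I.card ≤ t) :
    ((blocks B).filter (fun c => I ⊆ c)).card * (k - I.card).choose (t - I.card)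
      = (Fintype.card α - I.card).choose (t - I.card) := by
  have h1 : ∑ c ∈ (blocks B).filter (fun c => I ⊆ c),
      ((c.powersetCard t).filter (fun T => I ⊆ T)).card
      = ((blocks B).filter (fun c => I ⊆ c)).card * (k - I.card).choose (t - I.card) := by
    apply Finset.sum_const_nat
    intro c hc
    rw [Finset.mem_filter, mem_blocks] at hc
    rw [card_supersets I c hc.2 t hI, hB.1 c hc.1]
  have h2 : ∑ c ∈ (blocks B).filter (fun c => I ⊆ c),
      ((c.powersetCard t).filter (fun T => I ⊆ T)).card
      = (((Finset.univ : Finset α).powersetCard t).filter (fun T => I ⊆ T)).card := by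
    have e1 : ∀ c ∈ (blocks B).filter (fun c => I ⊆ c),
        ((c.powersetCard t).filter (fun T => I ⊆ T)).card
        = ∑ T ∈ ((Finset.univ : Finset α).powersetCard t).filter (fun T => I ⊆ T),
            if T ⊆ c then 1 else 0 := by
      intro c _
      rw [← Finset.card_filter]
      congr 1
      ext T
      simp only [Finset.mem_filter, Finset.mem_powersetCard, Finset.subset_univ, true_and]
      tauto
    rw [Finset.sum_congr rfl e1, Finset.sum_comm, Finset.card_eq_sum_ones]
    apply Finset.sum_congr rfl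
    intro T hT
    rw [Finset.mem_filter, Finset.mem_powersetCard] at hT
    rw [← Finset.card_filter, Finset.card_eq_one]
    obtain ⟨b0, ⟨hb0, hTb0⟩, huniq⟩ := hB.2 T hT.1.2
    refine ⟨b0, ?_⟩
    ext c
    simp only [Finset.mem_filter, mem_blocks, Finset.mem_singleton]
    constructor
    · rintro ⟨⟨hc, _⟩, hTc⟩
      exact huniq c ⟨hc, hTc⟩
    · intro hcb
      rw [hcb]
      exact ⟨⟨hb0, hT.2.trans hTb0⟩, hTb0⟩
  rw [← h1, h2, card_supersets I Finset.univ (Finset.subset_univ _) t hI, Finset.card_univ]

theorem inter_sum (B : Set (Finset α)) (b : Finset α) (i : ℕ) :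
    ∑ c ∈ blocks B, ((b ∩ c).card).choose i
      = ∑ I ∈ b.powersetCard i, ((blocks B).filter (fun c => I ⊆ c)).card := by
  have e1 : ∀ c ∈ blocks B, ((b ∩ c).card).choose i
      = ∑ I ∈ b.powersetCard i, if I ⊆ c then 1 else 0 := by
    intro c _
    rw [← Finset.card_filter, ← Finset.card_powersetCard]
    congr 1
    ext I
    simp only [Finset.mem_filter, Finset.mem_powersetCard, Finset.subset_inter_iff]
    tauto
  have e2 : ∀ I ∈ b.powersetCard i, ((blocks B).filter (fun c => I ⊆ c)).card
      = ∑ c ∈ blocks B, if I ⊆ c then 1 else 0 := by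
    intro I _
    rw [Finset.card_filter]
  rw [Finset.sum_congr rfl e1, Finset.sum_congr rfl e2]
  exact Finset.sum_comm

theorem inter_sum_erase {t k : ℕ} {B : Set (Finset α)} (hB : Cfsg.IsSteinerSystem t k B)
    {b : Finset α} (hb : b ∈ B) (i : ℕ) (hi : i ≤ t) :
    (∑ c ∈ (blocks B).erase b, ((b ∩ c).card).choose i + k.choose i) * (k - i).choose (t - i)
      = k.choose i * (Fintype.card α - i).choose (t - i) := by
  have h0 : ∑ c ∈ (blocks B).erase b, ((b ∩ c).card).choose i + k.choose i
      = ∑ c ∈ blocks B, ((b ∩ c).card).choose i := by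
    have := Finset.add_sum_erase (blocks B) (fun c => ((b ∩ c).card).choose i) (mem_blocks.2 hb)
    simp only [Finset.inter_self, hB.1 b hb] at this
    omega
  rw [h0, inter_sum, Finset.sum_mul]
  have h1 : ∀ I ∈ b.powersetCard i,
      ((blocks B).filter (fun c => I ⊆ c)).card * (k - i).choose (t - i)
      = (Fintype.card α - i).choose (t - i) := by
    intro I hI
    rw [Finset.mem_powersetCard] at hI
    have := lambda_count hB I (by rw [hI.2]; exact hi)
    rw [hI.2] at this
    exact this
  rw [Finset.sum_congr rfl h1, Finset.sum_const, Finset.card_powersetCard, hB.1 b hb,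
    smul_eq_mul]

/-- numeric value of the intersection sums -/
theorem inter_sum_erase_val {t k : ℕ} {B : Set (Finset α)} (hB : Cfsg.IsSteinerSystem t k B)
    {b : Finset α} (hb : b ∈ B) (i : ℕ) (hi : i ≤ t) (N : ℕ)
    (hN : (N + k.choose i) * (k - i).choose (t - i)
      = k.choose i * (Fintype.card α - i).choose (t - i))
    (hpos : 0 < (k - i).choose (t - i)) :
    ∑ c ∈ (blocks B).erase b, ((b ∩ c).card).choose i = N := by
  have h := inter_sum_erase hB hb i hi
  rw [← hN] at h
  have := Nat.eq_of_mul_eq_mul_right hpos h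
  omega

theorem inter_lt {t k : ℕ} {B : Set (Finset α)} (hB : Cfsg.IsSteinerSystem t k B)
    {b c : Finset α} (hb : b ∈ B) (hc : c ∈ B) (hbc : b ≠ c) : (b ∩ c).card < t := by
  by_contra hlt
  push Not at hlt
  obtain ⟨s, hs, hst⟩ := Finset.exists_subset_card_eq hlt
  obtain ⟨b0, _, huniq⟩ := hB.2 s hst
  have h1 := huniq b ⟨hb, hs.trans Finset.inter_subset_left⟩
  have h2 := huniq c ⟨hc, hs.trans Finset.inter_subset_right⟩
  exact hbc (h1.trans h2.symm)

/-- alternating count of the blocks disjoint from `b` (valid for `t ≤ 5`) -/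
theorem disjoint_count {t k : ℕ} {B : Set (Finset α)} (hB : Cfsg.IsSteinerSystem t k B)
    {b : Finset α} (hb : b ∈ B) (ht : t ≤ 5) :
    (((blocks B).erase b).filter (fun c => (b ∩ c).card = 0)).card
      + ∑ c ∈ (blocks B).erase b, ((b ∩ c).card).choose 1
      + ∑ c ∈ (blocks B).erase b, ((b ∩ c).card).choose 3
    = ∑ c ∈ (blocks B).erase b, ((b ∩ c).card).choose 0
      + ∑ c ∈ (blocks B).erase b, ((b ∩ c).card).choose 2
      + ∑ c ∈ (blocks B).erase b, ((b ∩ c).card).choose 4 := by
  have hterm : ∀ c ∈ (blocks B).erase b,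
      (if (b ∩ c).card = 0 then 1 else 0) + ((b ∩ c).card).choose 1 + ((b ∩ c).card).choose 3
        = ((b ∩ c).card).choose 0 + ((b ∩ c).card).choose 2 + ((b ∩ c).card).choose 4 := by
    intro c hc
    rw [Finset.mem_erase, mem_blocks] at hc
    have hlt := inter_lt hB hb hc.2 (Ne.symm hc.1)
    have hlt5 : (b ∩ c).card < 5 := by omega
    generalize (b ∩ c).card = j at hlt5 ⊢
    interval_cases j <;> decide
  have hsum := Finset.sum_congr (rfl : (blocks B).erase b = (blocks B).erase b) hterm
  simp only [Finset.sum_add_distrib] at hsum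
  rw [← Finset.card_filter] at hsum
  exact hsum

/-- the set of blocks disjoint from `b` -/
theorem disjoint_ncard {t k : ℕ} {B : Set (Finset α)} (hB : Cfsg.IsSteinerSystem t k B)
    {b : Finset α} (hb : b ∈ B) (hk : 0 < k) :
    {c : Finset α | c ∈ B ∧ Disjoint b c}.ncard
      = (((blocks B).erase b).filter (fun c => (b ∩ c).card = 0)).card := by
  rw [← Set.ncard_coe_finset]
  congr 1
  ext c
  simp only [Set.mem_setOf_eq, Finset.coe_filter, Finset.mem_erase, mem_blocks]
  constructor
  · rintro ⟨hc, hd⟩
    refine ⟨⟨?_, hc⟩, Finset.card_eq_zero.2 (Finset.disjoint_iff_inter_eq_empty.1 hd)⟩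
    intro hcb
    rw [hcb] at hd
    have he : b = ∅ := by simpa using hd
    have h8 := hB.1 b hb
    rw [he] at h8
    simp at h8
    omega
  · rintro ⟨⟨_, hc⟩, h0⟩
    exact ⟨hc, Finset.disjoint_iff_inter_eq_empty.2 (Finset.card_eq_zero.1 h0)⟩

end Cfsg.Agent.Helper2.Steiner
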