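import Mathlib

/-!
# Derived length of the Sylow `p`-subgroups of the symmetric group.
-/

set_option autoImplicit false
open scoped Pointwise

namespace Cfsg.Agent.Helper2.SylDer

universe u

theorem comm_le_coatom {G : Type*} [Group G] [Finite G] {p : ℕ} [Fact p.Prime]
    (hG : IsPGroup p G) (M : Subgroup G) (hM : IsCoatom M) : M.Normal ∧ commutator G ≤ M := by
  have hnil : Group.IsNilpotent G := hG.isNilpotent
  have h02 : ∀ H : Subgroup G, IsCoatom H → H.Normal :=
    ((Group.isNilpotent_of_finite_tfae (G := G)).out 0 2).mp hnil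
  have hMn : M.Normal := h02 M hM
  refine ⟨hMn, ?_⟩
  obtain ⟨g₀, -, hg₀⟩ := SetLike.exists_of_lt hM.lt_top
  have hne : (QuotientGroup.mk' M g₀) ≠ 1 := by
    intro h
    exact hg₀ ((QuotientGroup.eq_one_iff g₀).mp h)
  have hnt : Nontrivial (G ⧸ M) := nontrivial_of_ne _ _ hne
  have hQ : IsPGroup p (G ⧸ M) := hG.to_quotient M
  have hZ : Nontrivial (Subgroup.center (G ⧸ M)) := hQ.center_nontrivial
  obtain ⟨z, hz⟩ := exists_ne (1 : Subgroup.center (G ⧸ M))
  obtain ⟨g₁, hg₁⟩ := QuotientGroup.mk'_surjective M (z : G ⧸ M)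
  have hMK : M ≤ (Subgroup.center (G ⧸ M)).comap (QuotientGroup.mk' M) := by
    intro m hm
    rw [Subgroup.mem_comap]
    have h1 : (QuotientGroup.mk' M) m = 1 := (QuotientGroup.eq_one_iff m).mpr hm
    rw [h1]; exact Subgroup.one_mem _
  have hg₁K : g₁ ∈ (Subgroup.center (G ⧸ M)).comap (QuotientGroup.mk' M) := by
    rw [Subgroup.mem_comap, hg₁]; exact z.2
  have hg₁M : g₁ ∉ M := by
    intro h
    apply hz
    apply Subtype.ext
    rw [← hg₁]
    exact (QuotientGroup.eq_one_iff g₁).mpr h
  have hlt : M < (Subgroup.center (G ⧸ M)).comap (QuotientGroup.mk' M) :=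
    lt_of_le_of_ne hMK (fun h => hg₁M (h ▸ hg₁K))
  have htop := hM.2 _ hlt
  rw [commutator_def, Subgroup.commutator_le]
  intro x _ y _
  rw [commutatorElement_def]
  have hx : (QuotientGroup.mk' M) x ∈ Subgroup.center (G ⧸ M) := by
    have h1 : x ∈ (Subgroup.center (G ⧸ M)).comap (QuotientGroup.mk' M) := by
      rw [htop]; exact Subgroup.mem_top x
    exact Subgroup.mem_comap.mp h1
  have hc := Subgroup.mem_center_iff.mp hx ((QuotientGroup.mk' M) y)
  apply (QuotientGroup.eq_one_iff _).mp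
  show (QuotientGroup.mk' M) (x * y * x⁻¹ * y⁻¹) = 1
  rw [map_mul, map_mul, map_mul, map_inv, map_inv, ← hc]
  group

theorem derived_trivial (p : ℕ) [Fact p.Prime] : ∀ d : ℕ, ∀ (G : Type u) [Group G] [Finite G]
    (Ω : Type u) [MulAction G Ω] [FaithfulSMul G Ω], IsPGroup p G →
    (∀ ω : Ω, Nat.card (MulAction.orbit G ω) ≤ p ^ d) → derivedSeries G d = ⊥ := by
  intro d
  induction d with
  | zero =>
    intro G _ _ Ω _ _ hG horb
    rw [Subgroup.eq_bot_iff_forall]
    intro g _
    apply FaithfulSMul.eq_of_smul_eq_smul (α := Ω)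
    intro ω
    rw [one_smul]
    have h1 := horb ω
    rw [pow_zero] at h1
    have hfin : Finite (MulAction.orbit G ω) := (Set.finite_range (fun g : G => g • ω)).to_subtype
    have hsub : Subsingleton (MulAction.orbit G ω) := Finite.card_le_one_iff_subsingleton.mp h1
    have h2 := Subsingleton.elim (⟨g • ω, MulAction.mem_orbit ω g⟩ : MulAction.orbit G ω)
      ⟨ω, MulAction.mem_orbit_self ω⟩
    exact congrArg Subtype.val h2
  | succ d ih =>
    intro G _ _ Ω _ _ hG horb
    rw [Subgroup.eq_bot_iff_forall]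
    intro g hg
    apply FaithfulSMul.eq_of_smul_eq_smul (α := Ω)
    intro ω
    rw [one_smul]
    rcases eq_top_or_exists_le_coatom (MulAction.stabilizer G ω) with htop | ⟨M, hM, hHM⟩
    · have h1 : g ∈ MulAction.stabilizer G ω := by rw [htop]; exact Subgroup.mem_top g
      exact MulAction.mem_stabilizer_iff.mp h1
    · obtain ⟨hMn, hcomm⟩ := comm_le_coatom hG M hM
      have hle : ∀ i, derivedSeries G (i + 1) ≤ (derivedSeries M i).map M.subtype := by
        intro i
        induction i with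
        | zero =>
          intro x hx
          rw [derivedSeries_succ, derivedSeries_zero, ← commutator_def] at hx
          exact ⟨⟨x, hcomm hx⟩, by rw [derivedSeries_zero]; exact Subgroup.mem_top _, rfl⟩
        | succ i ihi =>
          have e1 : derivedSeries G (i + 1 + 1)
              = ⁅derivedSeries G (i + 1), derivedSeries G (i + 1)⁆ := derivedSeries_succ G (i + 1)
          have e2 : derivedSeries M (i + 1) = ⁅derivedSeries M i, derivedSeries M i⁆ :=
            derivedSeries_succ (↥M) i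
          rw [e1, e2, Subgroup.map_commutator]
          exact Subgroup.commutator_mono ihi ihi
      obtain ⟨g', hg', rfl⟩ := hle d hg
      show (g' : G) • ω = ω
      have hfinO : Finite (MulAction.orbit M ω) :=
        (Set.finite_range (fun m : M => m • ω)).to_subtype
      have hcardO : Nat.card (MulAction.orbit M ω) ≤ p ^ d := by
        have h1 : Nat.card (MulAction.orbit G ω) = (MulAction.stabilizer G ω).index := by
          rw [MulAction.index_stabilizer, Nat.card_coe_set_eq]
        have h2 : Nat.card (MulAction.orbit M ω) = (MulAction.stabilizer M ω).index := by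
          rw [MulAction.index_stabilizer, Nat.card_coe_set_eq]
        have h3 : MulAction.stabilizer M ω = (MulAction.stabilizer G ω).subgroupOf M := by
          ext m
          exact Iff.rfl
        have h4 : (MulAction.stabilizer G ω).relIndex M * M.index
            = (MulAction.stabilizer G ω).index := Subgroup.relIndex_mul_index hHM
        have h5 : p ≤ M.index := by
          have hd : M.index ∣ Nat.card G := Subgroup.index_dvd_card M
          obtain ⟨a, ha⟩ := IsPGroup.iff_card.mp hG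
          rw [ha] at hd
          obtain ⟨j, -, hj⟩ := (Nat.dvd_prime_pow Fact.out).mp hd
          have hj0 : j ≠ 0 := by
            intro h0
            rw [h0, pow_zero] at hj
            exact hM.1 (Subgroup.index_eq_one.mp hj)
          rw [hj]
          exact Nat.le_self_pow hj0 p
        have h6 := horb ω
        rw [h1, ← h4] at h6
        rw [h2, h3]
        show (MulAction.stabilizer G ω).relIndex M ≤ p ^ d
        have h8 : (MulAction.stabilizer G ω).relIndex M * p ≤ p ^ d * p := by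
          calc (MulAction.stabilizer G ω).relIndex M * p
              ≤ (MulAction.stabilizer G ω).relIndex M * M.index := Nat.mul_le_mul_left _ h5
            _ ≤ p ^ (d + 1) := h6
            _ = p ^ d * p := pow_succ p d
        exact Nat.le_of_mul_le_mul_right h8 (Nat.Prime.pos Fact.out)
      obtain ⟨φ, hφ⟩ : ∃ φ : M →* Equiv.Perm (MulAction.orbit M ω),
          φ = MulAction.toPermHom M (MulAction.orbit M ω) := ⟨_, rfl⟩
      have hQp : IsPGroup p φ.range :=
        (hG.to_subgroup M).of_surjective φ.rangeRestrict φ.rangeRestrict_surjective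
      have horbQ : ∀ x : MulAction.orbit M ω, Nat.card (MulAction.orbit φ.range x) ≤ p ^ d := by
        intro x
        exact le_trans (Finite.card_subtype_le _) hcardO
      have hQ := ih φ.range (MulAction.orbit M ω) hQp horbQ
      have h9 : φ.rangeRestrict g' ∈ derivedSeries φ.range d :=
        map_derivedSeries_le_derivedSeries φ.rangeRestrict d (Subgroup.mem_map_of_mem _ hg')
      rw [hQ, Subgroup.mem_bot] at h9
      have h10 : φ g' = 1 := congrArg Subtype.val h9
      have h11 : (φ g') ⟨ω, MulAction.mem_orbit_self ω⟩ = ⟨ω, MulAction.mem_orbit_self ω⟩ := by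
        rw [h10]; rfl
      rw [hφ] at h11
      have h12 : g' • (⟨ω, MulAction.mem_orbit_self ω⟩ : MulAction.orbit M ω)
          = ⟨ω, MulAction.mem_orbit_self ω⟩ := h11
      exact congrArg Subtype.val h12

section wreath

variable {D Q : Type*} [Group D] [Group Q]

theorem ev_mul (w w' : RegularWreathProduct D Q) (hw : w.right = 1) :
    (w * w').left 1 = w.left 1 * w'.left 1 := by
  show w.left 1 * w'.left (w.right⁻¹ * 1) = w.left 1 * w'.left 1
  rw [hw, inv_one, one_mul]

theorem ev_inv (w : RegularWreathProduct D Q) (hw : w.right = 1) :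
    w⁻¹.left 1 = (w.left 1)⁻¹ := by
  show (w.left (w.right * 1))⁻¹ = (w.left 1)⁻¹
  rw [hw, one_mul]

theorem conj_left (b : RegularWreathProduct D Q) (q z : Q) :
    ((⟨1, q⟩ : RegularWreathProduct D Q) * b * (⟨1, q⟩ : RegularWreathProduct D Q)⁻¹).left z
      = b.left (q⁻¹ * z) := by
  show (1 : D) * b.left (q⁻¹ * z) * ((1 : D))⁻¹ = b.left (q⁻¹ * z)
  rw [one_mul, inv_one, mul_one]

theorem wreath_derived (q₀ : Q) (hq₀ : q₀ ≠ 1) (j : ℕ) :
    ∀ d ∈ derivedSeries D j, ∃ w ∈ derivedSeries (RegularWreathProduct D Q) (j + 1),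
      w.right = 1 ∧ w.left 1 = d := by
  classical
  induction j with
  | zero =>
    intro d _
    obtain ⟨a, ha⟩ : ∃ a : RegularWreathProduct D Q, a = ⟨Pi.mulSingle 1 d, 1⟩ := ⟨_, rfl⟩
    obtain ⟨t, ht⟩ : ∃ t : RegularWreathProduct D Q, t = ⟨1, q₀⟩ := ⟨_, rfl⟩
    have har : a.right = 1 := by rw [ha]
    have htr : t.right = q₀ := by rw [ht]
    refine ⟨a * t * a⁻¹ * t⁻¹, ?_, ?_, ?_⟩
    · rw [derivedSeries_succ, derivedSeries_zero]
      have h := Subgroup.commutator_mem_commutator (Subgroup.mem_top a) (Subgroup.mem_top t)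
      rw [commutatorElement_def] at h
      exact h
    · show a.right * t.right * a.right⁻¹ * t.right⁻¹ = 1
      rw [har]; group
    · have e : a * t * a⁻¹ * t⁻¹ = a * (t * a⁻¹ * t⁻¹) := by group
      rw [e, ev_mul _ _ har]
      have h1 : (t * a⁻¹ * t⁻¹).left 1 = a⁻¹.left (q₀⁻¹ * 1) := by
        rw [ht]; exact conj_left a⁻¹ q₀ 1
      rw [h1]
      have h2 : a⁻¹.left (q₀⁻¹ * 1) = (a.left (a.right * (q₀⁻¹ * 1)))⁻¹ := rfl
      rw [h2, har, one_mul, mul_one]
      have h3 : a.left 1 = d := by rw [ha]; exact Pi.mulSingle_eq_same (M := fun _ : Q => D) 1 d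
      have h4 : a.left q₀⁻¹ = 1 := by
        rw [ha]
        exact Pi.mulSingle_eq_of_ne (M := fun _ : Q => D) (fun h => hq₀ (inv_eq_one.mp h)) d
      rw [h3, h4, inv_one, mul_one]
  | succ j ih =>
    intro d hd
    obtain ⟨E, hE⟩ : ∃ E : Subgroup D, ∀ d, d ∈ E ↔
        ∃ w ∈ derivedSeries (RegularWreathProduct D Q) (j + 1 + 1), w.right = 1 ∧ w.left 1 = d := by
      refine ⟨{ carrier := {d | ∃ w ∈ derivedSeries (RegularWreathProduct D Q) (j + 1 + 1),
                  w.right = 1 ∧ w.left 1 = d}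
                mul_mem' := ?_
                one_mem' := ⟨1, Subgroup.one_mem _, rfl, rfl⟩
                inv_mem' := ?_ }, fun d => Iff.rfl⟩
      · rintro _ _ ⟨w, hw, hwr, rfl⟩ ⟨w', hw', hwr', rfl⟩
        refine ⟨w * w', Subgroup.mul_mem _ hw hw', ?_, ev_mul w w' hwr⟩
        show w.right * w'.right = 1
        rw [hwr, hwr', one_mul]
      · rintro _ ⟨w, hw, hwr, rfl⟩
        refine ⟨w⁻¹, Subgroup.inv_mem _ hw, ?_, ev_inv w hwr⟩
        show w.right⁻¹ = 1
        rw [hwr, inv_one]
    have hle : derivedSeries D (j + 1) ≤ E := by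
      rw [derivedSeries_succ, Subgroup.commutator_le]
      intro d₁ hd₁ d₂ hd₂
      obtain ⟨w₁, hw₁, hr₁, hl₁⟩ := ih d₁ hd₁
      obtain ⟨w₂, hw₂, hr₂, hl₂⟩ := ih d₂ hd₂
      rw [hE]
      refine ⟨w₁ * w₂ * w₁⁻¹ * w₂⁻¹, ?_, ?_, ?_⟩
      · have e1 : derivedSeries (RegularWreathProduct D Q) (j + 1 + 1)
            = ⁅derivedSeries (RegularWreathProduct D Q) (j + 1),
                derivedSeries (RegularWreathProduct D Q) (j + 1)⁆ :=
          derivedSeries_succ (RegularWreathProduct D Q) (j + 1)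
        rw [e1]
        have h := Subgroup.commutator_mem_commutator hw₁ hw₂
        rw [commutatorElement_def] at h
        exact h
      · show w₁.right * w₂.right * w₁.right⁻¹ * w₂.right⁻¹ = 1
        rw [hr₁, hr₂]; group
      · have hr12 : (w₁ * w₂).right = 1 := by
          show w₁.right * w₂.right = 1
          rw [hr₁, hr₂, one_mul]
        have hr121 : (w₁ * w₂ * w₁⁻¹).right = 1 := by
          show w₁.right * w₂.right * w₁.right⁻¹ = 1
          rw [hr₁, hr₂]; group
        rw [ev_mul _ _ hr121, ev_mul _ _ hr12, ev_mul _ _ hr₁, ev_inv _ hr₁, ev_inv _ hr₂,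
          hl₁, hl₂, commutatorElement_def]
    exact (hE d).mp (hle hd)

theorem wreath_ne_bot (q₀ : Q) (hq₀ : q₀ ≠ 1) (j : ℕ) (h : derivedSeries D j ≠ ⊥) :
    derivedSeries (RegularWreathProduct D Q) (j + 1) ≠ ⊥ := by
  intro hbot
  apply h
  rw [Subgroup.eq_bot_iff_forall]
  intro d hd
  obtain ⟨w, hw, -, hl⟩ := wreath_derived (Q := Q) q₀ hq₀ j d hd
  rw [hbot, Subgroup.mem_bot] at hw
  rw [← hl, hw]
  rfl

end wreath

theorem exists_wreath (p : ℕ) [Fact p.Prime] : ∀ k : ℕ, ∃ (W : Type) (_ : Group W) (Λ : Type)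
    (_ : MulAction W Λ), Finite W ∧ Finite Λ ∧ FaithfulSMul W Λ ∧ IsPGroup p W ∧
      Nat.card Λ = p ^ (k + 1) ∧ derivedSeries W k ≠ ⊥ := by
  have h1 : Nat.card (Multiplicative (ZMod p)) = p := by simp
  intro k
  induction k with
  | zero =>
    refine ⟨Multiplicative (ZMod p), inferInstance, Multiplicative (ZMod p), inferInstance,
      inferInstance, inferInstance, inferInstance, ?_, ?_, ?_⟩
    · exact IsPGroup.of_card (n := 1) (by rw [h1, pow_one])
    · rw [h1, zero_add, pow_one]
    · rw [derivedSeries_zero]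
      intro h
      have h2 := Subgroup.card_top (G := Multiplicative (ZMod p))
      rw [h, Subgroup.card_bot, h1] at h2
      have h3 := (Fact.out : p.Prime).one_lt
      omega
  | succ k ih =>
    obtain ⟨W, hW, Λ, hΛ, hWf, hΛf, hfaith, hp, hcard, hder⟩ := ih
    have hΛne : Nonempty Λ := by
      have h2 : 0 < Nat.card Λ := by rw [hcard]; exact pow_pos (Fact.out : p.Prime).pos _
      exact (Nat.card_pos_iff.mp h2).1
    obtain ⟨q₀, hq₀⟩ := exists_ne (1 : Multiplicative (ZMod p))
    refine ⟨RegularWreathProduct W (Multiplicative (ZMod p)), inferInstance,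
      Λ × Multiplicative (ZMod p), inferInstance, inferInstance, inferInstance, inferInstance,
      ?_, ?_, wreath_ne_bot q₀ hq₀ k hder⟩
    · obtain ⟨a, ha⟩ := IsPGroup.iff_card.mp hp
      apply IsPGroup.of_card (n := a * p + 1)
      rw [RegularWreathProduct.card, ha, h1, ← pow_mul, pow_succ]
    · rw [Nat.card_prod, hcard, h1]
      exact (pow_succ p (k + 1)).symm

theorem mem_smul {G : Type*} [Group G] {p : ℕ} (g : G) (P : Sylow p G) (x : G) :
    x ∈ ((g • P : Sylow p G) : Subgroup G) ↔ g⁻¹ * x * g ∈ (P : Subgroup G) := by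
  rw [Sylow.coe_subgroup_smul, Subgroup.mem_pointwise_smul_iff_inv_smul_mem]
  simp [MulAut.smul_def]

theorem main (p : ℕ) [Fact p.Prime] (n : ℕ) (hn : 1 ≤ n) (P : Sylow p (Equiv.Perm (Fin n))) :
    derivedSeries ↥(P : Subgroup (Equiv.Perm (Fin n))) (Nat.log p n) = ⊥ ∧
    (1 ≤ Nat.log p n →
      derivedSeries ↥(P : Subgroup (Equiv.Perm (Fin n))) (Nat.log p n - 1) ≠ ⊥) := by
  classical
  have hp := (Fact.out : p.Prime)
  constructor
  · apply derived_trivial p (Nat.log p n) ↥(P : Subgroup (Equiv.Perm (Fin n))) (Fin n)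
      P.isPGroup'
    intro ω
    obtain ⟨j, hj⟩ := P.isPGroup'.card_orbit ω
    rw [hj]
    apply Nat.pow_le_pow_right hp.pos
    apply Nat.le_log_of_pow_le hp.one_lt
    rw [← hj]
    calc Nat.card (MulAction.orbit ↥(P : Subgroup (Equiv.Perm (Fin n))) ω)
        ≤ Nat.card (Fin n) := Finite.card_subtype_le _
      _ = n := Nat.card_fin n
  · intro hk
    obtain ⟨W, hW, Λ, hΛ, hWf, hΛf, hfaith, hWp, hcard, hder⟩ :=
      exists_wreath p (Nat.log p n - 1)
    rw [Nat.sub_add_cancel hk] at hcard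
    have hle : Nat.card Λ ≤ n := by rw [hcard]; exact Nat.pow_log_le_self p (by omega)
    obtain ⟨ι⟩ : Nonempty (Λ ↪ Fin n) :=
      ⟨(Finite.equivFin Λ).toEmbedding.trans (Fin.castLEEmb hle)⟩
    obtain ⟨e⟩ : Nonempty (Λ ≃ {x : Fin n // x ∈ Set.range ι}) :=
      ⟨Equiv.ofInjective ι ι.injective⟩
    obtain ⟨φ, hφ⟩ : ∃ φ : W →* Equiv.Perm (Fin n),
        φ = (Equiv.Perm.extendDomainHom e).comp (MulAction.toPermHom W Λ) := ⟨_, rfl⟩
    have hφinj : Function.Injective φ := by
      rw [hφ]
      exact (Equiv.Perm.extendDomainHom_injective e).comp MulAction.toPerm_injective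
    have hRp : IsPGroup p φ.range :=
      hWp.of_surjective φ.rangeRestrict φ.rangeRestrict_surjective
    obtain ⟨P', hP'⟩ := hRp.exists_le_sylow
    obtain ⟨c, hc⟩ := MulAction.exists_smul_eq (Equiv.Perm (Fin n)) P P'
    have hmem : ∀ w : W, (MulAut.conj c⁻¹).toMonoidHom.comp φ w
        ∈ (P : Subgroup (Equiv.Perm (Fin n))) := by
      intro w
      have h1 : φ w ∈ ((c • P : Sylow p (Equiv.Perm (Fin n))) : Subgroup (Equiv.Perm (Fin n))) := by
        rw [hc]; exact hP' (MonoidHom.mem_range.mpr ⟨w, rfl⟩)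
      have h2 := (mem_smul c P (φ w)).mp h1
      show c⁻¹ * φ w * c⁻¹⁻¹ ∈ (P : Subgroup (Equiv.Perm (Fin n)))
      rw [inv_inv]; exact h2
    obtain ⟨ψ, hψ⟩ : ∃ ψ : W →* ↥(P : Subgroup (Equiv.Perm (Fin n))),
        ∀ w, (ψ w : Equiv.Perm (Fin n)) = c⁻¹ * φ w * c⁻¹⁻¹ :=
      ⟨((MulAut.conj c⁻¹).toMonoidHom.comp φ).codRestrict _ hmem, fun w => rfl⟩
    have hψinj : Function.Injective ψ := by
      intro w w' h
      have h1 : c⁻¹ * φ w * c⁻¹⁻¹ = c⁻¹ * φ w' * c⁻¹⁻¹ := by rw [← hψ, ← hψ, h]
      have h2 : φ w = φ w' := by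
        have h3 := mul_right_cancel h1
        exact mul_left_cancel h3
      exact hφinj h2
    intro hbot
    apply hder
    have h1 := map_derivedSeries_le_derivedSeries ψ (Nat.log p n - 1)
    rw [hbot] at h1
    exact (Subgroup.map_eq_bot_iff_of_injective _ hψinj).mp (le_bot_iff.mp h1)

end Cfsg.Agent.Helper2.SylDer
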