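import Mathlib
import Cfsg.Prelude.Def_Classical

set_option autoImplicit false

namespace Cfsg.Agent.Helper2.TwoFam

open Module

variable {F : Type*} [Field F] {m : ℕ}

/-- the matrix of the polar form of `quadFormPlus` -/
noncomputable def J (F : Type*) [Field F] (m : ℕ) : Matrix (Fin m ⊕ Fin m) (Fin m ⊕ Fin m) F :=
  Matrix.fromBlocks (0 : Matrix (Fin m) (Fin m) F) (1 : Matrix (Fin m) (Fin m) F)
    (1 : Matrix (Fin m) (Fin m) F) (0 : Matrix (Fin m) (Fin m) F)

/-- the polar form of `quadFormPlus` -/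
noncomputable def Bf (F : Type*) [Field F] (m : ℕ) : LinearMap.BilinForm F (Fin m ⊕ Fin m → F) :=
  Matrix.toBilin' (J F m)

theorem Bf_apply (v w : Fin m ⊕ Fin m → F) :
    Bf F m v w = ∑ i, v (Sum.inl i) * w (Sum.inr i) + ∑ i, v (Sum.inr i) * w (Sum.inl i) := by
  simp [Bf, J, Matrix.toBilin'_apply', dotProduct, Fintype.sum_sum_type, Matrix.fromBlocks_mulVec]

theorem Q_add (v w : Fin m ⊕ Fin m → F) :
    Cfsg.quadFormPlus m F (v + w)
      = Cfsg.quadFormPlus m F v + Cfsg.quadFormPlus m F w + Bf F m v w := by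
  rw [Bf_apply]
  unfold Cfsg.quadFormPlus
  rw [← Finset.sum_add_distrib, ← Finset.sum_add_distrib, ← Finset.sum_add_distrib]
  refine Finset.sum_congr rfl (fun i _ => ?_)
  simp only [Pi.add_apply]
  ring

theorem Q_smul (c : F) (v : Fin m ⊕ Fin m → F) :
    Cfsg.quadFormPlus m F (c • v) = c * c * Cfsg.quadFormPlus m F v := by
  unfold Cfsg.quadFormPlus
  rw [Finset.mul_sum]
  refine Finset.sum_congr rfl (fun i _ => ?_)
  simp only [Pi.smul_apply, smul_eq_mul]
  ring

theorem Bf_symm (v w : Fin m ⊕ Fin m → F) : Bf F m v w = Bf F m w v := by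
  rw [Bf_apply, Bf_apply, add_comm]
  congr 1 <;> exact Finset.sum_congr rfl (fun i _ => mul_comm _ _)

theorem Bf_nondeg : (Bf F m).Nondegenerate := by
  apply LinearMap.BilinForm.nondegenerate_toBilin'_of_det_ne_zero'
  have hJ : J F m * J F m = 1 := by
    simp [J, Matrix.fromBlocks_multiply, Matrix.fromBlocks_one]
  intro h0
  have h1 := congrArg Matrix.det hJ
  rw [Matrix.det_mul, Matrix.det_one, h0, zero_mul] at h1
  exact zero_ne_one h1

theorem finrank_V : finrank F (Fin m ⊕ Fin m → F) = 2 * m := by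
  rw [Module.finrank_fintype_fun_eq_card, Fintype.card_sum, Fintype.card_fin]; ring

theorem finrank_perp (W : Submodule F (Fin m ⊕ Fin m → F)) :
    finrank F ((Bf F m).orthogonal W) = 2 * m - finrank F W := by
  rw [LinearMap.BilinForm.finrank_orthogonal Bf_nondeg, finrank_V]

/-- maximal totally singular -/
def IsM (U : Submodule F (Fin m ⊕ Fin m → F)) : Prop :=
  finrank F U = m ∧ ∀ w ∈ U, Cfsg.quadFormPlus m F w = 0

variable {U U' W X Z H Y : Submodule F (Fin m ⊕ Fin m → F)} {x : Fin m ⊕ Fin m → F}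

theorem ts_ortho (hU : ∀ w ∈ U, Cfsg.quadFormPlus m F w = 0)
    {u u' : Fin m ⊕ Fin m → F} (hu : u ∈ U) (hu' : u' ∈ U) : Bf F m u u' = 0 := by
  have h := Q_add u u'
  rw [hU _ (U.add_mem hu hu'), hU _ hu, hU _ hu', zero_add, zero_add] at h
  exact h.symm

theorem le_perp (hU : ∀ w ∈ U, Cfsg.quadFormPlus m F w = 0) :
    U ≤ (Bf F m).orthogonal U := by
  intro u hu
  rw [LinearMap.BilinForm.mem_orthogonal_iff]
  intro n hn
  exact ts_ortho hU hn hu

theorem ts_le (hU : ∀ w ∈ U, Cfsg.quadFormPlus m F w = 0) : finrank F U ≤ m := by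
  have h1 := Submodule.finrank_mono (le_perp hU)
  rw [finrank_perp] at h1
  omega

theorem perp_self (hU : IsM U) : (Bf F m).orthogonal U = U := by
  symm
  apply Submodule.eq_of_le_of_finrank_le (le_perp hU.2)
  rw [finrank_perp, hU.1]; omega

theorem le_or_le_of_forall (h : ∀ y ∈ Y, y ∈ U ∨ y ∈ U') : Y ≤ U ∨ Y ≤ U' := by
  by_contra hcon
  rw [not_or] at hcon
  obtain ⟨a, haY, haU⟩ := SetLike.not_le_iff_exists.1 hcon.1
  obtain ⟨b, hbY, hbU'⟩ := SetLike.not_le_iff_exists.1 hcon.2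
  have ha' : a ∈ U' := (h a haY).resolve_left haU
  have hb' : b ∈ U := (h b hbY).resolve_right hbU'
  rcases h (a + b) (Y.add_mem haY hbY) with h1 | h1
  · exact haU (by simpa using U.sub_mem h1 hb')
  · exact hbU' (by simpa using U'.sub_mem h1 ha')

theorem mem_H {v : Fin m ⊕ Fin m → F} :
    v ∈ (Bf F m).orthogonal (Submodule.span F {x}) ↔ Bf F m x v = 0 := by
  constructor
  · intro h; exact h x (Submodule.mem_span_singleton_self x)
  · intro h
    rw [LinearMap.BilinForm.mem_orthogonal_iff]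
    intro n hn
    obtain ⟨c, rfl⟩ := Submodule.mem_span_singleton.1 hn
    rw [map_smul, LinearMap.smul_apply, h, smul_zero]

section move

variable (hm : 1 ≤ m) (hU : IsM U) (hx : Cfsg.quadFormPlus m F x = 0) (hxU : x ∉ U)
  (hH : ∀ v, v ∈ H ↔ Bf F m x v = 0) (hHd : finrank F H = 2 * m - 1)

include hU hxU hH in
theorem not_le_H : ¬ U ≤ H := by
  intro hle
  apply hxU
  rw [← perp_self hU, LinearMap.BilinForm.mem_orthogonal_iff]
  intro n hn
  rw [Bf_symm]
  exact (hH n).1 (hle hn)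

include hm hU hxU hH hHd in
theorem finrank_inf_H : finrank F ↥(U ⊓ H) + 1 = m := by
  have h2 := Submodule.finrank_sup_add_finrank_inf_eq U H
  have h3 := Submodule.finrank_le (U ⊔ H)
  rw [finrank_V] at h3
  have h4 : finrank F ↥(U ⊓ H) < finrank F U := by
    apply Submodule.finrank_lt_finrank_of_lt
    exact lt_of_le_of_ne inf_le_left (fun h => not_le_H hU hxU hH (inf_eq_left.1 h))
  rw [hU.1] at h2 h4
  omega

include hU hx hH in
theorem move_ts : ∀ w ∈ U ⊓ H ⊔ Submodule.span F {x}, Cfsg.quadFormPlus m F w = 0 := by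
  intro w hw
  obtain ⟨a, ha, s, hs, rfl⟩ := Submodule.mem_sup.1 hw
  obtain ⟨c, rfl⟩ := Submodule.mem_span_singleton.1 hs
  obtain ⟨haU, haH⟩ := Submodule.mem_inf.1 ha
  rw [Q_add, hU.2 a haU, Q_smul, hx, map_smul, smul_eq_mul, Bf_symm, (hH a).1 haH]
  ring

include hm hU hx hxU hH hHd in
theorem move_isM : IsM (U ⊓ H ⊔ Submodule.span F {x}) := by
  have hts := move_ts hU hx hH
  refine ⟨?_, hts⟩
  have h1 := ts_le hts
  have h2 := finrank_inf_H hm hU hxU hH hHd
  have h3 : finrank F ↥(U ⊓ H) < finrank F ↥(U ⊓ H ⊔ Submodule.span F {x}) := by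
    apply Submodule.finrank_lt_finrank_of_lt
    refine lt_of_le_of_ne le_sup_left (fun h => hxU ?_)
    have hxm : x ∈ U ⊓ H ⊔ Submodule.span F {x} :=
      Submodule.mem_sup_right (Submodule.mem_span_singleton_self x)
    rw [← h] at hxm
    exact (Submodule.mem_inf.1 hxm).1
  omega

include hm hU hx hxU hH hHd in
theorem move_adj : finrank F ↥(U ⊓ (U ⊓ H ⊔ Submodule.span F {x})) + 1 = m := by
  have h2 := finrank_inf_H hm hU hxU hH hHd
  have h3 : finrank F ↥(U ⊓ H) ≤ finrank F ↥(U ⊓ (U ⊓ H ⊔ Submodule.span F {x})) :=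
    Submodule.finrank_mono (le_inf inf_le_left le_sup_left)
  have h4 : finrank F ↥(U ⊓ (U ⊓ H ⊔ Submodule.span F {x})) < finrank F U := by
    apply Submodule.finrank_lt_finrank_of_lt
    refine lt_of_le_of_ne inf_le_left (fun h => hxU ?_)
    have hle : U ≤ U ⊓ H ⊔ Submodule.span F {x} := inf_eq_left.1 h
    have heq : U = U ⊓ H ⊔ Submodule.span F {x} :=
      Submodule.eq_of_le_of_finrank_le hle
        (by rw [(move_isM hm hU hx hxU hH hHd).1, hU.1])
    rw [heq]
    exact Submodule.mem_sup_right (Submodule.mem_span_singleton_self x)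
  rw [hU.1] at h4
  omega

include hU hxU hH in
theorem move_W (hW : IsM W) (hxW : x ∈ W) :
    finrank F ↥((U ⊓ H ⊔ Submodule.span F {x}) ⊓ W) = finrank F ↥(U ⊓ W) + 1 := by
  have hx0 : x ≠ 0 := fun h => hxU (by rw [h]; exact U.zero_mem)
  have heq : (U ⊓ H ⊔ Submodule.span F {x}) ⊓ W = (U ⊓ W) ⊔ Submodule.span F {x} := by
    apply le_antisymm
    · intro v hv
      obtain ⟨hv1, hvW⟩ := Submodule.mem_inf.1 hv
      obtain ⟨a, ha, s, hs, rfl⟩ := Submodule.mem_sup.1 hv1
      obtain ⟨haU, haH⟩ := Submodule.mem_inf.1 ha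
      have hsW : s ∈ W := (Submodule.span_singleton_le_iff_mem x W).2 hxW hs
      have haW : a ∈ W := by simpa using W.sub_mem hvW hsW
      exact Submodule.add_mem_sup (Submodule.mem_inf.2 ⟨haU, haW⟩) hs
    · apply sup_le
      · intro v hv
        obtain ⟨hvU, hvW⟩ := Submodule.mem_inf.1 hv
        refine Submodule.mem_inf.2
          ⟨Submodule.mem_sup_left (Submodule.mem_inf.2 ⟨hvU, (hH v).2 ?_⟩), hvW⟩
        exact ts_ortho hW.2 hxW hvW
      · rw [Submodule.span_singleton_le_iff_mem]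
        exact Submodule.mem_inf.2
          ⟨Submodule.mem_sup_right (Submodule.mem_span_singleton_self x), hxW⟩
  rw [heq]
  have hdisj : (U ⊓ W) ⊓ Submodule.span F {x} = ⊥ :=
    disjoint_iff.1 ((Submodule.disjoint_span_singleton' hx0).2
      (fun h => hxU (Submodule.mem_inf.1 h).1))
  have h1 := Submodule.finrank_sup_add_finrank_inf_eq (U ⊓ W) (Submodule.span F {x})
  rw [hdisj, finrank_bot, finrank_span_singleton hx0] at h1
  omega

end move

theorem AL_mem (hU : IsM U) (hU' : IsM U') (hX : IsM X)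
    (hZU : Z ≤ U) (hZU' : Z ≤ U') (hZ : finrank F Z + 1 = m) (hcap : U ⊓ U' ≤ Z) :
    ∀ y ∈ (Bf F m).orthogonal (X ⊔ Z), y ∈ U ∨ y ∈ U' := by
  intro y hy
  have hyX : y ∈ X := by
    rw [← perp_self hX]
    exact LinearMap.BilinForm.orthogonal_le le_sup_left hy
  have hyZ : y ∈ (Bf F m).orthogonal Z := LinearMap.BilinForm.orthogonal_le le_sup_right hy
  have hUU' : U ⊓ U' = Z := le_antisymm hcap (le_inf hZU hZU')
  have hsupdim : finrank F ↥(U ⊔ U') = m + 1 := by
    have h := Submodule.finrank_sup_add_finrank_inf_eq U U'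
    rw [hUU', hU.1, hU'.1] at h
    omega
  have hle : U ⊔ U' ≤ (Bf F m).orthogonal Z := by
    apply sup_le
    · intro u hu
      rw [LinearMap.BilinForm.mem_orthogonal_iff]
      intro n hn
      exact ts_ortho hU.2 (hZU hn) hu
    · intro u hu
      rw [LinearMap.BilinForm.mem_orthogonal_iff]
      intro n hn
      exact ts_ortho hU'.2 (hZU' hn) hu
  have hperpZ : U ⊔ U' = (Bf F m).orthogonal Z := by
    apply Submodule.eq_of_le_of_finrank_le hle
    rw [finrank_perp, hsupdim]; omega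
  rw [← hperpZ] at hyZ
  obtain ⟨a, ha, b, hb, rfl⟩ := Submodule.mem_sup.1 hyZ
  have hab : Bf F m a b = 0 := by
    have h := Q_add a b
    rw [hX.2 _ hyX, hU.2 a ha, hU'.2 b hb, zero_add, zero_add] at h
    exact h.symm
  by_cases hbZ : b ∈ Z
  · left; exact U.add_mem ha (hZU hbZ)
  · right
    have hU'eq : Z ⊔ Submodule.span F {b} = U' := by
      apply Submodule.eq_of_le_of_finrank_le
        (sup_le hZU' ((Submodule.span_singleton_le_iff_mem b U').2 hb))
      have hlt : finrank F Z < finrank F ↥(Z ⊔ Submodule.span F {b}) := by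
        apply Submodule.finrank_lt_finrank_of_lt
        refine lt_of_le_of_ne le_sup_left (fun h => hbZ ?_)
        rw [h]
        exact Submodule.mem_sup_right (Submodule.mem_span_singleton_self b)
      rw [hU'.1]; omega
    have haU' : a ∈ U' := by
      rw [← perp_self hU', LinearMap.BilinForm.mem_orthogonal_iff]
      intro n hn
      rw [← hU'eq] at hn
      obtain ⟨z, hz, s, hs, rfl⟩ := Submodule.mem_sup.1 hn
      obtain ⟨c, rfl⟩ := Submodule.mem_span_singleton.1 hs
      rw [map_add, LinearMap.add_apply, map_smul, LinearMap.smul_apply,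
        ts_ortho hU.2 (hZU hz) ha, Bf_symm b a, hab, smul_zero, add_zero]
    exact U'.add_mem haU' hb

theorem AL_aux (hU : IsM U) (hU' : IsM U') (hX : IsM X)
    (hZU : Z ≤ U) (hZU' : Z ≤ U') (hZ : finrank F Z + 1 = m) (hcap : U ⊓ U' ≤ Z)
    (hY : (Bf F m).orthogonal (X ⊔ Z) ≤ U) :
    finrank F ↥(U ⊓ X) = finrank F ↥(U' ⊓ X) + 1 := by
  have hYd : finrank F ↥((Bf F m).orthogonal (X ⊔ Z)) = finrank F ↥(X ⊓ Z) + 1 := by
    have h := Submodule.finrank_sup_add_finrank_inf_eq X Z
    have h1 := Submodule.finrank_le (X ⊔ Z)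
    rw [finrank_V] at h1
    rw [finrank_perp]
    rw [hX.1] at h
    omega
  have hYX : (Bf F m).orthogonal (X ⊔ Z) ≤ X := by
    intro y hy
    rw [← perp_self hX]
    exact LinearMap.BilinForm.orthogonal_le le_sup_left hy
  have h1 : U ⊓ X = (Bf F m).orthogonal (X ⊔ Z) := by
    apply le_antisymm
    · intro v hv
      obtain ⟨hvU, hvX⟩ := Submodule.mem_inf.1 hv
      rw [LinearMap.BilinForm.mem_orthogonal_iff]
      intro n hn
      obtain ⟨a, ha, b, hb, rfl⟩ := Submodule.mem_sup.1 hn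
      rw [map_add, LinearMap.add_apply, ts_ortho hX.2 ha hvX, ts_ortho hU.2 (hZU hb) hvU,
        add_zero]
    · exact le_inf hY hYX
  have h2 : U' ⊓ X = X ⊓ Z := by
    apply le_antisymm
    · intro v hv
      obtain ⟨hvU', hvX⟩ := Submodule.mem_inf.1 hv
      have hvY : v ∈ (Bf F m).orthogonal (X ⊔ Z) := by
        rw [LinearMap.BilinForm.mem_orthogonal_iff]
        intro n hn
        obtain ⟨a, ha, b, hb, rfl⟩ := Submodule.mem_sup.1 hn
        rw [map_add, LinearMap.add_apply, ts_ortho hX.2 ha hvX,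
          ts_ortho hU'.2 (hZU' hb) hvU', add_zero]
      exact Submodule.mem_inf.2 ⟨hvX, hcap (Submodule.mem_inf.2 ⟨hY hvY, hvU'⟩)⟩
    · exact le_inf (inf_le_right.trans hZU') inf_le_left
  rw [h1, h2, hYd]

theorem AL (hU : IsM U) (hU' : IsM U') (hX : IsM X)
    (hadj : finrank F ↥(U ⊓ U') + 1 = m) :
    finrank F ↥(U ⊓ X) = finrank F ↥(U' ⊓ X) + 1 ∨
      finrank F ↥(U' ⊓ X) = finrank F ↥(U ⊓ X) + 1 := by
  rcases le_or_le_of_forall
    (AL_mem (Z := U ⊓ U') hU hU' hX inf_le_left inf_le_right hadj le_rfl) with h | h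
  · left; exact AL_aux (Z := U ⊓ U') hU hU' hX inf_le_left inf_le_right hadj le_rfl h
  · right
    exact AL_aux (Z := U ⊓ U') hU' hU hX inf_le_right inf_le_left hadj (inf_comm U' U).le h

theorem parity (hm : 1 ≤ m) (hW : IsM W) (hX : IsM X) :
    ∀ (n : ℕ) (U : Submodule F (Fin m ⊕ Fin m → F)), IsM U → m - finrank F ↥(U ⊓ W) = n →
      Even ((m - finrank F ↥(U ⊓ W)) + (m - finrank F ↥(W ⊓ X)) + (m - finrank F ↥(U ⊓ X))) := by
  intro n
  induction n with
  | zero =>
    intro U hU hn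
    have hUW : U ⊓ W = U :=
      Submodule.eq_of_le_of_finrank_le inf_le_left (by rw [hU.1]; omega)
    have hle : U ≤ W := inf_eq_left.1 hUW
    have hEq : U = W := Submodule.eq_of_le_of_finrank_le hle (by rw [hU.1, hW.1])
    subst hEq
    rw [Nat.even_iff]
    omega
  | succ n ih =>
    intro U hU hn
    have h1 : finrank F ↥(U ⊓ W) < m := by omega
    have hnle : ¬ W ≤ U := by
      intro hle
      have h : U ⊓ W = W := inf_eq_right.2 hle
      rw [h, hW.1] at h1
      exact lt_irrefl _ h1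
    obtain ⟨x, hxW, hxU⟩ := SetLike.not_le_iff_exists.1 hnle
    have hx : Cfsg.quadFormPlus m F x = 0 := hW.2 x hxW
    have hx0 : x ≠ 0 := fun h => hxU (by rw [h]; exact U.zero_mem)
    have hH : ∀ v, v ∈ (Bf F m).orthogonal (Submodule.span F {x}) ↔ Bf F m x v = 0 :=
      fun v => mem_H
    have hHd : finrank F ↥((Bf F m).orthogonal (Submodule.span F {x})) = 2 * m - 1 := by
      rw [finrank_perp, finrank_span_singleton hx0]
    have hU' := move_isM hm hU hx hxU hH hHd
    have hadj := move_adj hm hU hx hxU hH hHd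
    have hWd := move_W hU hxU hH hW hxW
    have hih := ih _ hU' (by rw [hWd]; omega)
    have hal := AL hU hU' hX hadj
    have b1 : finrank F ↥(U ⊓ X) ≤ m :=
      (Submodule.finrank_mono inf_le_left).trans (le_of_eq hU.1)
    have b2 : finrank F ↥((U ⊓ (Bf F m).orthogonal (Submodule.span F {x})
        ⊔ Submodule.span F {x}) ⊓ X) ≤ m :=
      (Submodule.finrank_mono inf_le_left).trans (le_of_eq hU'.1)
    have b3 : finrank F ↥(W ⊓ X) ≤ m :=
      (Submodule.finrank_mono inf_le_left).trans (le_of_eq hW.1)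
    rw [Nat.even_iff] at hih ⊢
    omega

theorem exists_pair (hm : 1 ≤ m) : ∃ U W : Submodule F (Fin m ⊕ Fin m → F),
    IsM U ∧ IsM W ∧ finrank F ↥(U ⊓ W) + 1 = m := by
  let E : Submodule F (Fin m ⊕ Fin m → F) :=
    Submodule.span F (Set.range (⇑(Pi.basisFun F (Fin m ⊕ Fin m)) ∘ Sum.inl))
  have hEr : ∀ v ∈ E, ∀ j : Fin m, v (Sum.inr j) = 0 := by
    intro v hv j
    have hle : E ≤ LinearMap.ker
        (LinearMap.proj (R := F) (φ := fun _ : Fin m ⊕ Fin m => F) (Sum.inr j)) := by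
      show Submodule.span F _ ≤ _
      rw [Submodule.span_le]
      rintro _ ⟨i, rfl⟩
      rw [SetLike.mem_coe, LinearMap.mem_ker]
      simp
    exact LinearMap.mem_ker.1 (hle hv)
  have hE : IsM E := by
    refine ⟨?_, ?_⟩
    · show finrank F (Submodule.span F
        (Set.range (⇑(Pi.basisFun F (Fin m ⊕ Fin m)) ∘ Sum.inl))) = m
      rw [finrank_span_eq_card
        ((Pi.basisFun F (Fin m ⊕ Fin m)).linearIndependent.comp Sum.inl Sum.inl_injective),
        Fintype.card_fin]
    · intro w hw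
      unfold Cfsg.quadFormPlus
      exact Finset.sum_eq_zero (fun i _ => by rw [hEr w hw i, mul_zero])
  let x : Fin m ⊕ Fin m → F := Pi.single (Sum.inr ⟨0, hm⟩) 1
  have hx : Cfsg.quadFormPlus m F x = 0 := by
    unfold Cfsg.quadFormPlus
    exact Finset.sum_eq_zero (fun i _ => by simp [x])
  have hxE : x ∉ E := by
    intro h
    have h1 := hEr x h ⟨0, hm⟩
    simp [x] at h1
  have hx0 : x ≠ 0 := fun h => hxE (by rw [h]; exact E.zero_mem)
  have hH : ∀ v, v ∈ (Bf F m).orthogonal (Submodule.span F {x}) ↔ Bf F m x v = 0 :=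
    fun v => mem_H
  have hHd : finrank F ↥((Bf F m).orthogonal (Submodule.span F {x})) = 2 * m - 1 := by
    rw [finrank_perp, finrank_span_singleton hx0]
  exact ⟨E, _, hE, move_isM hm hE hx hxE hH hHd, move_adj hm hE hx hxE hH hHd⟩

end Cfsg.Agent.Helper2.TwoFam
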